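import Cfsg.Agent.BlockDih.Fourier

/-!
# The arithmetic of the columns of a block with dihedral defect group
-/

namespace Cfsg.Agent.BlockDih

open scoped ComplexConjugate

set_option linter.unusedSectionVars false

variable {ι : Type*} [Fintype ι]

/-- The value at the central involution. -/
def zInt {m : ℕ} [NeZero m] (N : ι → ZMod m → ℤ) (χ : ι) : ℤ :=
  ∑ r : ZMod m, if Even r.val then N χ r else -N χ r

theorem odd_sq_eight {z : ℤ} (hz : Odd z) : (8 : ℤ) ∣ z ^ 2 - 1 := by
  obtain ⟨t, rfl⟩ := hz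
  obtain ⟨c, hc⟩ := Int.even_mul_succ_self t
  exact ⟨c, by linear_combination (4 : ℤ) * hc⟩

theorem one_le_sq_of_odd {z : ℤ} (hz : Odd z) : 1 ≤ z ^ 2 := by
  obtain ⟨t, rfl⟩ := hz
  rcases le_or_gt 0 t with h | h <;> nlinarith

/-- An integral vector of norm two. -/
theorem exists_support_two {v : ι → ℤ} (hv : ∑ χ, v χ ^ 2 = 2) :
    ∃ a b, a ≠ b ∧ v a ^ 2 = 1 ∧ v b ^ 2 = 1 ∧ ∀ c, c ≠ a → c ≠ b → v c = 0 := by
  classical
  have hle : ∀ c, v c ^ 2 = 0 ∨ v c ^ 2 = 1 := by
    intro c
    have h1 : v c ^ 2 ≤ 2 := hv ▸ Finset.single_le_sum (fun x _ => sq_nonneg (v x)) (Finset.mem_univ c)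
    have h2 : v c ≤ 1 := by nlinarith
    have h3 : -1 ≤ v c := by nlinarith
    interval_cases (v c) <;> simp
  have hcard : (Finset.univ.filter fun c => v c ^ 2 = 1).card = 2 := by
    have : ∑ c, v c ^ 2 = ∑ c, if v c ^ 2 = 1 then (1 : ℤ) else 0 :=
      Finset.sum_congr rfl fun c _ => by rcases hle c with h | h <;> simp [h]
    rw [this, Finset.sum_boole] at hv
    exact_mod_cast hv
  obtain ⟨a, b, hab, hs⟩ := Finset.card_eq_two.1 hcard
  refine ⟨a, b, hab, ?_, ?_, fun c ha hb => ?_⟩
  · have : a ∈ Finset.univ.filter fun c => v c ^ 2 = 1 := by rw [hs]; simp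
    simpa using this
  · have : b ∈ Finset.univ.filter fun c => v c ^ 2 = 1 := by rw [hs]; simp
    simpa using this
  · refine pow_eq_zero_iff two_ne_zero |>.1 ((hle c).resolve_right fun h => ?_)
    have : c ∈ ({a, b} : Finset ι) := hs ▸ Finset.mem_filter.2 ⟨Finset.mem_univ _, h⟩
    simp [ha, hb] at this

section Basic

variable {h : ℕ} [NeZero (2 * h)] {N : ι → ZMod (2 * h) → ℤ}

theorem val_natCast_half : ((h : ZMod (2 * h))).val = h := by
  rw [ZMod.val_natCast, Nat.mod_eq_of_lt]
  have := NeZero.ne (2 * h)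
  omega

theorem half_ne_zero : (h : ZMod (2 * h)) ≠ 0 := by
  intro e
  have := congrArg ZMod.val e
  rw [val_natCast_half, ZMod.val_zero] at this
  exact NeZero.ne (2 * h) (by omega)

theorem neg_half : -(h : ZMod (2 * h)) = h := by
  rw [neg_eq_iff_add_eq_zero, ← Nat.cast_add, ← two_mul, ZMod.natCast_self]

theorem stdAddChar_mul_half (r : ZMod (2 * h)) :
    ZMod.stdAddChar (r * (h : ZMod (2 * h))) = ((-1 : ℂ)) ^ r.val := by
  have h1 : ZMod.stdAddChar (h : ZMod (2 * h)) = -1 := by
    have : ((h : ℤ) : ZMod (2 * h)) = (h : ZMod (2 * h)) := Int.cast_natCast h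
    rw [← this, ZMod.stdAddChar_coe]
    have hh : (h : ℂ) ≠ 0 := Nat.cast_ne_zero.2 fun e => NeZero.ne (2 * h) (by omega)
    rw [show 2 * (Real.pi : ℂ) * Complex.I * ((h : ℤ) : ℂ) / ((2 * h : ℕ) : ℂ) =
      Real.pi * Complex.I by push_cast; field_simp]
    exact Complex.exp_pi_mul_I
  conv_lhs => rw [← ZMod.natCast_zmod_val r, ← nsmul_eq_mul, AddChar.map_nsmul_eq_pow, h1]

theorem col_half (χ : ι) : col N (h : ZMod (2 * h)) χ = (zInt N χ : ℂ) := by
  rw [col, zInt, Int.cast_sum]
  refine Finset.sum_congr rfl fun r _ => ?_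
  rw [stdAddChar_mul_half]
  rcases Nat.even_or_odd r.val with e | e
  · simp [e]
  · simp [e.neg_one_pow, Nat.not_even_iff_odd.2 e]

/-- The value at the central involution has the parity of `N (h) - N 0`. -/
theorem even_zInt_sub (hs : ∀ χ r, N χ (-r) = N χ r) (χ : ι) :
    Even (zInt N χ - (N χ (h : ZMod (2 * h)) - N χ 0)) := by
  rw [← ZMod.intCast_eq_zero_iff_even]
  push_cast [zInt]
  have h1 : ∀ r : ZMod (2 * h), (((if Even r.val then N χ r else -N χ r : ℤ)) : ZMod 2) =
      (N χ r : ZMod 2) := fun r => by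
    split_ifs <;> simp [ZModModule.neg_eq_self]
  simp only [apply_ite (Int.cast : ℤ → ZMod 2), Int.cast_neg] at h1
  rw [Finset.sum_congr rfl fun r _ => h1 r]
  have h2 : ∑ r ∈ (Finset.univ : Finset (ZMod (2 * h))) \ {0, (h : ZMod (2 * h))},
      (N χ r : ZMod 2) = 0 := by
    refine Finset.sum_involution (fun r _ => -r) (fun r _ => ?_) (fun r hr _ e => ?_)
      (fun r hr => ?_) fun r _ => neg_neg r
    · rw [hs, ← two_mul, show (2 : ZMod 2) = 0 from rfl, zero_mul]
    · simp only [Finset.mem_sdiff, Finset.mem_univ, Finset.mem_insert, Finset.mem_singleton,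
        true_and, not_or] at hr
      have e2 : r + r = 0 := by
        conv_lhs => arg 1; rw [← e]
        exact neg_add_cancel r
      rw [← ZMod.natCast_zmod_val r, ← Nat.cast_add, ZMod.natCast_eq_zero_iff] at e2
      obtain ⟨c, hc⟩ := e2
      have hlt := ZMod.val_lt r
      have : c < 2 := by
        by_contra hc2
        have : 2 * h * 2 ≤ 2 * h * c := Nat.mul_le_mul_left _ (by omega)
        omega
      interval_cases c
      · exact hr.1 ((ZMod.val_eq_zero r).1 (by omega))
      · exact hr.2 (by rw [← ZMod.natCast_zmod_val r, show r.val = h by omega])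
    · simp only [Finset.mem_sdiff, Finset.mem_univ, Finset.mem_insert, Finset.mem_singleton,
        true_and, not_or] at hr ⊢
      refine ⟨fun e => hr.1 (by simpa using e), fun e => hr.2 ?_⟩
      rw [← neg_neg r, e, neg_half]
  rw [← Finset.sum_sdiff (Finset.subset_univ ({0, (h : ZMod (2 * h))} : Finset _)), h2, zero_add,
    Finset.sum_pair half_ne_zero.symm, sub_eq_zero, CharTwo.sub_eq_add, add_comm]

theorem sum_zInt_sq (hs : ∀ χ r, N χ (-r) = N χ r) (ho : DihOrth N) :
    ∑ χ, zInt N χ ^ 2 = 4 * h := by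
  have h1 := ho h h half_ne_zero half_ne_zero
  simp only [col_half, neg_half, if_true, map_intCast] at h1
  apply Int.cast_injective (α := ℂ)
  push_cast [sq]
  rw [h1]
  push_cast
  ring

theorem sum_top_sq (hs : ∀ χ r, N χ (-r) = N χ r) (ho : DihOrth N) :
    ∑ χ, (N χ (h : ZMod (2 * h)) - N χ 0) ^ 2 = 4 := by
  simp only [sq]
  rw [diff_mul_diff hs ho]
  simp [pmDelta, neg_half, half_ne_zero, half_ne_zero.symm]

theorem natCast_inj_of_lt {i j : ℕ} (hi : i < 2 * h) (hj : j < 2 * h) :
    (i : ZMod (2 * h)) = j ↔ i = j := by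
  refine ⟨fun e => ?_, fun e => e ▸ rfl⟩
  have := congrArg ZMod.val e
  rwa [ZMod.val_natCast, ZMod.val_natCast, Nat.mod_eq_of_lt hi, Nat.mod_eq_of_lt hj] at this

theorem natCast_ne_neg {i j : ℕ} (hi : i < h) (hi0 : 0 < i) (hj : j ≤ h) :
    (i : ZMod (2 * h)) ≠ -(j : ZMod (2 * h)) := by
  intro e
  rw [eq_neg_iff_add_eq_zero, ← Nat.cast_add, ZMod.natCast_eq_zero_iff] at e
  have := Nat.le_of_dvd (by omega) e
  omega

theorem pmDelta_middle {i j : ℕ} (hi : i < h) (hi0 : 0 < i) (hj : j ≤ h) :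
    pmDelta (i : ZMod (2 * h)) (j : ZMod (2 * h)) = if i = j then 1 else 0 := by
  rw [pmDelta, if_neg (natCast_ne_neg hi hi0 hj), add_zero]
  simp only [natCast_inj_of_lt (show i < 2 * h by omega) (show j < 2 * h by omega)]

/-- The difference `N (r + 2) - N 1` of multiplicities in the middle range. -/
def vdiff (N : ι → ZMod (2 * h) → ℤ) (r : Fin (h - 2)) (χ : ι) : ℤ :=
  N χ ((r.1 + 2 : ℕ) : ZMod (2 * h)) - N χ ((1 : ℕ) : ZMod (2 * h))

theorem vdiff_mul (hs : ∀ χ r, N χ (-r) = N χ r) (ho : DihOrth N) (r s : Fin (h - 2)) :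
    ∑ χ, vdiff N r χ * vdiff N s χ = 1 + if r = s then 1 else 0 := by
  have hr := r.2
  have hs' := s.2
  simp only [vdiff]
  rw [diff_mul_diff hs ho, pmDelta_middle (by omega) (by omega) (by omega),
    pmDelta_middle (by omega) (by omega) (by omega), pmDelta_middle (by omega) (by omega) (by omega),
    pmDelta_middle (by omega) (by omega) (by omega)]
  simp [Fin.ext_iff, add_comm]

theorem top_mul_vdiff (hs : ∀ χ r, N χ (-r) = N χ r) (ho : DihOrth N) (r : Fin (h - 2)) :
    ∑ χ, (N χ (h : ZMod (2 * h)) - N χ 0) * vdiff N r χ = 0 := by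
  have hr := r.2
  have hc : ∀ χ, (N χ (h : ZMod (2 * h)) - N χ 0) * vdiff N r χ =
      vdiff N r χ * (N χ (h : ZMod (2 * h)) - N χ ((0 : ℕ) : ZMod (2 * h))) := fun χ => by
    rw [Nat.cast_zero, mul_comm]
  rw [Finset.sum_congr rfl fun χ _ => hc χ]
  simp only [vdiff]
  rw [diff_mul_diff hs ho, pmDelta_middle (by omega) (by omega) le_rfl,
    pmDelta_middle (by omega) (by omega) (by omega), pmDelta_middle (by omega) (by omega) le_rfl,
    pmDelta_middle (by omega) (by omega) (by omega), if_neg (by omega), if_neg (by omega),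
    if_neg (by omega), if_neg (by omega)]
  simp

theorem deg_mul_diff {d : ι → ℝ}
    (hd : ∀ i : ZMod (2 * h), i ≠ 0 → ∑ χ, (d χ : ℂ) * col N i χ = 0) (r s : ZMod (2 * h)) :
    ∑ χ, d χ * ((N χ r - N χ s : ℤ) : ℝ) = 0 := by
  have hm : (((2 * h : ℕ)) : ℂ) ≠ 0 := Nat.cast_ne_zero.2 (NeZero.ne _)
  apply Complex.ofReal_injective
  push_cast
  apply mul_left_cancel₀ hm
  rw [mul_zero, Finset.mul_sum]
  have : ∀ χ, ((2 * h : ℕ) : ℂ) * ((d χ : ℂ) * ((N χ r : ℂ) - (N χ s : ℂ))) =
      ∑ i, (d χ : ℂ) * col N i χ *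
        (ZMod.stdAddChar (-(r * i)) - ZMod.stdAddChar (-(s * i))) := fun χ => by
    have := card_mul_diff N χ r s
    rw [Int.cast_sub] at this
    rw [mul_left_comm, this, Finset.mul_sum]
    simp only [mul_assoc]
  simp only [this]
  rw [Finset.sum_comm]
  refine Finset.sum_eq_zero fun i _ => ?_
  rw [← Finset.sum_mul]
  by_cases hi : i = 0
  · simp [hi]
  rw [hd i hi, zero_mul]

end Basic

/-- The differences and the degrees are independent on the support of the differences. -/
theorem card_support_ge {k : ℕ} {v : Fin k → ι → ℤ} {d : ι → ℝ} (hd : ∀ χ, 0 < d χ)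
    (hv : ∀ r s, ∑ χ, v r χ * v s χ = 1 + if r = s then 1 else 0)
    (hvd : ∀ r, ∑ χ, d χ * (v r χ : ℝ) = 0) {S : Finset ι} (hS : S.Nonempty)
    (hsupp : ∀ r, ∀ χ ∉ S, v r χ = 0) : k + 1 ≤ S.card := by
  classical
  let w : Option (Fin k) → (S → ℝ) := fun o x => o.elim (d x) fun r => (v r x : ℝ)
  have hli : LinearIndependent ℝ w := by
    rw [Fintype.linearIndependent_iff]
    intro g hg
    have hpt : ∀ x ∈ S, g none * d x + ∑ r, g (some r) * (v r x : ℝ) = 0 := fun x hx => by
      simpa [w, Fintype.sum_option, Finset.sum_apply] using congrFun hg ⟨x, hx⟩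
    have hsum : ∀ f : ι → ℝ, g none * (∑ x ∈ S, f x * d x) +
        ∑ r, g (some r) * (∑ x ∈ S, f x * (v r x : ℝ)) = 0 := fun f => by
      have : ∑ x ∈ S, f x * (g none * d x + ∑ r, g (some r) * (v r x : ℝ)) = 0 :=
        Finset.sum_eq_zero fun x hx => by rw [hpt x hx, mul_zero]
      rw [← this]
      simp only [mul_add, Finset.sum_add_distrib, Finset.mul_sum]
      congr 1
      · exact Finset.sum_congr rfl fun x _ => by ring
      · rw [Finset.sum_comm]
        exact Finset.sum_congr rfl fun x _ => Finset.sum_congr rfl fun r _ => by ring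
    have hext : ∀ r (f : ι → ℝ), ∑ x ∈ S, f x * (v r x : ℝ) = ∑ x, f x * (v r x : ℝ) :=
      fun r f => Finset.sum_subset (Finset.subset_univ S) fun x _ hx => by
        simp [hsupp r x hx]
    have hn : g none = 0 := by
      have := hsum d
      simp only [hext, hvd, mul_zero, Finset.sum_const_zero, add_zero] at this
      exact (mul_eq_zero.1 this).resolve_right
        (Finset.sum_pos (fun x _ => mul_pos (hd x) (hd x)) hS).ne'
    have hs : ∀ s, g (some s) + ∑ r, g (some r) = 0 := fun s => by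
      have := hsum fun x => (v s x : ℝ)
      simp only [hn, zero_mul, zero_add, hext] at this
      have he : ∀ r, ∑ x, (v s x : ℝ) * (v r x : ℝ) = 1 + if s = r then 1 else 0 := fun r => by
        have := congrArg (Int.cast : ℤ → ℝ) (hv s r)
        push_cast at this
        exact this
      simp only [he, mul_add, mul_one, mul_ite, mul_zero, Finset.sum_add_distrib] at this
      simpa [add_comm] using this
    have hC : ∑ r, g (some r) = 0 := by
      have := Finset.sum_eq_zero (s := Finset.univ) fun s _ => hs s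
      rw [Finset.sum_add_distrib, Finset.sum_const, nsmul_eq_mul] at this
      have hk : (0 : ℝ) < 1 + ((Finset.univ : Finset (Fin k)).card : ℝ) := by positivity
      have h2 : (1 + ((Finset.univ : Finset (Fin k)).card : ℝ)) * ∑ r, g (some r) = 0 := by linarith
      exact (mul_eq_zero.1 h2).resolve_left hk.ne'
    rintro (_ | s)
    · exact hn
    · linarith [hs s]
  simpa using hli.fintype_card_le_finrank

end Cfsg.Agent.BlockDih
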