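import Cfsg.Agent.BlockDih.ArithMain

/-!
# The exceptional configuration for a defect group of order sixteen

It is ruled out by the relation between the two class multiplication sums at the central
involution and at the elements of order four.
-/

set_option linter.unusedSectionVars false

namespace Cfsg.Agent.BlockDih

open scoped ComplexConjugate

variable {ι : Type*} [Fintype ι]

theorem sq_eq_one_cases {x : ℤ} (hx : x ^ 2 = 1) : x = 1 ∨ x = -1 := sq_eq_one_iff.1 hx

theorem even_sq_small {x : ℤ} (hx : Odd x) (h8 : x ^ 2 ≤ 8) : x ^ 2 = 1 := by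
  obtain ⟨t, rfl⟩ := hx
  have h1 : t ≤ 1 := by nlinarith
  have h2 : -2 ≤ t := by nlinarith
  interval_cases t <;> revert h8 <;> norm_num

theorem false_of_unit {s ed ew zd zw α αd : ℤ} {Da Dd Dw : ℝ}
    (hs : s = 1 ∨ s = -1) (hα : α = 1 ∨ α = -1) (hαd : αd = 1 ∨ αd = -1)
    (hDa : 0 < Da) (hDd : 0 < Dd) (hDw : 0 < Dw)
    (hzd : zd = 1 ∨ zd = -1) (hzw : zw = 2 ∨ zw = -2)
    (hed : ed = 1 ∨ ed = -1) (hew : ew = 2 ∨ ew = -2)
    (htd : (α : ℝ) * (3 * Da) + αd * Dd = 0)
    (htz : -α * s + αd * zd = 0) (hte : -α * s + αd * ed = 0)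
    (hdz : -(s : ℝ) * Da + zd * Dd + zw * Dw = 0)
    (hde : -(s : ℝ) * Da + ed * Dd + ew * Dw = 0)
    (hT : 7 * (s : ℝ) ^ 3 / Da + (zd : ℝ) ^ 2 * ed / Dd + (zw : ℝ) ^ 2 * ew / Dw =
      -25 * (s : ℝ) ^ 3 / Da + (zd : ℝ) ^ 2 * zd / Dd + (zw : ℝ) ^ 2 * zw / Dw) : False := by
  have hαd' : αd = -α := by
    rcases hα with rfl | rfl <;> rcases hαd with rfl | rfl <;>
      first | rfl | (exfalso; push_cast at htd; linarith)
  subst hαd'
  obtain rfl : Dd = 3 * Da := by rcases hα with rfl | rfl <;> push_cast at htd <;> linarith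
  obtain rfl : zd = -s := by rcases hα with rfl | rfl <;> linarith
  obtain rfl : ed = -s := by rcases hα with rfl | rfl <;> linarith
  push_cast at hdz hde
  obtain ⟨rfl, rfl⟩ : zw = 2 * s ∧ Dw = 2 * Da := by
    rcases hs with rfl | rfl <;> rcases hzw with rfl | rfl <;> push_cast at hdz <;>
      constructor <;> (try norm_num) <;> linarith
  obtain rfl : ew = 2 * s := by
    rcases hs with rfl | rfl <;> rcases hew with rfl | rfl <;> push_cast at hde <;>
      (try norm_num) <;> linarith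
  rcases hs with rfl | rfl <;> push_cast at hT <;> field_simp at hT <;> norm_num at hT

theorem col_two_eq (N : ι → ZMod (2 * 4) → ℤ) (χ : ι) (hs : ∀ χ r, N χ (-r) = N χ r) :
    col N 2 χ = ((N χ 0 - 2 * N χ 2 + N χ 4 : ℤ) : ℂ) := by
  have hI : ∀ r : ZMod (2 * 4), ZMod.stdAddChar (r * 2) = Complex.I ^ r.val := by
    intro r
    have h1 : ZMod.stdAddChar (2 : ZMod (2 * 4)) = Complex.I := by
      have : ((2 : ℤ) : ZMod (2 * 4)) = 2 := by norm_num
      rw [← this, ZMod.stdAddChar_coe,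
        show 2 * (Real.pi : ℂ) * Complex.I * ((2 : ℤ) : ℂ) / ((2 * 4 : ℕ) : ℂ) =
          Real.pi / 2 * Complex.I by push_cast; ring]
      exact Complex.exp_pi_div_two_mul_I
    conv_lhs => rw [← ZMod.natCast_zmod_val r, ← nsmul_eq_mul, AddChar.map_nsmul_eq_pow, h1]
  simp only [col, hI]
  have h6 : N χ 6 = N χ 2 := by rw [← hs χ 2]; rfl
  have h7 : N χ 7 = N χ 1 := by rw [← hs χ 1]; rfl
  have h5 : N χ 5 = N χ 3 := by rw [← hs χ 3]; rfl
  rw [show (Finset.univ : Finset (ZMod (2 * 4))) = {0, 1, 2, 3, 4, 5, 6, 7} by decide]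
  repeat rw [Finset.sum_insert (by decide)]
  rw [Finset.sum_singleton, h5, h6, h7]
  rw [show (0 : ZMod (2 * 4)).val = 0 from rfl, show (1 : ZMod (2 * 4)).val = 1 from rfl,
    show (2 : ZMod (2 * 4)).val = 2 from rfl, show (3 : ZMod (2 * 4)).val = 3 from rfl,
    show (4 : ZMod (2 * 4)).val = 4 from rfl, show (5 : ZMod (2 * 4)).val = 5 from rfl,
    show (6 : ZMod (2 * 4)).val = 6 from rfl, show (7 : ZMod (2 * 4)).val = 7 from rfl]
  push_cast
  simp only [pow_succ, pow_zero, one_mul, Complex.I_mul_I, neg_mul, neg_neg]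
  ring

theorem ColData.not_exceptional {N : ι → ZMod (2 * 4) → ℤ} {Ht : ι → ℕ} {d : ι → ℝ}
    (D : ColData N Ht d)
    (hall : ∀ r : Fin (4 - 2), ∀ χ, vdiff N r χ ≠ 0 → Ht χ = 0)
    (hT : Fintype.card ι = 5 → ∑ χ, (zInt N χ : ℂ) ^ 2 / (d χ : ℂ) * col N 2 χ =
      ∑ χ, (zInt N χ : ℂ) ^ 2 / (d χ : ℂ) * col N ((4 : ℕ) : ZMod (2 * 4)) χ) : False := by
  classical
  obtain ⟨h4, htop⟩ := D.card_zero_and_top
  set e : ι → ℤ := fun χ => N χ 0 - 2 * N χ 2 + N χ 4 with he
  set t : ι → ℤ := fun χ => N χ ((4 : ℕ) : ZMod (2 * 4)) - N χ 0 with ht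
  have hcol : ∀ χ, col N 2 χ = (e χ : ℂ) := fun χ => col_two_eq N χ D.symm
  have h4' : ((4 : ℕ) : ZMod (2 * 4)) = 4 := rfl
  have h2ne : (2 : ZMod (2 * 4)) ≠ 0 := by decide
  have hz4 : ((4 : ℕ) : ZMod (2 * 4)) ≠ 0 := by decide
  let v0 : Fin (4 - 2) := ⟨0, by norm_num⟩
  let v1 : Fin (4 - 2) := ⟨1, by norm_num⟩
  obtain ⟨a, haa, hab⟩ := D.exists_common v0 v1
  have other : ∀ v : Fin (4 - 2), vdiff N v a ≠ 0 → ∃ b, a ≠ b ∧ vdiff N v a ^ 2 = 1 ∧
      vdiff N v b = -vdiff N v a ∧ d b = d a ∧ t b = t a ∧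
      ∀ c, c ≠ a → c ≠ b → vdiff N v c = 0 := by
    intro v hva
    obtain ⟨x, y, hxy, hx, hy, hz⟩ := exists_support_two (D.vdiff_sq v)
    have key : ∀ x y : ι, x ≠ y → vdiff N v x ^ 2 = 1 → vdiff N v y ^ 2 = 1 →
        (∀ c, c ≠ x → c ≠ y → vdiff N v c = 0) →
        vdiff N v y = -vdiff N v x ∧ d y = d x ∧ t y = t x := by
      intro x y hxy hx hy hz
      have hd := D.vdiff_deg v
      rw [← Finset.sum_subset (Finset.subset_univ {x, y}) (fun c _ hc => by
        simp only [Finset.mem_insert, Finset.mem_singleton, not_or] at hc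
        rw [hz c hc.1 hc.2, Int.cast_zero, mul_zero]), Finset.sum_pair hxy] at hd
      have hxp := D.deg_pos x
      have hyp := D.deg_pos y
      have h1 := top_mul_vdiff D.symm D.orth v
      rw [← Finset.sum_subset (Finset.subset_univ {x, y}) (fun c _ hc => by
        simp only [Finset.mem_insert, Finset.mem_singleton, not_or] at hc
        rw [hz c hc.1 hc.2, mul_zero]), Finset.sum_pair hxy] at h1
      have hneg : vdiff N v y = -vdiff N v x := by
        rcases sq_eq_one_cases hx with e1 | e1 <;> rcases sq_eq_one_cases hy with e2 | e2 <;>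
          rw [e1, e2] at hd ⊢ <;> first | rfl | (push_cast at hd; linarith)
      refine ⟨hneg, ?_, ?_⟩
      · rw [hneg] at hd
        rcases sq_eq_one_cases hx with e1 | e1 <;> rw [e1] at hd <;> push_cast at hd <;> linarith
      · simp only [ht]
        rw [hneg] at h1
        rcases sq_eq_one_cases hx with e1 | e1 <;> rw [e1] at h1 <;> linarith
    rcases eq_or_ne a x with rfl | hax
    · exact ⟨y, hxy, hx, key a y hxy hx hy hz |>.1, key a y hxy hx hy hz |>.2.1,
        key a y hxy hx hy hz |>.2.2, hz⟩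
    · obtain rfl : a = y := by_contra fun h => hva (hz a hax h)
      have k := key a x hxy.symm hy hx fun c h1 h2 => hz c h2 h1
      exact ⟨x, hxy.symm, hy, k.1, k.2.1, k.2.2, fun c h1 h2 => hz c h2 h1⟩
  obtain ⟨b, hnab, ha0, hb0, hdb, htb, hz0⟩ := other v0 haa
  obtain ⟨c, hnac, ha1, hc1, hdc, htc, hz1⟩ := other v1 hab
  set s := vdiff N v0 a with hs
  have hv01 := vdiff_mul D.symm D.orth v0 v1
  rw [if_neg (by simp [v0, v1]), add_zero] at hv01
  have hbc : b ≠ c := by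
    intro e
    rw [← Finset.sum_subset (Finset.subset_univ {a, b}) (fun x _ hx => by
      simp only [Finset.mem_insert, Finset.mem_singleton, not_or] at hx
      rw [hz0 x hx.1 hx.2, zero_mul]), Finset.sum_pair hnab, hb0, e, hc1] at hv01
    have h2 : (2 : ℤ) ∣ 1 := ⟨vdiff N v0 a * vdiff N v1 a, by
      rw [hs] at hv01
      linear_combination -hv01⟩
    norm_num at h2
  have hsame : vdiff N v1 a = s := by
    rw [Finset.sum_eq_single a (fun x _ hx => ?_) (by simp)] at hv01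
    · rw [← hs] at hv01
      rcases sq_eq_one_cases ha0 with e1 | e1 <;> rw [e1] at hv01 ⊢ <;> linarith
    · by_cases hxb : x = b
      · rw [hxb, hz1 b hnab.symm hbc, mul_zero]
      · rw [hz0 x hx hxb, zero_mul]
  have hha : Ht a = 0 := hall v0 a haa
  have hhb : Ht b = 0 := hall v0 b (by rw [hb0]; simpa using haa)
  have hhc : Ht c = 0 := hall v1 c (by rw [hc1]; simpa using hab)
  set S := Finset.univ.filter fun χ => Ht χ = 0 with hS
  set R := Finset.univ.filter fun χ => ¬ Ht χ = 0 with hR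
  have hsub : ({a, b, c} : Finset ι) ⊆ S := by
    simp [Finset.insert_subset_iff, hS, hha, hhb, hhc]
  have habc : ({a, b, c} : Finset ι).card = 3 := by
    simp [hnab, hnac, hbc]
  obtain ⟨dd, hdd⟩ : ∃ dd, S \ {a, b, c} = {dd} := Finset.card_eq_one.1 (by
    rw [Finset.card_sdiff_of_subset hsub, h4, habc])
  have hddS : dd ∈ S := (Finset.mem_sdiff.1 (hdd ▸ Finset.mem_singleton_self dd)).1
  have hhd : Ht dd = 0 := (Finset.mem_filter.1 hddS).2
  have hSsum : ∀ {A : Type} [AddCommMonoid A] (f : ι → A),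
      ∑ χ ∈ S, f χ = f a + f b + f c + f dd := by
    intro A _ f
    rw [← Finset.sum_sdiff hsub, hdd, Finset.sum_singleton,
      Finset.sum_insert (by simp [hnab, hnac]), Finset.sum_pair hbc]
    abel
  have htot : ∀ {A : Type} [AddCommMonoid A] (f : ι → A),
      ∑ χ, f χ = f a + f b + f c + f dd + ∑ χ ∈ R, f χ := by
    intro A _ f
    rw [← Finset.sum_filter_add_sum_filter_not Finset.univ (fun χ => Ht χ = 0), ← hS, hSsum, ← hR]
  -- the inner products with the two differences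
  have hpair : ∀ (v : Fin (4 - 2)) (x y : ι), x ≠ y → vdiff N v y = -vdiff N v x →
      (∀ w, w ≠ x → w ≠ y → vdiff N v w = 0) → ∀ f : ι → ℂ,
      ∑ χ, (vdiff N v χ : ℂ) * f χ = (vdiff N v x : ℂ) * (f x - f y) := by
    intro v x y hxy hn hz f
    rw [← Finset.sum_subset (Finset.subset_univ {x, y}) (fun w _ hw => by
      simp only [Finset.mem_insert, Finset.mem_singleton, not_or] at hw
      rw [hz w hw.1 hw.2]; simp), Finset.sum_pair hxy, hn]
    push_cast; ring
  have hval : ∀ (v : Fin (4 - 2)) (j : ZMod (2 * 4)), j ≠ 0 →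
      ∑ χ, (vdiff N v χ : ℂ) * col N j χ =
        ZMod.stdAddChar (((v.1 + 2 : ℕ) : ZMod (2 * 4)) * j) +
          ZMod.stdAddChar (-(((v.1 + 2 : ℕ) : ZMod (2 * 4)) * j)) -
          (ZMod.stdAddChar (((1 : ℕ) : ZMod (2 * 4)) * j) +
            ZMod.stdAddChar (-(((1 : ℕ) : ZMod (2 * 4)) * j))) :=
    fun v j hj => diff_mul_col D.symm D.orth _ _ hj
  have hI2 : ZMod.stdAddChar (2 : ZMod (2 * 4)) = Complex.I := by
    have : ((2 : ℤ) : ZMod (2 * 4)) = 2 := by norm_num
    rw [← this, ZMod.stdAddChar_coe,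
      show 2 * (Real.pi : ℂ) * Complex.I * ((2 : ℤ) : ℂ) / ((2 * 4 : ℕ) : ℂ) =
        Real.pi / 2 * Complex.I by push_cast; ring]
    exact Complex.exp_pi_div_two_mul_I
  have hpow : ∀ k : ℕ, ZMod.stdAddChar ((2 * k : ℕ) : ZMod (2 * 4)) = Complex.I ^ k := by
    intro k
    rw [Nat.mul_comm 2 k, Nat.cast_mul, ← nsmul_eq_mul, AddChar.map_nsmul_eq_pow]
    exact congrArg (· ^ k) hI2
  have hI0 : ZMod.stdAddChar (4 : ZMod (2 * 4)) = -1 := by
    simpa using hpow 2
  have hI6 : ZMod.stdAddChar (6 : ZMod (2 * 4)) = -Complex.I := by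
    simpa [pow_succ] using hpow 3
  have ez0 : s * (zInt N a - zInt N b) = 4 := by
    have h1 := hval v0 _ hz4
    rw [hpair v0 a b hnab hb0 hz0, col_half, col_half] at h1
    have e1 : ((v0.1 + 2 : ℕ) : ZMod (2 * 4)) * ((4 : ℕ) : ZMod (2 * 4)) = 0 := by decide
    have e2 : ((1 : ℕ) : ZMod (2 * 4)) * ((4 : ℕ) : ZMod (2 * 4)) = 4 := by decide
    have e3 : -(4 : ZMod (2 * 4)) = 4 := by decide
    rw [e1, e2, e3, neg_zero, AddChar.map_zero_eq_one, hI0] at h1
    apply Int.cast_injective (α := ℂ)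
    push_cast
    rw [h1]; ring
  have ee0 : s * (e a - e b) = -2 := by
    have h1 := hval v0 _ h2ne
    rw [hpair v0 a b hnab hb0 hz0, hcol, hcol] at h1
    have e1 : ((v0.1 + 2 : ℕ) : ZMod (2 * 4)) * 2 = 4 := by decide
    have e2 : ((1 : ℕ) : ZMod (2 * 4)) * 2 = 2 := by decide
    have e3 : -(4 : ZMod (2 * 4)) = 4 := by decide
    have e4 : -(2 : ZMod (2 * 4)) = 6 := by decide
    rw [e1, e2, e3, e4, hI0, hI2, hI6] at h1
    apply Int.cast_injective (α := ℂ)
    push_cast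
    rw [h1]; ring
  have ez1 : zInt N c = zInt N a := by
    have h1 := hval v1 _ hz4
    rw [hpair v1 a c hnac hc1 hz1, col_half, col_half] at h1
    have e1 : ((v1.1 + 2 : ℕ) : ZMod (2 * 4)) * ((4 : ℕ) : ZMod (2 * 4)) = 4 := by decide
    have e2 : ((1 : ℕ) : ZMod (2 * 4)) * ((4 : ℕ) : ZMod (2 * 4)) = 4 := by decide
    rw [e1, e2, sub_self, mul_eq_zero] at h1
    rcases h1 with h1 | h1
    · exact absurd (Int.cast_eq_zero.1 h1) hab
    · exact_mod_cast (sub_eq_zero.1 h1).symm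
  have ee1 : e c = e a := by
    have h1 := hval v1 _ h2ne
    rw [hpair v1 a c hnac hc1 hz1, hcol, hcol] at h1
    have e1 : ((v1.1 + 2 : ℕ) : ZMod (2 * 4)) * 2 = 6 := by decide
    have e2 : ((1 : ℕ) : ZMod (2 * 4)) * 2 = 2 := by decide
    have e3 : -(6 : ZMod (2 * 4)) = 2 := by decide
    have e4 : -(2 : ZMod (2 * 4)) = 6 := by decide
    rw [e1, e2, e3, e4, hI2, hI6] at h1
    have h1' : ((vdiff N v1 a : ℤ) : ℂ) * ((e a : ℂ) - (e c : ℂ)) = 0 := by rw [h1]; ring
    rcases mul_eq_zero.1 h1' with h1 | h1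
    · exact absurd (Int.cast_eq_zero.1 h1) hab
    · exact_mod_cast (sub_eq_zero.1 h1).symm
  have hs' : s = 1 ∨ s = -1 := sq_eq_one_cases ha0
  have ezb : zInt N b = zInt N a - 4 * s := by rcases hs' with e | e <;> rw [e] at ez0 ⊢ <;> linarith
  have eeb : e b = e a + 2 * s := by rcases hs' with e | e <;> rw [e] at ee0 ⊢ <;> linarith
  -- the norms
  have hpar : ∀ χ, Even (e χ - t χ) := fun χ =>
    ⟨N χ 0 - N χ 2, by simp only [he, ht, h4']; ring⟩
  have hoe : ∀ χ, Ht χ = 0 → Odd (e χ) := fun χ hχ => by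
    have := Int.odd_add.2 (iff_of_true (D.odd_top hχ) (hpar χ))
    simpa [ht] using this
  have hee : ∀ χ, Ht χ ≠ 0 → Even (e χ) := fun χ hχ => by
    have h0 : t χ = 0 := D.top_eq_zero hχ
    simpa [h0] using hpar χ
  have oa := D.odd_of_zero a hha
  have od := D.odd_of_zero dd hhd
  have ob := D.odd_of_zero b hhb
  have hn16 := sum_zInt_sq D.symm D.orth
  rw [htot, ezb, ez1] at hn16
  have hR4 : 4 * (R.card : ℤ) ≤ ∑ χ ∈ R, zInt N χ ^ 2 := by
    have := Finset.card_nsmul_le_sum R (fun χ => zInt N χ ^ 2) 4 fun χ hχ =>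
      le_trans (le_self_pow₀ (by norm_num) (Finset.mem_filter.1 hχ).2) (D.low χ)
    rw [nsmul_eq_mul, mul_comm] at this; exact this
  have hR1 : 1 ≤ R.card := D.one_le_card_pos
  have hd1 := one_le_sq_of_odd od
  have hzb0 : 0 ≤ (zInt N a - 4 * s) ^ 2 := sq_nonneg _
  have hsa : zInt N a ^ 2 = 1 := even_sq_small oa (by push_cast at hn16; nlinarith)
  have hza : zInt N a = s := by
    rcases sq_eq_one_cases hsa with e1 | e1 <;> rcases hs' with e2 | e2 <;>
      rw [e1, e2] at hn16 <;> rw [e1, e2] <;> norm_num at hn16 ⊢ <;> omega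
  rw [hza, show (s - 4 * s) ^ 2 = 9 * s ^ 2 by ring, ha0] at hn16
  have hzd : zInt N dd ^ 2 = 1 := even_sq_small od (by push_cast at hn16; linarith)
  have hRc : R.card = 1 := by push_cast at hn16; omega
  obtain ⟨w, hw⟩ := Finset.card_eq_one.1 hRc
  have hwne : Ht w ≠ 0 := by
    have hwm : w ∈ R := by rw [hw]; simp
    simpa [hR] using hwm
  rw [hw, Finset.sum_singleton, hzd] at hn16
  have hzw : zInt N w = 2 ∨ zInt N w = -2 := by
    have : (zInt N w - 2) * (zInt N w + 2) = 0 := by push_cast at hn16; linear_combination hn16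
    rcases mul_eq_zero.1 this with h1 | h1
    · left; linarith
    · right; linarith
  have hn8 : ∑ χ, e χ ^ 2 = 8 := by
    have h1 := D.orth 2 2 h2ne h2ne
    simp only [hcol, map_intCast] at h1
    apply Int.cast_injective (α := ℂ)
    push_cast [sq]
    rw [h1, if_neg (by decide : (2 : ZMod (2 * 4)) ≠ -2)]
    norm_num
  rw [htot, eeb, ee1, hw, Finset.sum_singleton] at hn8
  have hea1 : e a ^ 2 = 1 := even_sq_small (hoe a hha) (by nlinarith [sq_nonneg (e a + 2 * s)])
  have hea : e a = -s := by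
    rcases sq_eq_one_cases hea1 with e1 | e1 <;> rcases hs' with e2 | e2 <;>
      rw [e1, e2] at hn8 <;> rw [e1, e2] <;> norm_num at hn8 ⊢ <;>
      nlinarith [sq_nonneg (e w), one_le_sq_of_odd (hoe dd hhd)]
  rw [hea, show (-s + 2 * s) ^ 2 = s ^ 2 by ring, neg_sq, ha0] at hn8
  have hed : e dd ^ 2 = 1 := even_sq_small (hoe dd hhd) (by nlinarith [sq_nonneg (e w)])
  have hew : e w = 2 ∨ e w = -2 := by
    have : (e w - 2) * (e w + 2) = 0 := by rw [hed] at hn8; linear_combination hn8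
    rcases mul_eq_zero.1 this with h1 | h1
    · left; linarith
    · right; linarith
  -- the linear relations
  have hta : t a ^ 2 = 1 := (htop a).trans (if_pos hha)
  have htd' : t dd ^ 2 = 1 := (htop dd).trans (if_pos hhd)
  have htw : t w = 0 := D.top_eq_zero hwne
  have htdeg := deg_mul_diff D.deg_orth ((4 : ℕ) : ZMod (2 * 4)) 0
  rw [htot, hw, Finset.sum_singleton] at htdeg
  change d a * (t a : ℝ) + d b * (t b : ℝ) + d c * (t c : ℝ) + d dd * (t dd : ℝ) +
    d w * (t w : ℝ) = 0 at htdeg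
  rw [htb, htc, htw, hdb, hdc] at htdeg
  have horth : ∀ f : ι → ℤ, (∀ χ, col N 2 χ = (f χ : ℂ)) ∨ (∀ χ, col N ((4 : ℕ) : ZMod (2 * 4)) χ = (f χ : ℂ)) →
      (∑ χ, t χ * f χ = 0 ∧ ∑ χ, d χ * (f χ : ℝ) = 0) := by
    intro f hf
    obtain ⟨j, hj, hjf, hj2⟩ : ∃ j : ZMod (2 * 4), j ≠ 0 ∧ (∀ χ, col N j χ = (f χ : ℂ)) ∧
        ((4 : ℕ) : ZMod (2 * 4)) * j = 0 := by
      rcases hf with hf | hf
      · exact ⟨2, h2ne, hf, by decide⟩
      · exact ⟨_, hz4, hf, by decide⟩
    constructor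
    · apply Int.cast_injective (α := ℂ)
      push_cast
      simp only [← hjf]
      have := diff_mul_col D.symm D.orth ((4 : ℕ) : ZMod (2 * 4)) 0 hj
      rw [hj2, zero_mul, sub_self] at this
      push_cast at this
      simpa [ht] using this
    · apply Complex.ofReal_injective
      push_cast
      simp only [← hjf]
      exact D.deg_orth j hj
  obtain ⟨htz, hdz⟩ := horth (zInt N) (Or.inr fun χ => col_half χ)
  obtain ⟨hte, hde⟩ := horth e (Or.inl hcol)
  rw [htot, hw, Finset.sum_singleton, htb, htc, htw, ezb, ez1, hza] at htz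
  rw [htot, hw, Finset.sum_singleton, htb, htc, htw, eeb, ee1, hea] at hte
  rw [htot, hw, Finset.sum_singleton, hdb, hdc, ezb, ez1, hza] at hdz
  rw [htot, hw, Finset.sum_singleton, hdb, hdc, eeb, ee1, hea] at hde
  have hcard5 : Fintype.card ι = 5 := by
    rw [← Finset.card_univ, ← Finset.card_filter_add_card_filter_not (fun χ => Ht χ = 0)]
    simp only [← hS, ← hR, h4, hRc]
  have hT' : ∑ χ, (zInt N χ : ℝ) ^ 2 / d χ * (e χ : ℝ) = ∑ χ, (zInt N χ : ℝ) ^ 2 / d χ * (zInt N χ : ℝ) := by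
    apply Complex.ofReal_injective
    push_cast
    have := hT hcard5
    simpa only [hcol, col_half] using this
  rw [htot, htot, hw, Finset.sum_singleton, Finset.sum_singleton, hdb, hdc, ezb, ez1, eeb, ee1,
    hza, hea] at hT'
  push_cast at hdz hde hT'
  refine false_of_unit (s := s) (zd := zInt N dd) (zw := zInt N w)
    (ed := e dd) (ew := e w) (α := t a) (αd := t dd)
    (Da := d a) (Dd := d dd) (Dw := d w) hs' (sq_eq_one_cases hta) (sq_eq_one_cases htd')
    (D.deg_pos a) (D.deg_pos dd) (D.deg_pos w) (sq_eq_one_cases hzd) hzw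
    (sq_eq_one_cases hed) hew ?_ ?_ ?_ ?_ ?_ ?_
  · push_cast at htdeg; linarith
  · linarith
  · linarith
  · linarith
  · linarith
  · linear_combination hT'

end Cfsg.Agent.BlockDih
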