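import Cfsg.Agent.BlockDih.Arith

/-!
# Counting the rows of a block with dihedral defect group
-/

set_option linter.unusedSectionVars false

namespace Cfsg.Agent.BlockDih

open scoped ComplexConjugate

variable {ι : Type*} [Fintype ι] {h : ℕ} [NeZero (2 * h)]

/-- The columns and heights of a block with dihedral defect group of order `4 h`. -/
structure ColData (N : ι → ZMod (2 * h) → ℤ) (Ht : ι → ℕ) (d : ι → ℝ) : Prop where
  even_h : Even h
  two_le : 2 ≤ h
  symm : ∀ χ r, N χ (-r) = N χ r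
  orth : DihOrth N
  deg_pos : ∀ χ, 0 < d χ
  deg_orth : ∀ i : ZMod (2 * h), i ≠ 0 → ∑ χ, (d χ : ℂ) * col N i χ = 0
  odd_of_zero : ∀ χ, Ht χ = 0 → Odd (zInt N χ)
  low : ∀ χ, (4 : ℤ) ^ Ht χ ≤ zInt N χ ^ 2
  zero_dvd : 4 ∣ (Finset.univ.filter fun χ => Ht χ = 0).card
  zero_nonempty : ∃ χ, Ht χ = 0

namespace ColData

variable {N : ι → ZMod (2 * h) → ℤ} {Ht : ι → ℕ} {d : ι → ℝ}

theorem odd_top (D : ColData N Ht d) {χ : ι} (h0 : Ht χ = 0) :
    Odd (N χ (h : ZMod (2 * h)) - N χ 0) := by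
  have := Int.odd_sub.2 (iff_of_true (D.odd_of_zero χ h0) (even_zInt_sub D.symm χ))
  simpa using this

theorem card_zero_and_top (D : ColData N Ht d) :
    (Finset.univ.filter fun χ => Ht χ = 0).card = 4 ∧
      ∀ χ, (N χ (h : ZMod (2 * h)) - N χ 0) ^ 2 = if Ht χ = 0 then 1 else 0 := by
  classical
  set S := Finset.univ.filter fun χ => Ht χ = 0 with hS
  have h1 := sum_top_sq D.symm D.orth
  have hge : ∀ χ ∈ S, 1 ≤ (N χ (h : ZMod (2 * h)) - N χ 0) ^ 2 := fun χ hχ =>
    one_le_sq_of_odd (D.odd_top (Finset.mem_filter.1 hχ).2)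
  have hle : (S.card : ℤ) ≤ 4 := by
    rw [← h1]
    refine le_trans ?_ (Finset.sum_le_sum_of_subset_of_nonneg (Finset.subset_univ S)
      fun χ _ _ => sq_nonneg _)
    simpa using Finset.card_nsmul_le_sum S _ 1 hge
  have hpos : 0 < S.card := Finset.card_pos.2
    (D.zero_nonempty.imp fun χ hχ => Finset.mem_filter.2 ⟨Finset.mem_univ _, hχ⟩)
  have hdvd := D.zero_dvd
  rw [← hS] at hdvd
  have h4 : S.card = 4 := by
    have : S.card ≤ 4 := by exact_mod_cast hle
    have := Nat.le_of_dvd hpos hdvd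
    omega
  refine ⟨h4, ?_⟩
  have hs : ∑ χ, ((N χ (h : ZMod (2 * h)) - N χ 0) ^ 2 - if Ht χ = 0 then 1 else 0) = 0 := by
    rw [Finset.sum_sub_distrib, h1, Finset.sum_boole, ← hS, h4]
    rfl
  intro χ
  have := (Finset.sum_eq_zero_iff_of_nonneg fun χ _ => ?_).1 hs χ (Finset.mem_univ _)
  · linarith
  · split_ifs with h0
    · have := hge χ (Finset.mem_filter.2 ⟨Finset.mem_univ _, h0⟩)
      linarith
    · simpa using sq_nonneg _

theorem top_eq_zero (D : ColData N Ht d) {χ : ι} (hχ : Ht χ ≠ 0) :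
    N χ (h : ZMod (2 * h)) - N χ 0 = 0 := by
  have := D.card_zero_and_top.2 χ
  simpa [hχ] using this

theorem vdiff_sq (D : ColData N Ht d) (r : Fin (h - 2)) : ∑ χ, vdiff N r χ ^ 2 = 2 := by
  simp only [sq, vdiff_mul D.symm D.orth, if_true]
  rfl

theorem vdiff_deg (D : ColData N Ht d) (r : Fin (h - 2)) :
    ∑ χ, d χ * (vdiff N r χ : ℝ) = 0 :=
  deg_mul_diff D.deg_orth _ _

/-- The support of a difference meets the height zero characters in both or in none of its points. -/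
theorem vdiff_zero_iff (D : ColData N Ht d) (r : Fin (h - 2)) {χ ψ : ι}
    (hχ : vdiff N r χ ≠ 0) (hψ : vdiff N r ψ ≠ 0) : Ht χ = 0 ↔ Ht ψ = 0 := by
  classical
  by_cases e : χ = ψ
  · rw [e]
  obtain ⟨a, b, hab, ha, hb, hz⟩ := exists_support_two (D.vdiff_sq r)
  suffices key : Ht a = 0 ↔ Ht b = 0 by
    have hmem : ∀ c, vdiff N r c ≠ 0 → c = a ∨ c = b := fun c hc => by
      by_contra h'
      push Not at h'
      exact hc (hz c h'.1 h'.2)
    rcases hmem χ hχ with rfl | rfl <;> rcases hmem ψ hψ with rfl | rfl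
    all_goals first | exact Iff.rfl | exact key | exact key.symm
  have h1 := top_mul_vdiff D.symm D.orth r
  rw [← Finset.sum_subset (Finset.subset_univ {a, b}) (fun c _ hc => by
    simp only [Finset.mem_insert, Finset.mem_singleton, not_or] at hc
    rw [hz c hc.1 hc.2, mul_zero]), Finset.sum_pair hab] at h1
  have hane : vdiff N r a ≠ 0 := fun e => by simp [e] at ha
  have hbne : vdiff N r b ≠ 0 := fun e => by simp [e] at hb
  have hta := D.card_zero_and_top.2 a
  have htb := D.card_zero_and_top.2 b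
  constructor <;> intro h0 <;> by_contra hne
  · rw [if_neg hne] at htb
    rw [pow_eq_zero_iff two_ne_zero] at htb
    rw [htb, zero_mul, add_zero, mul_eq_zero] at h1
    rw [if_pos h0] at hta
    rcases h1 with h1 | h1
    · rw [h1] at hta; simp at hta
    · exact hane h1
  · rw [if_neg hne] at hta
    rw [pow_eq_zero_iff two_ne_zero] at hta
    rw [hta, zero_mul, zero_add, mul_eq_zero] at h1
    rw [if_pos h0] at htb
    rcases h1 with h1 | h1
    · rw [h1] at htb; simp at htb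
    · exact hbne h1

theorem exists_common (D : ColData N Ht d) (r s : Fin (h - 2)) :
    ∃ χ, vdiff N r χ ≠ 0 ∧ vdiff N s χ ≠ 0 := by
  have h1 := vdiff_mul D.symm D.orth r s
  have h2 : ∑ χ, vdiff N r χ * vdiff N s χ ≠ 0 := by rw [h1]; split_ifs <;> norm_num
  obtain ⟨χ, -, hχ⟩ := Finset.exists_ne_zero_of_sum_ne_zero h2
  exact ⟨χ, left_ne_zero_of_mul hχ, right_ne_zero_of_mul hχ⟩

/-- All differences lie outside the height zero characters, or all inside and `h = 4`. -/
theorem dichotomy (D : ColData N Ht d) :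
    (h = 2 ∨ h - 1 ≤ (Finset.univ.filter fun χ => Ht χ ≠ 0).card) ∨
      (h = 4 ∧ ∀ r : Fin (h - 2), ∀ χ, vdiff N r χ ≠ 0 → Ht χ = 0) := by
  classical
  have heven := D.even_h
  have h2 := D.two_le
  rcases eq_or_lt_of_le h2 with e | hlt
  · exact Or.inl (Or.inl e.symm)
  let r0 : Fin (h - 2) := ⟨0, by omega⟩
  obtain ⟨χ0, hχ0, -⟩ := D.exists_common r0 r0
  have hall : ∀ r χ, vdiff N r χ ≠ 0 → (Ht χ = 0 ↔ Ht χ0 = 0) := by
    intro r χ hχ
    obtain ⟨ψ, hψr, hψ0⟩ := D.exists_common r r0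
    exact (D.vdiff_zero_iff r hχ hψr).trans (D.vdiff_zero_iff r0 hψ0 hχ0)
  by_cases h0 : Ht χ0 = 0
  · right
    refine ⟨?_, fun r χ hχ => (hall r χ hχ).2 h0⟩
    have := card_support_ge (v := vdiff N) D.deg_pos (vdiff_mul D.symm D.orth) D.vdiff_deg
      (S := Finset.univ.filter fun χ => Ht χ = 0) ⟨χ0, by simpa using h0⟩
      (fun r χ hχ => by_contra fun hne => hχ (Finset.mem_filter.2
        ⟨Finset.mem_univ _, (hall r χ hne).2 h0⟩))
    rw [D.card_zero_and_top.1] at this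
    obtain ⟨c, hc⟩ := heven
    omega
  · left; right
    have := card_support_ge (v := vdiff N) D.deg_pos (vdiff_mul D.symm D.orth) D.vdiff_deg
      (S := Finset.univ.filter fun χ => Ht χ ≠ 0) ⟨χ0, by simpa using h0⟩
      (fun r χ hχ => by_contra fun hne => hχ (Finset.mem_filter.2
        ⟨Finset.mem_univ _, fun e => h0 ((hall r χ hne).1 e)⟩))
    omega

theorem four_mul_card_pos_le (D : ColData N Ht d) :
    4 + 4 * ((Finset.univ.filter fun χ => Ht χ ≠ 0).card : ℤ) ≤
      4 + ∑ χ ∈ Finset.univ.filter (fun χ => Ht χ ≠ 0), zInt N χ ^ 2 ∧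
    4 + ∑ χ ∈ Finset.univ.filter (fun χ => Ht χ ≠ 0), zInt N χ ^ 2 ≤ 4 * (h : ℤ) := by
  classical
  constructor
  · refine add_le_add le_rfl ?_
    have := Finset.card_nsmul_le_sum (Finset.univ.filter fun χ => Ht χ ≠ 0)
      (fun χ => zInt N χ ^ 2) 4 fun χ hχ => ?_
    · rw [nsmul_eq_mul, mul_comm] at this; exact this
    · refine le_trans ?_ (D.low χ)
      exact le_self_pow₀ (by norm_num) (Finset.mem_filter.1 hχ).2
  · rw [← sum_zInt_sq D.symm D.orth,
      ← Finset.sum_filter_add_sum_filter_not Finset.univ (fun χ => Ht χ = 0)]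
    refine add_le_add ?_ le_rfl
    have := Finset.card_nsmul_le_sum (Finset.univ.filter fun χ => Ht χ = 0)
      (fun χ => zInt N χ ^ 2) 1 fun χ hχ =>
        one_le_sq_of_odd (D.odd_of_zero χ (Finset.mem_filter.1 hχ).2)
    rw [D.card_zero_and_top.1] at this
    simpa using this

theorem one_le_card_pos (D : ColData N Ht d) :
    1 ≤ (Finset.univ.filter fun χ => Ht χ ≠ 0).card := by
  classical
  by_contra hc
  have he : (Finset.univ.filter fun χ => Ht χ ≠ 0) = ∅ := Finset.card_eq_zero.1 (by omega)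
  have h1 := sum_zInt_sq D.symm D.orth
  rw [← Finset.sum_filter_add_sum_filter_not Finset.univ (fun χ => Ht χ = 0), he,
    Finset.sum_empty, add_zero] at h1
  have h8 : (8 : ℤ) ∣ ∑ χ ∈ Finset.univ.filter (fun χ => Ht χ = 0), (zInt N χ ^ 2 - 1) :=
    Finset.dvd_sum fun χ hχ => odd_sq_eight (D.odd_of_zero χ (Finset.mem_filter.1 hχ).2)
  rw [Finset.sum_sub_distrib, h1, Finset.sum_const, D.card_zero_and_top.1] at h8
  obtain ⟨c, hc⟩ := D.even_h
  obtain ⟨w, hw⟩ := h8
  push_cast [hc] at hw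
  simp at hw
  omega

/-- The counts, once there are enough characters of positive height. -/
theorem counts_of_le (D : ColData N Ht d)
    (hle : h - 1 ≤ (Finset.univ.filter fun χ => Ht χ ≠ 0).card) :
    Fintype.card ι = h + 3 ∧ (Finset.univ.filter fun χ => Ht χ = 0).card = 4 ∧ ∀ χ, Ht χ ≤ 1 := by
  classical
  obtain ⟨h1, h2⟩ := D.four_mul_card_pos_le
  have h4 := D.card_zero_and_top.1
  have h3 := D.two_le
  have hcard : (Finset.univ.filter fun χ => Ht χ ≠ 0).card = h - 1 := by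
    have : 4 + 4 * ((Finset.univ.filter fun χ => Ht χ ≠ 0).card : ℤ) ≤ 4 * (h : ℤ) := h1.trans h2
    omega
  refine ⟨?_, h4, fun χ => ?_⟩
  · rw [← Finset.card_univ, ← Finset.card_filter_add_card_filter_not (fun χ => Ht χ = 0), h4]
    simp only [← ne_eq, hcard]
    omega
  by_contra hχ
  have hmem : χ ∈ Finset.univ.filter fun χ => Ht χ ≠ 0 := by simp; omega
  have h5 : (4 : ℤ) ^ 2 ≤ zInt N χ ^ 2 := (pow_le_pow_right₀ (by norm_num) (by omega)).trans (D.low χ)
  have h6 := Finset.add_sum_erase (Finset.univ.filter fun χ => Ht χ ≠ 0)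
    (fun χ => zInt N χ ^ 2) hmem
  have h7 := Finset.card_nsmul_le_sum ((Finset.univ.filter fun χ => Ht χ ≠ 0).erase χ)
    (fun χ => zInt N χ ^ 2) 4 fun ψ hψ => le_trans
      (le_self_pow₀ (by norm_num) (Finset.mem_filter.1 (Finset.mem_of_mem_erase hψ)).2) (D.low ψ)
  rw [Finset.card_erase_of_mem hmem, hcard, nsmul_eq_mul] at h7
  have hh : (((h - 1 - 1 : ℕ)) : ℤ) = (h : ℤ) - 2 := by omega
  rw [hh] at h7
  linarith

end ColData

end Cfsg.Agent.BlockDih
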