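import Cfsg.Agent.BlockDih.ArithFour

/-!
# The counts of a block with dihedral defect group from its columns
-/

set_option linter.unusedSectionVars false

namespace Cfsg.Agent.BlockDih

open scoped ComplexConjugate

variable {ι : Type*} [Fintype ι] {h : ℕ} [NeZero (2 * h)]

theorem ColData.counts {N : ι → ZMod (2 * h) → ℤ} {Ht : ι → ℕ} {d : ι → ℝ} (D : ColData N Ht d)
    (hT : h = 4 → Fintype.card ι = 5 → ∑ χ, (zInt N χ : ℂ) ^ 2 / (d χ : ℂ) * col N ((2 : ℕ) : ZMod (2 * h)) χ =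
      ∑ χ, (zInt N χ : ℂ) ^ 2 / (d χ : ℂ) * col N ((h : ℕ) : ZMod (2 * h)) χ) :
    Fintype.card ι = h + 3 ∧ (Finset.univ.filter fun χ => Ht χ = 0).card = 4 ∧ ∀ χ, Ht χ ≤ 1 := by
  rcases D.dichotomy with (rfl | hle) | ⟨rfl, hall⟩
  · exact D.counts_of_le D.one_le_card_pos
  · exact D.counts_of_le hle
  · exact (D.not_exceptional hall fun h5 => hT rfl h5).elim

end Cfsg.Agent.BlockDih
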