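import Cfsg.Agent.BlockDih.Columns
import Cfsg.Agent.BlockDih.Arith
import Cfsg.Agent.BlockVal.SquareSum
import Cfsg.Agent.BlkChar.Major

/-!
# The block with dihedral defect group: the central section and the rank
-/

set_option autoImplicit false
set_option maxHeartbeats 800000
set_option linter.unusedSectionVars false
set_option linter.style.haveILetI false

noncomputable section

namespace Cfsg.Agent.BlockDih

open MonoidAlgebra Cfsg Cfsg.Agent.BrauerPairs Cfsg.Agent.BrauerPairs.Nil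
open Cfsg.Agent.BlkChar.Contrib
open scoped ComplexConjugate Classical

universe u

/-- In a block of defect at least three four divides the number of height zero characters. -/
theorem four_dvd_height_zero {G : Type u} [Group G] [Fintype G] {M : Ideal AlgInt}
    (hM : IsPModular 2 M) {B : Set (IrrCharacter G)} (hB : IsPBlock M B)
    (hd : 2 ≤ blockDefect 2 B) :
    4 ∣ (Finset.univ.filter fun χ : B => blockHeight 2 B ((χ : IrrCharacter G) : G → ℂ) = 0).card := by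
  haveI : M.IsPrime := hM.2.1.isPrime
  have h40 : (4 : ZMod 4) = 0 := rfl
  obtain ⟨χ0, hχ0, h0⟩ := BlockVal.exists_height_zero (p := 2) (Block.pBlock_nonempty hB)
  have hfac := BlockVal.factorization_sum_sq hM hB hχ0 h0
  set b := (charDegree (χ0 : G → ℂ)).factorization 2 with hb
  set a := (Nat.card G).factorization 2 with ha
  rw [BlockVal.blockDefect_eq hχ0 h0] at hd
  have hmin := (BlockVal.blockHeight_eq_zero_iff hχ0).1 h0
  have hq : ∀ χ : B, ∃ q : ℕ, charDegree ((χ : IrrCharacter G) : G → ℂ) = 2 ^ b * q := fun χ =>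
    (Nat.prime_two.pow_dvd_iff_le_factorization (BlockVal.irr_one_eq_charDegree χ.1).2).2
      (hmin χ.1 χ.2)
  choose q hq using hq
  have hpar : ∀ χ : B, blockHeight 2 B ((χ : IrrCharacter G) : G → ℂ) = 0 ↔ Odd (q χ) := by
    intro χ
    have hq0 : q χ ≠ 0 := fun e => (BlockVal.irr_one_eq_charDegree χ.1).2 (by rw [hq, e, mul_zero])
    have hfd : (charDegree ((χ : IrrCharacter G) : G → ℂ)).factorization 2 =
        b + (q χ).factorization 2 := by
      rw [hq, Nat.factorization_mul (pow_ne_zero _ two_ne_zero) hq0, Finsupp.add_apply,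
        Nat.prime_two.factorization_pow, Finsupp.single_eq_same]
    have hmin' : sInf ((fun φ : IrrCharacter G => (charDegree (φ : G → ℂ)).factorization 2) '' B) =
        b := by
      refine le_antisymm (Nat.sInf_le ⟨χ0, hχ0, rfl⟩) ?_
      have := h0
      rw [blockHeight] at this
      omega
    rw [blockHeight, hfd, hmin', Nat.add_sub_cancel_left, Nat.odd_iff]
    constructor
    · intro e
      by_contra h2
      exact (Nat.prime_two.factorization_pos_of_dvd hq0 (Nat.dvd_of_mod_eq_zero (by omega))).ne' e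
    · intro e
      exact Nat.factorization_eq_zero_of_not_dvd fun hdv => by omega
  have hT : ∑ η ∈ Finset.univ.filter (· ∈ B), charDegree (η : G → ℂ) ^ 2 =
      (2 ^ b) ^ 2 * ∑ χ : B, q χ ^ 2 := by
    rw [Finset.sum_subtype (p := fun φ => φ ∈ B) (Finset.univ.filter (· ∈ B)) (by simp)
      (fun φ => charDegree (φ : G → ℂ) ^ 2), Finset.mul_sum]
    exact Finset.sum_congr rfl fun χ _ => by rw [hq, mul_pow]
  rw [hT] at hfac
  have h4 : 4 ∣ ∑ χ : B, q χ ^ 2 := by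
    by_cases h : ∑ χ : B, q χ ^ 2 = 0
    · rw [h]; exact dvd_zero 4
    rw [Nat.factorization_mul (pow_ne_zero _ (pow_ne_zero _ two_ne_zero)) h, Finsupp.add_apply,
      ← pow_mul, Nat.prime_two.factorization_pow, Finsupp.single_eq_same] at hfac
    refine (Nat.prime_two.pow_dvd_iff_le_factorization h (k := 2)).2 ?_
    omega
  have hmod : ∀ χ : B, ((q χ ^ 2 : ℕ) : ZMod 4) =
      if blockHeight 2 B ((χ : IrrCharacter G) : G → ℂ) = 0 then 1 else 0 := by
    intro χ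
    rcases Nat.even_or_odd (q χ) with ⟨l, hl⟩ | ⟨l, hl⟩
    · rw [if_neg fun e => by rw [hpar, hl] at e; exact (Nat.not_odd_iff_even.2 ⟨l, rfl⟩) e, hl]
      push_cast
      linear_combination ((l : ZMod 4) ^ 2) * h40
    · rw [if_pos ((hpar χ).2 ⟨l, hl⟩), hl]
      push_cast
      linear_combination ((l : ZMod 4) ^ 2 + l) * h40
  rw [← ZMod.natCast_eq_zero_iff, Nat.cast_sum, Finset.sum_congr rfl fun χ _ => hmod χ,
    Finset.sum_boole] at h4
  rwa [← ZMod.natCast_eq_zero_iff]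

namespace Ctx

variable {M : Ideal AlgInt} [M.IsPrime] [CharP (Block.ResF M) 2] {G : Type u} [Group G]
  [Fintype G] {h : ℕ} [NeZero (2 * h)] {D : Ctx M G h}

theorem blockDefect_f (D : Ctx M G h) : blockDefect 2 D.f.1 = blockDefect 2 D.B.1 :=
  blockDefect_eq_of_major D.isPModular D.B.2 ((isDefectGroup_iff D.B D.P).2 D.maxPair.isDef)
    D.f.2 D.P_le_L D.isDefectGroup_f

theorem card_P_eq (D : Ctx M G h) : Nat.card D.P = 2 ^ blockDefect 2 D.B.1 :=
  BlockVal.card_defectGroup D.isPModular D.B.2 ((isDefectGroup_iff D.B D.P).2 D.maxPair.isDef)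

theorem three_le_defect (D : Ctx M G h) : 3 ≤ blockDefect 2 D.B.1 := by
  have h1 := D.card_P_eq
  rw [D.card_P] at h1
  by_contra hn
  have h2 : 2 ^ blockDefect 2 D.B.1 ≤ 2 ^ 2 := Nat.pow_le_pow_right two_pos (by omega)
  have := D.two_le
  omega

theorem isSection_z (D : Ctx M G h) : IsSection 2 1 D.z D.L :=
  isSection_of_zpowers rfl (by rw [pow_one, sq, D.z_sq])

theorem isInducedBlock_f (D : Ctx M G h) :
    IsInducedBlock M D.L D.f.1 D.B.1 := by
  have hQ : IsPGroup 2 (Subgroup.zpowers D.z) :=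
    D.isPGroup.to_le (Subgroup.zpowers_le.2 D.z_mem)
  obtain ⟨B', hB'⟩ := Block.inducedBlockDefined_of_brauer D.isPModular hQ
    (Subgroup.zpowers_le.2 D.z_mem_L)
    le_rfl (Subgroup.centralizer_le_normalizer _) D.f.2
  have h := SubsecNZ.pairOf_of_isInducedBlock D.isPModular ⟨B', hB'.2.1⟩ hQ D.f hB'
  obtain rfl : B' = D.B.1 := congrArg Subtype.val
    ((existsUnique_pairOf (blockSysTop M) (pairSys M G) (p := 2)
      (a := (⟨Subgroup.zpowers D.z, D.f⟩ : PairIdx M G)) hQ).unique h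
      (D.f_sle.pairOf_iff.1 D.maxPair.1))
  exact hB'

namespace Loc

variable (T : D.Loc) (ζ0 : IrrCharacter D.L)

/-- The restriction of a character meets the block through its column. -/
theorem phi_res_eq (hζ : ζ0 ∈ T.N.B.1) (h0 : blockHeight 2 T.N.B.1 (ζ0 : D.L → ℂ) = 0)
    (χ : IrrCharacter G) (i : ZMod (2 * h)) {y : D.L}
    (hy : y ∈ Subgroup.centralizer ((T.N.pair (T.rot i)).1 : Set D.L)) (hreg : ¬ 2 ∣ orderOf y) :
    Phi (T.N.pair (T.rot i)) (T.rot i : D.L) (D.res (χ : G → ℂ)) y =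
      T.R ζ0 (χ : G → ℂ) i * Phi (T.N.pair (T.rot i)) (T.rot i : D.L) (ζ0 : D.L → ℂ) y := by
  obtain ⟨Φ, s, -, -, hP⟩ := exists_signed_equiv T.N hζ h0
  have hcl := res_isClassFunction (D := D) (Char.irr_isClassFunction χ.2)
  rw [R, Char.eq_sum_classInner_smul hcl, A_sum_smul, phi_sum_smul, Finset.sum_mul]
  refine Finset.sum_congr rfl fun φ _ => ?_
  by_cases hφ : φ ∈ T.N.B.1
  · rw [hP ⟨φ, hφ⟩ (T.rot i) y hy hreg, mul_assoc]
  · rw [A_eq_zero_of_notMem T.N _ hφ, phi_pair_eq_zero T.N _ hφ hy hreg, mul_zero, zero_mul]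

theorem lifts_z : Lifts D.L (T.N.pair (T.rot (h : ZMod (2 * h))))
    ⟨Subgroup.zpowers D.z, D.f⟩ := by
  obtain ⟨⟨Q, g⟩, hQ, hb, hs⟩ := T.exists_lift (half_ne_zero D)
  simp only [T.rot_half] at hQ
  subst hQ
  obtain rfl : g = D.f := (existsUnique_sle (S := pairSys M G) (b := ⟨D.P, D.e⟩) D.isPGroup
    (Subgroup.zpowers_le.2 D.z_mem)).unique hs D.f_sle
  exact hb

theorem rot_half_central : ((T.rot (h : ZMod (2 * h)) : T.N.P) : D.L) ∈ Subgroup.center D.L := by
  have : ((T.rot (h : ZMod (2 * h)) : T.N.P) : D.L) = ⟨D.z, D.z_mem_L⟩ := Subtype.ext T.rot_half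
  rw [this]
  exact D.z_mem_center_L

theorem centralizer_half :
    Subgroup.centralizer ((T.N.pair (T.rot (h : ZMod (2 * h)))).1 : Set D.L) = ⊤ := by
  refine eq_top_iff.2 fun x _ => ?_
  show x ∈ Subgroup.centralizer
    (Subgroup.zpowers ((T.rot (h : ZMod (2 * h)) : T.N.P) : D.L) : Set D.L)
  rw [BlockHeight.mem_centralizer_zpowers]
  exact Subgroup.mem_center_iff.1 T.rot_half_central x

/-- The value of a character of the group at a regular point of the section of the involution. -/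
theorem phi_f_eq (hζ : ζ0 ∈ T.N.B.1) (h0 : blockHeight 2 T.N.B.1 (ζ0 : D.L → ℂ) = 0)
    (χ : IrrCharacter G) {y : D.L} (hreg : ¬ 2 ∣ orderOf y) :
    Phi (⟨Subgroup.zpowers D.z, D.f⟩ : PairIdx M G) D.z (χ : G → ℂ) (y : G) =
      T.R ζ0 (χ : G → ℂ) h * (ζ0 : D.L → ℂ) (⟨D.z, D.z_mem_L⟩ * y) := by
  have hy : y ∈ Subgroup.centralizer ((T.N.pair (T.rot (h : ZMod (2 * h)))).1 : Set D.L) := by
    rw [T.centralizer_half]; exact Subgroup.mem_top y
  have h1 := T.phi_res_eq ζ0 hζ h0 χ (h : ZMod (2 * h)) hy hreg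
  have e : ((T.rot (h : ZMod (2 * h)) : T.N.P) : D.L) = ⟨D.z, D.z_mem_L⟩ := Subtype.ext T.rot_half
  rw [T.N.phi_central _ T.rot_half_central hζ hreg] at h1
  rw [e] at h1
  rw [← h1]
  exact (phi_lifts T.lifts_z ⟨D.z, D.z_mem_L⟩ y (χ : G → ℂ)).symm

theorem cM_z_eq (hζ : ζ0 ∈ T.N.B.1) (h0 : blockHeight 2 T.N.B.1 (ζ0 : D.L → ℂ) = 0)
    (χ ψ : IrrCharacter G) :
    cM D.isSection_z D.f.1 χ ψ (1 : ZMod (2 ^ 1)) =
      T.R ζ0 (χ : G → ℂ) h * conj (T.R ζ0 (ψ : G → ℂ) h) := by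
  have h1 := secReg_eq_cM D.isSection_z D.f χ ψ (1 : ZMod (2 ^ 1))
  rw [← h1, show ((1 : ZMod (2 ^ 1))).val = 1 from rfl, pow_one]
  have hA := T.N.A_self_eq_one hζ h0 (T.rot (h : ZMod (2 * h)))
  rw [NilData.A] at hA
  have hd : (2 ^ blockDefect 2 D.f.1 : ℕ) = Nat.card ↥(T.N.P ⊓ Subgroup.centralizer
      (Subgroup.zpowers ((T.rot (h : ZMod (2 * h)) : T.N.P) : D.L) : Set D.L)) := by
    rw [show Subgroup.centralizer (Subgroup.zpowers ((T.rot (h : ZMod (2 * h)) : T.N.P) : D.L) :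
      Set D.L) = ⊤ from T.centralizer_half, inf_top_eq, T.card_N_P, D.blockDefect_f,
      ← D.card_P_eq, D.card_P]
  have hc : Nat.card (Subgroup.centralizer
      (Subgroup.zpowers ((T.rot (h : ZMod (2 * h)) : T.N.P) : D.L) : Set D.L)) = Nat.card D.L := by
    rw [show Subgroup.centralizer (Subgroup.zpowers ((T.rot (h : ZMod (2 * h)) : T.N.P) : D.L) :
      Set D.L) = ⊤ from T.centralizer_half, Subgroup.card_top]
  rw [hc, ← hd] at hA
  conv_rhs => rw [← mul_one (T.R ζ0 (χ : G → ℂ) h * conj (T.R ζ0 (ψ : G → ℂ) h)), ← hA]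
  rw [mul_left_comm]
  congr 1
  simp only [secReg, Finset.mul_sum, sum_regular_centralizer]
  refine (Finset.sum_congr rfl fun y hy => ?_).trans
    (Finset.sum_bij' (fun y _ => ⟨y, by rw [T.centralizer_half]; exact Subgroup.mem_top y⟩)
      (fun y _ => (y : D.L)) (fun y hy => ?_) (fun y hy => ?_) (fun _ _ => rfl) (fun _ _ => rfl)
      (fun y hy => rfl))
  · have hreg := (Finset.mem_filter.1 hy).2
    rw [T.phi_f_eq ζ0 hζ h0 χ hreg, T.phi_f_eq ζ0 hζ h0 ψ hreg, map_mul (starRingEnd ℂ),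
      show (⟨D.z, D.z_mem_L⟩ : D.L) = ((T.rot (h : ZMod (2 * h)) : T.N.P) : D.L) from
        Subtype.ext T.rot_half.symm,
      ← T.N.phi_central _ T.rot_half_central hζ hreg]
    ring
  · exact Finset.mem_filter.2 ⟨Finset.mem_univ _, by
      rw [← Subgroup.orderOf_coe]; exact (Finset.mem_filter.1 hy).2⟩
  · exact Finset.mem_filter.2 ⟨Finset.mem_univ _, by
      rw [Subgroup.orderOf_coe]; exact (Finset.mem_filter.1 hy).2⟩

theorem conj_R_half (χ : IrrCharacter G) {n : ZMod (2 * h) → ℤ}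
    (hn : ∀ i, T.R ζ0 (χ : G → ℂ) i = ∑ r, (n r : ℂ) * ZMod.stdAddChar (r * i)) :
    T.R ζ0 (χ : G → ℂ) h = (zInt (fun _ : Unit => n) () : ℂ) :=
  (hn _).trans (col_half (N := fun _ : Unit => n) ())

theorem zInt_props (hζ : ζ0 ∈ T.N.B.1) (h0 : blockHeight 2 T.N.B.1 (ζ0 : D.L → ℂ) = 0)
    {χ : IrrCharacter G} (hχ : χ ∈ D.B.1) {Z : ℤ} (hZ : T.R ζ0 (χ : G → ℂ) h = (Z : ℂ)) :
    (blockHeight 2 D.B.1 (χ : G → ℂ) = 0 → Odd Z) ∧
      (4 : ℤ) ^ blockHeight 2 D.B.1 (χ : G → ℂ) ≤ Z ^ 2 := by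
  haveI : Fact (1 < 2 ^ 1) := ⟨by norm_num⟩
  have hodd : ∀ {ψ : IrrCharacter G}, ψ ∈ D.B.1 → blockHeight 2 D.B.1 (ψ : G → ℂ) = 0 →
      ∀ {W : ℤ}, T.R ζ0 (ψ : G → ℂ) h = (W : ℂ) → Odd W := by
    intro ψ hψ hψ0 W hW
    have h1 := cM_not_mem D.isSection_z D.isPModular D.isInducedBlock_f hψ hψ0 hψ hψ0
      (1 : ZMod (2 ^ 1))
    rw [T.cM_z_eq ζ0 hζ h0, hW, map_intCast, ← Int.cast_mul,
      Block.memLocalIdeal_intCast_iff D.isPModular] at h1
    exact Int.not_even_iff_odd.1 fun he => h1 (dvd_mul_of_dvd_left (even_iff_two_dvd.1 he) W)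
  refine ⟨fun hh => hodd hχ hh hZ, ?_⟩
  obtain ⟨ψ, hψ, hψ0⟩ := BlockVal.exists_height_zero (p := 2) (Block.pBlock_nonempty D.B.2)
  obtain ⟨n, -, hn⟩ := T.exists_coeff ζ0 hζ h0 ψ
  have hW := T.conj_R_half ζ0 ψ hn
  set W := zInt (fun _ : Unit => n) () with hWdef
  have h2 := cM_div_mem D.isSection_z D.isPModular D.f.2 D.blockDefect_f hχ ψ
    (j := (1 : ZMod (2 ^ 1))) isUnit_one
  rw [T.cM_z_eq ζ0 hζ h0, hZ, hW, map_intCast, ← Int.cast_mul, ← Nat.cast_pow] at h2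
  have h3 := exists_int_mul_of_memLocalRing D.isPModular h2
  have hcop : IsCoprime ((2 ^ blockHeight 2 D.B.1 (χ : G → ℂ) : ℕ) : ℤ) W := by
    obtain ⟨l, hl⟩ := hodd hψ hψ0 hW
    push_cast
    exact IsCoprime.pow_left ⟨-l, 1, by rw [hl]; ring⟩
  obtain ⟨c, hc⟩ := hcop.dvd_of_dvd_mul_right h3
  have hZ0 : Z ≠ 0 := fun e => cM_ne_zero_major D.isSection_z D.isPModular D.isInducedBlock_f
    D.blockDefect_f hχ hψ hψ0 (j := (1 : ZMod (2 ^ 1))) isUnit_one
    (by rw [T.cM_z_eq ζ0 hζ h0, hZ, e]; simp)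
  have hc0 : c ≠ 0 := fun e => hZ0 (by rw [hc, e, mul_zero])
  rw [hc, mul_pow]
  push_cast
  rw [← pow_mul, mul_comm (blockHeight _ _ _) 2, pow_mul]
  norm_num
  exact Int.one_le_abs hc0

/-- The columns at the rotations as vectors on the block. -/
def colVec (i : Fin h) : D.B.1 → ℂ := fun χ =>
  T.R ζ0 ((χ : IrrCharacter G) : G → ℂ) ((i.1 + 1 : ℕ) : ZMod (2 * h))

theorem natCast_succ_ne_zero (i : Fin h) : ((i.1 + 1 : ℕ) : ZMod (2 * h)) ≠ 0 := fun e => by
  rw [ZMod.natCast_eq_zero_iff] at e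
  have := Nat.le_of_dvd (Nat.succ_pos _) e
  have := i.2
  omega

theorem sum_block_R {i : ZMod (2 * h)} (hi : i ≠ 0) (F : IrrCharacter G → ℂ) :
    ∑ χ : D.B.1, F χ * T.R ζ0 ((χ : IrrCharacter G) : G → ℂ) i =
      ∑ χ : IrrCharacter G, F χ * T.R ζ0 (χ : G → ℂ) i := by
  rw [← Finset.sum_subset (Finset.subset_univ (Finset.univ.filter (· ∈ D.B.1))) fun χ _ hχ => by
      rw [T.R_eq_zero_of_notMem ζ0 hi (by simpa using hχ), mul_zero],
    Finset.sum_subtype (p := fun χ => χ ∈ D.B.1) (Finset.univ.filter (· ∈ D.B.1)) (by simp)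
      (fun χ => F χ * T.R ζ0 (χ : G → ℂ) i)]

theorem sum_colVec_mul (hζ : ζ0 ∈ T.N.B.1) (h0 : blockHeight 2 T.N.B.1 (ζ0 : D.L → ℂ) = 0)
    {i j : ZMod (2 * h)} (hi : i ≠ 0) (hj : j ≠ 0) :
    ∑ χ : D.B.1, T.R ζ0 ((χ : IrrCharacter G) : G → ℂ) i *
        conj (T.R ζ0 ((χ : IrrCharacter G) : G → ℂ) j) =
      ((2 * h : ℕ) : ℂ) * ((if i = j then 1 else 0) + if i = -j then 1 else 0) := by
  rw [← T.sum_R_mul_conj ζ0 hζ h0 hi hj]
  simp only [mul_comm _ (conj _)]
  exact T.sum_block_R ζ0 hi fun χ => conj (T.R ζ0 (χ : G → ℂ) j)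

theorem linearIndependent_colVec (hζ : ζ0 ∈ T.N.B.1)
    (h0 : blockHeight 2 T.N.B.1 (ζ0 : D.L → ℂ) = 0) :
    LinearIndependent ℂ (T.colVec ζ0) := by
  rw [Fintype.linearIndependent_iff]
  intro g hg i
  have h1 : ∑ χ : D.B.1, (∑ j, g j • T.colVec ζ0 j) χ * conj (T.colVec ζ0 i χ) = 0 := by
    rw [hg]; simp
  simp only [Finset.sum_apply, Pi.smul_apply, smul_eq_mul, Finset.sum_mul, mul_assoc] at h1
  rw [Finset.sum_comm] at h1
  simp only [← Finset.mul_sum, colVec,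
    T.sum_colVec_mul ζ0 hζ h0 (natCast_succ_ne_zero _) (natCast_succ_ne_zero i)] at h1
  rw [Finset.sum_eq_single i (fun j _ hj => ?_) (by simp), if_pos rfl] at h1
  · refine (mul_eq_zero.1 h1).resolve_right (mul_ne_zero (Nat.cast_ne_zero.2 (NeZero.ne _)) ?_)
    split_ifs <;> norm_num
  · have hlt := j.2
    have hlt' := i.2
    rw [if_neg, if_neg]
    · ring
    · rw [eq_neg_iff_add_eq_zero, ← Nat.cast_add, ZMod.natCast_eq_zero_iff]
      intro e
      have hne : j.1 ≠ i.1 := fun e => hj (Fin.ext e)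
      have := Nat.le_of_dvd (by omega) e
      omega
    · intro e
      have h2 := congrArg ZMod.val e
      rw [ZMod.val_cast_of_lt (by omega), ZMod.val_cast_of_lt (by omega)] at h2
      exact hj (Fin.ext (by omega))

/-- The relations between the regular parts of the characters of the block. -/
def regMap (B : Set (IrrCharacter G)) : (B → ℂ) →ₗ[ℂ] (G → ℂ) :=
  Fintype.linearCombination ℂ fun χ : B => pRegularPart 2 ((χ : IrrCharacter G) : G → ℂ)

theorem finrank_range_regMap (B : Set (IrrCharacter G)) :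
    Module.finrank ℂ (LinearMap.range (regMap B)) = blockRank 2 B := by
  rw [regMap, Fintype.range_linearCombination, blockRank, Set.image_eq_range]

theorem colVec_mem_ker (i : Fin h) : T.colVec ζ0 i ∈ LinearMap.ker (regMap D.B.1) := by
  rw [LinearMap.mem_ker, regMap, Fintype.linearCombination_apply]
  funext x
  simp only [Finset.sum_apply, Pi.smul_apply, smul_eq_mul, Pi.zero_apply]
  by_cases hx : 2 ∣ orderOf x
  · simp [pRegularPart, IsPRegular, hx]
  · rw [← T.reg_orth ζ0 (natCast_succ_ne_zero i) hx,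
      ← T.sum_block_R ζ0 (natCast_succ_ne_zero i) fun χ => (χ : G → ℂ) x]
    refine Finset.sum_congr rfl fun χ _ => ?_
    simp [pRegularPart, IsPRegular, hx, colVec, mul_comm]

theorem rank_add_le (hζ : ζ0 ∈ T.N.B.1) (h0 : blockHeight 2 T.N.B.1 (ζ0 : D.L → ℂ) = 0) :
    blockRank 2 D.B.1 + h ≤ Fintype.card D.B.1 := by
  have h1 := LinearMap.finrank_range_add_finrank_ker (regMap D.B.1)
  rw [finrank_range_regMap, Module.finrank_fintype_fun_eq_card] at h1
  have h2 : h ≤ Module.finrank ℂ (LinearMap.ker (regMap D.B.1)) := by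
    have h3 : LinearIndependent ℂ fun i => (⟨_, T.colVec_mem_ker ζ0 i⟩ : LinearMap.ker (regMap D.B.1)) :=
      LinearIndependent.of_comp (LinearMap.ker (regMap D.B.1)).subtype
        (T.linearIndependent_colVec ζ0 hζ h0)
    simpa using h3.fintype_card_le_finrank
  omega

end Loc

end Ctx

end Cfsg.Agent.BlockDih
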