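import Cfsg.Agent.BlockDih.Block
import Cfsg.Agent.BlocksChar.ClassProd
import Cfsg.Agent.Char.Linear
import Cfsg.Agent.Brauer.KleinFourBlock

/-!
# Class multiplication at the central involution in the exceptional configuration
-/

set_option autoImplicit false
set_option maxHeartbeats 800000
set_option linter.unusedSectionVars false
set_option linter.style.haveILetI false

noncomputable section

namespace Cfsg.Agent.BlockDih

open MonoidAlgebra Cfsg Cfsg.Agent.BrauerPairs Cfsg.Agent.BrauerPairs.Nil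
open Cfsg.Agent.BlkChar.Contrib
open scoped ComplexConjugate Classical

universe u

section Count

variable {G : Type u} [Group G] [Fintype G]

theorem sum_irr_conj_eq_count (a b : G) :
    ∑ χ : IrrCharacter G, (χ : G → ℂ) a * conj ((χ : G → ℂ) b) =
      ((Finset.univ.filter fun g : G => g * a * g⁻¹ = b).card : ℂ) := by
  rw [Char.sum_irr_mul_conj]
  split_ifs with hc
  · obtain ⟨g0, hg0⟩ := isConj_iff.1 hc
    congr 1
    rw [Nat.card_eq_fintype_card, Fintype.card_subtype]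
    refine Finset.card_equiv (Equiv.mulLeft g0) fun g => ?_
    simp only [Finset.mem_filter, Finset.mem_univ, true_and, Equiv.coe_mulLeft,
      Subgroup.mem_centralizer_singleton_iff]
    rw [← hg0]
    constructor
    · intro e
      calc g0 * g * a * (g0 * g)⁻¹ = g0 * (g * a) * g⁻¹ * g0⁻¹ := by group
        _ = _ := by rw [e]; group
    · intro e
      calc g * a = g0⁻¹ * (g0 * g * a * (g0 * g)⁻¹) * g0 * g := by group
        _ = a * g := by rw [e]; group
  · rw [Finset.filter_false_of_mem fun g _ hg => hc (isConj_iff.2 ⟨g, hg⟩)]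
    simp

/-- The class multiplication coefficient for a conjugation invariant set of involutions. -/
theorem sum_sq_mul_div {X : Finset G} (hX : ∀ g, ∀ x ∈ X, g * x * g⁻¹ ∈ X)
    (hinv : ∀ x ∈ X, x⁻¹ = x) (w : G) :
    ∑ χ : IrrCharacter G, (∑ x ∈ X, (χ : G → ℂ) x) ^ 2 / (χ : G → ℂ) 1 * (χ : G → ℂ) w =
      (Nat.card G : ℂ) * ((X.filter fun x => w * x ∈ X).card : ℂ) := by
  have hG : (Nat.card G : ℂ) ≠ 0 := Nat.cast_ne_zero.2 Nat.card_pos.ne'
  apply mul_left_cancel₀ hG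
  have h1 : ∀ χ : IrrCharacter G, (Nat.card G : ℂ) *
      ((∑ x ∈ X, (χ : G → ℂ) x) ^ 2 / (χ : G → ℂ) 1 * (χ : G → ℂ) w) =
      ∑ x' ∈ X, ∑ x ∈ X, ∑ g : G,
        (χ : G → ℂ) (w * (g * x * g⁻¹)) * conj ((χ : G → ℂ) x') := by
    intro χ
    have e : ∀ x' ∈ X, conj ((χ : G → ℂ) x') = (χ : G → ℂ) x' := fun x' hx' => by
      rw [← Char.irr_inv χ.2, hinv x' hx']
    rw [Finset.sum_congr rfl fun x' hx' => show ∑ x ∈ X, ∑ g : G,
        (χ : G → ℂ) (w * (g * x * g⁻¹)) * conj ((χ : G → ℂ) x') =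
        (Nat.card G : ℂ) * (χ : G → ℂ) w / (χ : G → ℂ) 1 * (∑ x ∈ X, (χ : G → ℂ) x) *
          (χ : G → ℂ) x' by
      simp only [e x' hx', ← Finset.sum_mul, BlocksChar.sum_conj_mul χ.2]
      congr 1
      rw [Finset.mul_sum]
      exact Finset.sum_congr rfl fun x _ => by ring, ← Finset.mul_sum]
    ring
  rw [Finset.mul_sum, Finset.sum_congr rfl fun χ _ => h1 χ, Finset.sum_comm]
  simp only [Finset.sum_comm (γ := IrrCharacter G)]
  simp only [sum_irr_conj_eq_count]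
  have h2 : ∀ v : G, ∑ x' ∈ X, ((Finset.univ.filter fun g : G => g * v * g⁻¹ = x').card : ℂ) =
      if v ∈ X then (Nat.card G : ℂ) else 0 := by
    intro v
    rw [← Nat.cast_sum]
    split_ifs with hv
    · rw [← Finset.card_eq_sum_card_fiberwise fun g _ => hX g v hv, Finset.card_univ,
        Nat.card_eq_fintype_card]
    · rw [Finset.sum_eq_zero fun x' hx' => ?_, Nat.cast_zero]
      rw [Finset.card_eq_zero, Finset.filter_false_of_mem]
      intro g _ hg
      apply hv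
      have := hX g⁻¹ x' hx'
      rw [← hg] at this
      simpa [mul_assoc] using this
  rw [Finset.sum_comm, Finset.sum_congr rfl fun x _ => by rw [Finset.sum_comm]]
  simp only [h2]
  rw [Finset.sum_comm]
  have h3 : ∀ g : G, ∑ x ∈ X, (if w * (g * x * g⁻¹) ∈ X then (Nat.card G : ℂ) else 0) =
      (Nat.card G : ℂ) * ((X.filter fun x => w * x ∈ X).card : ℂ) := by
    intro g
    rw [← Finset.sum_filter, Finset.sum_const, nsmul_eq_mul, mul_comm]
    congr 2
    refine Finset.card_equiv (MulAut.conj g).toEquiv fun x => ?_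
    simp only [Finset.mem_filter, MulEquiv.toEquiv_eq_coe, MulEquiv.coe_toEquiv,
      MulAut.conj_apply]
    refine and_congr_left fun _ => ⟨hX g x, fun hx => ?_⟩
    have := hX g⁻¹ _ hx
    simpa [mul_assoc] using this
  rw [Finset.sum_congr rfl fun g _ => h3 g, Finset.sum_const, Finset.card_univ, nsmul_eq_mul,
    ← Nat.card_eq_fintype_card]

/-- The class multiplication coefficient of a class of involutions. -/
theorem sum_sq_class {z : G} (hz : z⁻¹ = z) (w : G) :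
    (Nat.card G : ℂ) * ∑ χ : IrrCharacter G,
        (χ : G → ℂ) z ^ 2 / (χ : G → ℂ) 1 * (χ : G → ℂ) w =
      (Nat.card (Subgroup.centralizer ({z} : Set G)) : ℂ) ^ 2 *
        ((Finset.univ.filter fun x : G => IsConj z x ∧ IsConj z (w * x)).card : ℂ) := by
  set X := Finset.univ.filter fun x : G => IsConj z x with hXdef
  have hX : ∀ g, ∀ x ∈ X, g * x * g⁻¹ ∈ X := fun g x hx => Finset.mem_filter.2
    ⟨Finset.mem_univ _, (Finset.mem_filter.1 hx).2.trans (isConj_iff.2 ⟨g, rfl⟩)⟩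
  have hinv : ∀ x ∈ X, x⁻¹ = x := fun x hx => by
    obtain ⟨g, rfl⟩ := isConj_iff.1 (Finset.mem_filter.1 hx).2
    rw [conj_inv, hz]
  have h := sum_sq_mul_div hX hinv w
  have hval : ∀ χ : IrrCharacter G, ∑ x ∈ X, (χ : G → ℂ) x = (X.card : ℂ) * (χ : G → ℂ) z := by
    intro χ
    rw [← nsmul_eq_mul, ← Finset.sum_const]
    exact Finset.sum_congr rfl fun x hx => (Char.isClassFunction_eq_of_isConj
      (Char.irr_isClassFunction χ.2) (Finset.mem_filter.1 hx).2).symm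
  have hcard : (X.card : ℂ) * (Nat.card (Subgroup.centralizer ({z} : Set G)) : ℂ) =
      (Nat.card G : ℂ) := by
    rw [← Nat.cast_mul, Nat.card_eq_fintype_card (α := G), ← Finset.card_univ (α := G)]
    congr 1
    rw [Finset.card_eq_sum_card_fiberwise (f := fun g : G => g * z * g⁻¹) (s := Finset.univ)
      (t := X) fun g _ => Finset.mem_filter.2 ⟨Finset.mem_univ _, isConj_iff.2 ⟨g, rfl⟩⟩,
      Finset.sum_congr rfl fun x hx => ?_, Finset.sum_const, smul_eq_mul]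
    have h1 := (sum_irr_conj_eq_count z x).symm.trans (Char.sum_irr_mul_conj z x)
    rw [if_pos (Finset.mem_filter.1 hx).2, Nat.cast_inj] at h1
    exact h1
  have hc0 : (X.card : ℂ) ≠ 0 := Nat.cast_ne_zero.2 (Finset.card_pos.2
    ⟨z, Finset.mem_filter.2 ⟨Finset.mem_univ _, IsConj.refl z⟩⟩).ne'
  simp only [hval, mul_pow, mul_div_assoc, mul_assoc ((X.card : ℂ) ^ 2), ← Finset.mul_sum] at h
  rw [show (X.filter fun x => w * x ∈ X) =
      Finset.univ.filter fun x : G => IsConj z x ∧ IsConj z (w * x) by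
    ext x; simp [hXdef]] at h
  apply mul_left_cancel₀ (pow_ne_zero 2 hc0)
  rw [mul_left_comm, h, ← mul_assoc ((X.card : ℂ) ^ 2), ← mul_pow, hcard]
  ring

end Count

namespace Ctx

variable {M : Ideal AlgInt} [M.IsPrime] [CharP (Block.ResF M) 2] {G : Type u} [Group G]
  [Fintype G] {h : ℕ} [NeZero (2 * h)] {D : Ctx M G h}

/-- The conjugates of the involution in its centralizer. -/
def XL (D : Ctx M G h) : Finset D.L := Finset.univ.filter fun x : D.L => IsConj D.z (x : G)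

theorem XL_conj (D : Ctx M G h) (g : D.L) (x : D.L) (hx : x ∈ D.XL) : g * x * g⁻¹ ∈ D.XL := by
  refine Finset.mem_filter.2 ⟨Finset.mem_univ _, ?_⟩
  refine (Finset.mem_filter.1 hx).2.trans (isConj_iff.2 ⟨(g : G), ?_⟩)
  simp

theorem z_inv (D : Ctx M G h) : D.z⁻¹ = D.z := inv_eq_of_mul_eq_one_right D.z_sq

theorem inv_of_isConj (D : Ctx M G h) {x : G} (hx : IsConj D.z x) : x⁻¹ = x := by
  obtain ⟨g, rfl⟩ := isConj_iff.1 hx
  rw [conj_inv, D.z_inv]

theorem XL_inv (D : Ctx M G h) (x : D.L) (hx : x ∈ D.XL) : x⁻¹ = x :=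
  Subtype.ext (by simpa using D.inv_of_isConj (Finset.mem_filter.1 hx).2)

namespace Loc

variable (T : D.Loc) (ζ0 : IrrCharacter D.L)

theorem mem_L_of_inverts {i : ZMod (2 * h)} (hi : i ≠ 0) {y x : G}
    (hy : y * ((T.rot i : D.L) : G) = ((T.rot i : D.L) : G) * y ∧ ¬ 2 ∣ orderOf y)
    (hx : IsConj D.z x) (hwx : IsConj D.z (((T.rot i : D.L) : G) * y * x)) : x ∈ D.L := by
  have h1 := D.inv_of_isConj hx
  have h2 := D.inv_of_isConj hwx
  set u := ((T.rot i : D.L) : G) with hu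
  set w := u * y with hw
  have h3 : x * w * x⁻¹ = w⁻¹ := by
    rw [mul_inv_rev, h1] at h2
    rw [h1]
    calc x * w * x = x * (w * x) := mul_assoc _ _ _
      _ = x * (x * w⁻¹) := by rw [h2]
      _ = x * x * w⁻¹ := (mul_assoc _ _ _).symm
      _ = w⁻¹ := by
        conv_lhs => arg 1; arg 1; rw [← h1]
        rw [inv_mul_cancel, one_mul]
  obtain ⟨k, hk⟩ := T.exists_orderOf_rot i
  have h4 := (Element.pPart_conj Nat.prime_two x w).1
  have h5 : Commute u y := hy.1.symm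
  have e1 : w⁻¹ = u⁻¹ * y⁻¹ := by rw [hw, h5.eq, mul_inv_rev]
  rw [h3, e1, (Brauer.orderOf_mul_coprime_parts (by rw [orderOf_inv]; exact hk)
    (by rw [orderOf_inv]; exact hy.2) h5.inv_inv).1,
    hw, (Brauer.orderOf_mul_coprime_parts hk hy.2 h5).1] at h4
  obtain ⟨l, hl⟩ := Subgroup.mem_zpowers_iff.1 (T.z_mem_rot hi)
  rw [D.mem_L, ← mul_inv_eq_iff_eq_mul]
  rw [← hl, ← hu, ← conj_zpow, ← h4, inv_zpow, hu, hl, D.z_inv]

theorem class_sum_eq {i : ZMod (2 * h)} (hi : i ≠ 0) :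
    (Nat.card G : ℂ) * ∑ χ : IrrCharacter G,
        (χ : G → ℂ) D.z ^ 2 / (χ : G → ℂ) 1 * T.R ζ0 (χ : G → ℂ) i =
      (Nat.card D.L : ℂ) * ∑ φ : IrrCharacter D.L, (∑ x ∈ D.XL, (φ : D.L → ℂ) x) ^ 2 /
        (φ : D.L → ℂ) 1 * T.N.A (T.rot i) (φ : D.L → ℂ) (ζ0 : D.L → ℂ) := by
  have hcent : Nat.card (Subgroup.centralizer ({D.z} : Set G)) = Nat.card D.L := by
    rw [← Brauer.centralizer_zpowers_eq]
  simp only [fun χ : IrrCharacter G => T.R_eq_sum ζ0 (Char.irr_isClassFunction χ.2),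
    A_rot_eq_sum, Finset.mul_sum]
  rw [Finset.sum_comm]
  conv_rhs => rw [Finset.sum_comm]
  refine Finset.sum_congr rfl fun y _ => ?_
  have e : ∀ a b c d : ℂ, a * (b * (c * d)) = c * (a * (b * d)) := fun a b c d => by ring
  rw [Finset.sum_congr rfl fun _ _ => e _ _ _ _, ← Finset.mul_sum]
  conv_rhs => rw [Finset.sum_congr rfl fun _ _ => e _ _ _ _, ← Finset.mul_sum]
  by_cases hy : wt T.N (T.rot i) (ζ0 : D.L → ℂ) y = 0
  · simp [hy]
  congr 1
  rw [← Finset.mul_sum, ← Finset.mul_sum, sum_sq_class D.z_inv, hcent,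
    sum_sq_mul_div D.XL_conj D.XL_inv, ← mul_assoc, ← sq]
  congr 2
  refine (Finset.card_bij (fun (x : D.L) _ => (x : G)) (fun x hx => ?_) (fun a _ b _ e => Subtype.ext e)
    fun x hx => ?_).symm
  · simp only [XL, Finset.mem_filter, Finset.mem_univ, true_and] at hx ⊢
    simpa using hx
  · simp only [Finset.mem_filter, Finset.mem_univ, true_and] at hx
    refine ⟨⟨x, T.mem_L_of_inverts hi (T.commute_of_wt ζ0 hy) hx.1 hx.2⟩, ?_, rfl⟩
    simp only [XL, Finset.mem_filter, Finset.mem_univ, true_and]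
    simpa using hx

theorem deg_orth_L {i : ZMod (2 * h)} (hi : i ≠ 0) :
    ∑ φ : IrrCharacter D.L, (φ : D.L → ℂ) 1 *
      T.N.A (T.rot i) (φ : D.L → ℂ) (ζ0 : D.L → ℂ) = 0 := by
  simp only [A_rot_eq_sum, Finset.mul_sum]
  rw [Finset.sum_comm]
  refine Finset.sum_eq_zero fun y _ => ?_
  by_cases hy : wt T.N (T.rot i) (ζ0 : D.L → ℂ) y = 0
  · simp [hy]
  obtain ⟨hc, hr⟩ := T.commute_of_wt ζ0 hy
  obtain ⟨k, hk⟩ := T.exists_orderOf_rot i
  have hne : (T.rot i : D.L) * y ≠ 1 := fun e => by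
    have h1 := (Brauer.orderOf_mul_coprime_parts hk hr hc.symm).1
    have h2 : ((T.rot i : D.L) : G) * (y : G) = 1 := congrArg Subtype.val e
    have h3 := (Brauer.orderOf_mul_coprime_parts (p := 2) (k := 0) (u := (1 : G)) (by simp)
      (y := 1) (by simp) (Commute.one_left _)).1
    rw [mul_one] at h3
    rw [h2, h3] at h1
    exact T.rot_ne_one hi h1.symm
  rw [Finset.sum_congr rfl fun φ _ => mul_left_comm _ _ _, ← Finset.mul_sum,
    Char.sum_irr_degree_mul, if_neg hne, mul_zero]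

theorem conj_rot (x : T.N.P) (i : ZMod (2 * h)) :
    x * T.rot i * x⁻¹ = T.rot i ∨ x * T.rot i * x⁻¹ = T.rot (-i) := by
  rw [rot_neg]
  by_cases hxa : ((x : D.L) : G) ∈ Subgroup.zpowers D.a
  · left
    obtain ⟨k, hk⟩ := Subgroup.mem_zpowers_iff.1 hxa
    refine Subtype.ext (Subtype.ext ?_)
    simp only [Subgroup.coe_mul, Subgroup.coe_inv, rot_coe]
    rw [← hk, (((Commute.refl D.a).zpow_left k).pow_right _).eq, mul_inv_cancel_right]
  · right
    obtain ⟨k, hk⟩ := Subgroup.mem_zpowers_iff.1 (D.index_two _ (T.mem_P.1 x.2) hxa)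
    refine Subtype.ext (Subtype.ext ?_)
    simp only [Subgroup.coe_mul, Subgroup.coe_inv, rot_coe]
    rw [show ((x : D.L) : G) = D.t * D.a ^ k by rw [hk, mul_inv_cancel_left]]
    calc D.t * D.a ^ k * D.a ^ i.val * (D.t * D.a ^ k)⁻¹
        = D.t * (D.a ^ k * D.a ^ i.val * (D.a ^ k)⁻¹) * D.t⁻¹ := by group
      _ = D.t * D.a ^ i.val * D.t⁻¹ := by
        rw [(((Commute.refl D.a).zpow_left k).pow_right _).eq, mul_inv_cancel_right]
      _ = _ := D.flip_pow _

theorem orderOf_rot_one : orderOf (T.rot 1) = 2 * h := by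
  rw [← Subgroup.orderOf_coe, ← Subgroup.orderOf_coe]
  refine Eq.trans ?_ D.orderOf_a
  congr 1
  simpa using pow_val (D := D) 1

theorem four_le_linear :
    4 ≤ (Finset.univ.filter fun θ : IrrCharacter T.N.P => (θ : T.N.P → ℂ) 1 = 1).card := by
  set K := Subgroup.zpowers (T.rot (1 + 1)) with hK
  have hKcard : Nat.card K = h := by
    rw [hK, Nat.card_zpowers, rot_add, ← sq, orderOf_pow, T.orderOf_rot_one, Nat.gcd_comm,
      Nat.gcd_eq_left ⟨h, rfl⟩]
    omega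
  have hidx : K.index = 4 := by
    have h1 := K.card_mul_index
    rw [hKcard, T.card_N_P, mul_comm 4 h] at h1
    exact Nat.eq_of_mul_eq_mul_left (by linarith [D.two_le]) h1
  haveI : K.Normal := ⟨fun k hk g => by
    obtain ⟨l, rfl⟩ := Subgroup.mem_zpowers_iff.1 hk
    rw [← conj_zpow]
    refine Subgroup.zpow_mem _ ?_ _
    rcases T.conj_rot g (1 + 1) with e | e
    · rw [e]; exact Subgroup.mem_zpowers _
    · rw [e, rot_neg]; exact inv_mem (Subgroup.mem_zpowers _)⟩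
  have hle : commutator T.N.P ≤ K := Subgroup.Normal.quotient_commutative_iff_commutator_le.1
    (IsPGroup.isMulCommutative_of_card_eq_prime_sq (p := 2) (by rw [← Subgroup.index, hidx]; norm_num))
  have h2 := Nat.le_of_dvd (Nat.pos_of_ne_zero Subgroup.index_ne_zero_of_finite)
    (Subgroup.index_dvd_of_le hle)
  rw [hidx, ← Char.card_linear_irr, Nat.card_eq_fintype_card, Fintype.card_subtype] at h2
  exact h2

theorem card_centralizer_reflection {u : T.N.P}
    (hu : ((u : D.L) : G) ∉ Subgroup.zpowers D.a) :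
    Nat.card (Subgroup.centralizer ({u} : Set T.N.P)) ≤ 4 := by
  set c := T.rot (h : ZMod (2 * h)) with hc
  have key : ∀ x : T.N.P, ((x : D.L) : G) ∈ Subgroup.zpowers D.a → x * u = u * x →
      x = 1 ∨ x = c := by
    intro x hxa hxu
    obtain ⟨k, hk⟩ := Subgroup.mem_zpowers_iff.1 hxa
    obtain ⟨l, hl⟩ := Subgroup.mem_zpowers_iff.1 (D.index_two _ (T.mem_P.1 u.2) hu)
    have hgu : D.a ^ k * ((u : D.L) : G) = ((u : D.L) : G) * D.a ^ k := by
      rw [hk]; exact congrArg (fun w : T.N.P => ((w : D.L) : G)) hxu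
    rw [show ((u : D.L) : G) = D.t * D.a ^ l by rw [hl, mul_inv_cancel_left]] at hgu
    have h3 : D.t * D.a ^ k = D.a ^ k * D.t := by
      apply mul_right_cancel (b := D.a ^ l)
      rw [mul_assoc (D.a ^ k), hgu, mul_assoc, mul_assoc, Commute.zpow_zpow_self D.a k l]
    have h4 : D.t * D.a ^ k * D.t⁻¹ = (D.a ^ k)⁻¹ := by rw [← conj_zpow, D.flip, inv_zpow]
    rw [h3, mul_inv_cancel_right, eq_inv_iff_mul_eq_one, hk] at h4
    rcases D.sq_eq_one hxa h4 with e | e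
    · left; exact Subtype.ext (Subtype.ext e)
    · right; exact Subtype.ext (Subtype.ext (e.trans T.rot_half.symm))
  have hsub : (Finset.univ.filter fun x : T.N.P => x * u = u * x) ⊆ {1, c, u, c * u} := by
    intro x hx
    have hxu := (Finset.mem_filter.1 hx).2
    simp only [Finset.mem_insert, Finset.mem_singleton]
    by_cases hxa : ((x : D.L) : G) ∈ Subgroup.zpowers D.a
    · rcases key x hxa hxu with e | e <;> simp [e]
    · have hu2 : u * u = 1 :=
        Subtype.ext (Subtype.ext (D.refl_sq _ (T.mem_P.1 u.2) hu))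
      have h5 : ((x : D.L) : G)⁻¹ = ((x : D.L) : G) :=
        inv_eq_of_mul_eq_one_right (D.refl_sq _ (T.mem_P.1 x.2) hxa)
      have hxua : (((x * u : T.N.P) : D.L) : G) ∈ Subgroup.zpowers D.a := by
        show ((x : D.L) : G) * ((u : D.L) : G) ∈ _
        rw [← h5, show ((x : D.L) : G)⁻¹ * ((u : D.L) : G) =
          (D.t⁻¹ * ((x : D.L) : G))⁻¹ * (D.t⁻¹ * ((u : D.L) : G)) by group]
        exact mul_mem (inv_mem (D.index_two _ (T.mem_P.1 x.2) hxa))
          (D.index_two _ (T.mem_P.1 u.2) hu)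
      have hx' : x * u * u = x := by rw [mul_assoc, hu2, mul_one]
      rcases key (x * u) hxua (by rw [← mul_assoc, ← hxu]) with e | e <;> rw [e] at hx'
      · simp [← hx']
      · simp [← hx']
  calc Nat.card (Subgroup.centralizer ({u} : Set T.N.P))
      = (Finset.univ.filter fun x : T.N.P => x * u = u * x).card := by
        rw [Nat.card_eq_fintype_card, Fintype.card_subtype]
        refine congrArg Finset.card (Finset.filter_congr fun x _ => ?_)
        exact Subgroup.mem_centralizer_singleton_iff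
    _ ≤ _ := (Finset.card_le_card hsub).trans Finset.card_le_four

theorem irr_reflection_eq_zero (η : IrrCharacter T.N.P) (hη : (η : T.N.P → ℂ) 1 ≠ 1) {u : T.N.P}
    (hu : ((u : D.L) : G) ∉ Subgroup.zpowers D.a) : (η : T.N.P → ℂ) u = 0 := by
  set S := Finset.univ.filter fun θ : IrrCharacter T.N.P => (θ : T.N.P → ℂ) 1 = 1 with hS
  have h1 := Char.sum_irr_mul_conj u u
  rw [if_pos (IsConj.refl u)] at h1
  have h2 : ∑ θ : IrrCharacter T.N.P, Complex.normSq ((θ : T.N.P → ℂ) u) =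
      (Nat.card (Subgroup.centralizer ({u} : Set T.N.P)) : ℝ) := by
    apply Complex.ofReal_injective
    push_cast
    rw [← h1]
    exact Finset.sum_congr rfl fun θ _ => (Complex.mul_conj _).symm
  rw [← Finset.sum_filter_add_sum_filter_not Finset.univ
    (fun θ : IrrCharacter T.N.P => (θ : T.N.P → ℂ) 1 = 1), ← hS] at h2
  have h3 : ∀ θ ∈ S, Complex.normSq ((θ : T.N.P → ℂ) u) = 1 := by
    intro θ hθ
    obtain ⟨g, hg⟩ := Char.exists_monoidHom_of_degree_one (Char.isCharacter_of_irr θ.2)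
      (Finset.mem_filter.1 hθ).2
    rw [hg, Complex.normSq_eq_norm_sq, Complex.norm_eq_one_of_pow_eq_one (n := orderOf u)
      (by rw [← Units.val_pow_eq_pow_val, ← map_pow, pow_orderOf_eq_one, map_one, Units.val_one])
      (orderOf_pos u).ne', one_pow]
  rw [Finset.sum_congr rfl h3, Finset.sum_const, nsmul_eq_mul, mul_one] at h2
  have h4 : (4 : ℝ) ≤ (S.card : ℝ) := by exact_mod_cast T.four_le_linear
  have h5 : (Nat.card (Subgroup.centralizer ({u} : Set T.N.P)) : ℝ) ≤ 4 := by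
    exact_mod_cast T.card_centralizer_reflection hu
  have hle : ∑ θ ∈ Finset.univ.filter (fun θ : IrrCharacter T.N.P => ¬ (θ : T.N.P → ℂ) 1 = 1),
      Complex.normSq ((θ : T.N.P → ℂ) u) ≤ 0 := by linarith
  exact Complex.normSq_eq_zero.1 ((Finset.sum_eq_zero_iff_of_nonneg fun θ _ =>
    Complex.normSq_nonneg _).1 (le_antisymm hle (Finset.sum_nonneg fun θ _ =>
      Complex.normSq_nonneg _)) η (Finset.mem_filter.2 ⟨Finset.mem_univ _, hη⟩))

theorem phi_one_eq_zero_of_involution (hζ : ζ0 ∈ T.N.B.1)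
    (h0 : blockHeight 2 T.N.B.1 (ζ0 : D.L → ℂ) = 0)
    {Φ : T.N.B.1 ≃ IrrCharacter T.N.P} {s : T.N.B.1 → ℤ}
    (hA : ∀ (ψ : T.N.B.1) (u : T.N.P), T.N.A u ((ψ : IrrCharacter D.L) : D.L → ℂ) (ζ0 : D.L → ℂ) =
      (s ψ : ℂ) * (Φ ψ : T.N.P → ℂ) u)
    (hP : ∀ (ψ : T.N.B.1) (u : T.N.P), T.N.Prop' u ((ψ : IrrCharacter D.L) : D.L → ℂ)
      (ζ0 : D.L → ℂ) (T.N.A u ((ψ : IrrCharacter D.L) : D.L → ℂ) (ζ0 : D.L → ℂ)))
    (ψ : T.N.B.1) (hlin : (Φ ψ : T.N.P → ℂ) 1 ≠ 1) {x : D.L} (hx : x ∈ D.XL)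
    (hxz : x ≠ ⟨D.z, D.z_mem_L⟩) : ((ψ : IrrCharacter D.L) : D.L → ℂ) x = 0 := by
  have hx2 : x * x = 1 := by
    have := D.XL_inv x hx
    conv_lhs => arg 1; rw [← this]
    exact inv_mul_cancel x
  have hx1 : x ≠ 1 := by
    rintro rfl
    obtain ⟨g, hg⟩ := isConj_iff.1 (Finset.mem_filter.1 hx).2
    rw [OneMemClass.coe_one, mul_inv_eq_one, mul_eq_left] at hg
    exact D.z_ne_one hg
  have hord : orderOf x = 2 ^ 1 := by
    rw [pow_one]
    exact orderOf_eq_prime (by rw [sq, hx2]) hx1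
  have h1 := sum_phi (M := M) (Subgroup.zpowers x) x ((ψ : IrrCharacter D.L) : D.L → ℂ) 1
  rw [mul_one] at h1
  rw [← h1]
  refine Finset.sum_eq_zero fun g _ => ?_
  by_cases hB : PairOf (blockSysTop M) (pairSys M D.L) 2 T.N.B ⟨Subgroup.zpowers x, g⟩
  · obtain ⟨g', u, hgu, hcj⟩ := T.N.exists_cjRel_pair hord rfl hB
    have e := phi_cjRel hcj (u : D.L) (Char.irr_isClassFunction (ψ : IrrCharacter D.L).2) 1
    rw [hgu, show g' * 1 * g'⁻¹ = 1 by group] at e
    rw [e, hP ψ u 1 (one_mem _) (by simp), hA ψ u, T.irr_reflection_eq_zero (Φ ψ) hlin ?_,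
      mul_zero, zero_mul]
    intro hua
    have hu2 : ((u : D.L) : G) * ((u : D.L) : G) = 1 := by
      have h3 : (g' * (u : D.L) * g'⁻¹) * (g' * (u : D.L) * g'⁻¹) = 1 := by rw [hgu, hx2]
      rw [show (g' * (u : D.L) * g'⁻¹) * (g' * (u : D.L) * g'⁻¹) =
        g' * ((u : D.L) * (u : D.L)) * g'⁻¹ by group, mul_inv_eq_one, mul_eq_left] at h3
      exact congrArg Subtype.val h3
    rcases D.sq_eq_one hua hu2 with e | e
    · apply hx1
      rw [← hgu, show (u : D.L) = 1 from Subtype.ext e]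
      group
    · apply hxz
      rw [← hgu, show (u : D.L) = ⟨D.z, D.z_mem_L⟩ from Subtype.ext e,
        Subgroup.mem_center_iff.1 D.z_mem_center_L g', mul_inv_cancel_right]
  · exact phi_eq_zero T.N.isPModular hord ψ.2 g hB (one_mem _) (by simp)

/-- The class sums weighted by the rotations agree at two even places. -/
theorem local_sum_eq (hζ : ζ0 ∈ T.N.B.1) (h0 : blockHeight 2 T.N.B.1 (ζ0 : D.L → ℂ) = 0)
    {j k : ZMod (2 * h)} (hj0 : j + j ≠ 0) (hk0 : k + k ≠ 0) :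
    ∑ φ : IrrCharacter D.L, (∑ x ∈ D.XL, (φ : D.L → ℂ) x) ^ 2 /
        (φ : D.L → ℂ) 1 * T.N.A (T.rot (j + j)) (φ : D.L → ℂ) (ζ0 : D.L → ℂ) =
      ∑ φ : IrrCharacter D.L, (∑ x ∈ D.XL, (φ : D.L → ℂ) x) ^ 2 /
        (φ : D.L → ℂ) 1 * T.N.A (T.rot (k + k)) (φ : D.L → ℂ) (ζ0 : D.L → ℂ) := by
  obtain ⟨Φ, s, -, hA, hP⟩ := exists_signed_equiv T.N hζ h0
  have key : ∀ φ : IrrCharacter D.L, (∑ x ∈ D.XL, (φ : D.L → ℂ) x) ^ 2 / (φ : D.L → ℂ) 1 *
      (T.N.A (T.rot (j + j)) (φ : D.L → ℂ) (ζ0 : D.L → ℂ) -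
        T.N.A (T.rot (k + k)) (φ : D.L → ℂ) (ζ0 : D.L → ℂ)) =
      (φ : D.L → ℂ) 1 * (T.N.A (T.rot (j + j)) (φ : D.L → ℂ) (ζ0 : D.L → ℂ) -
        T.N.A (T.rot (k + k)) (φ : D.L → ℂ) (ζ0 : D.L → ℂ)) := by
    intro φ
    by_cases hφ : φ ∈ T.N.B.1
    swap
    · rw [A_eq_zero_of_notMem T.N _ hφ, A_eq_zero_of_notMem T.N _ hφ, sub_zero, mul_zero, mul_zero]
    by_cases hlin : (Φ ⟨φ, hφ⟩ : T.N.P → ℂ) 1 = 1
    · obtain ⟨g, hg⟩ := Char.exists_monoidHom_of_degree_one
        (Char.isCharacter_of_irr (Φ ⟨φ, hφ⟩).2) hlin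
      have h2 : ∀ l : ZMod (2 * h), (g (T.rot (l + l)) : ℂ) = 1 := by
        intro l
        obtain ⟨x, hx⟩ := isConj_iff.1 (T.isConj_rot_iff.2 (Or.inr (neg_neg l).symm) :
          IsConj (T.rot l) (T.rot (-l)))
        have h3 := congrArg g hx
        rw [rot_neg, map_mul, map_mul, map_inv, map_inv, mul_comm (g x), mul_inv_cancel_right] at h3
        rw [rot_add, map_mul]
        conv_lhs => arg 1; arg 1; rw [h3]
        rw [inv_mul_cancel, Units.val_one]
      rw [hA ⟨φ, hφ⟩, hA ⟨φ, hφ⟩, hg, hg, h2, h2, sub_self, mul_zero, mul_zero]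
    · congr 1
      have hzX : (⟨D.z, D.z_mem_L⟩ : D.L) ∈ D.XL :=
        Finset.mem_filter.2 ⟨Finset.mem_univ _, IsConj.refl _⟩
      rw [Finset.sum_eq_single_of_mem _ hzX fun x hx hne =>
        T.phi_one_eq_zero_of_involution ζ0 hζ h0 hA hP ⟨φ, hφ⟩ hlin hx hne]
      obtain ⟨w, -, hw, -⟩ := exists_scalar φ D.z_mem_center_L
      have h1 := hw ⟨D.z, D.z_mem_L⟩
      rw [show (⟨D.z, D.z_mem_L⟩ : D.L) * ⟨D.z, D.z_mem_L⟩ = 1 from Subtype.ext D.z_sq] at h1
      have h2 := hw 1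
      rw [mul_one] at h2
      rw [eq_comm, eq_div_iff (Char.irr_one_ne_zero φ.2), ← sq]
      linear_combination ((φ : D.L → ℂ) 1) * h1 -
        ((φ : D.L → ℂ) ⟨D.z, D.z_mem_L⟩) * h2
  have h := Finset.sum_congr rfl fun φ (_ : φ ∈ Finset.univ) => key φ
  simp only [mul_sub, Finset.sum_sub_distrib] at h
  rw [T.deg_orth_L ζ0 hj0, T.deg_orth_L ζ0 hk0, sub_zero] at h
  exact sub_eq_zero.1 h

theorem secReg_eq_zero (hζ : ζ0 ∈ T.N.B.1) (h0 : blockHeight 2 T.N.B.1 (ζ0 : D.L → ℂ) = 0)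
    (hk : Fintype.card D.B.1 ≤ h + 1) {g : Blk M D.L} (hg : g ≠ D.f) (ψ : IrrCharacter G)
    {χ : IrrCharacter G} (hχ : χ ∈ D.B.1) :
    secReg 2 (⟨Subgroup.zpowers D.z, g⟩ : PairIdx M G) D.z (χ : G → ℂ) (ψ : G → ℂ) = 0 := by
  have hord : orderOf D.z = 2 ^ 1 := by
    rw [pow_one]; exact orderOf_eq_prime (by rw [sq, D.z_sq]) D.z_ne_one
  by_cases hB : PairOf (blockSysTop M) (pairSys M G) 2 D.B ⟨Subgroup.zpowers D.z, g⟩
  swap
  · refine Finset.sum_eq_zero fun y hy => ?_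
    obtain ⟨-, h1, h2⟩ := Finset.mem_filter.1 hy
    rw [phi_eq_zero D.isPModular hord hχ g hB h1 h2, zero_mul]
  set w : D.L → ℂ := fun y => if 2 ∣ orderOf y then 0 else
    conj (Phi (⟨Subgroup.zpowers D.z, g⟩ : PairIdx M G) D.z (ψ : G → ℂ) (y : G)) with hw
  have hsec : ∀ θ : IrrCharacter G,
      secReg 2 (⟨Subgroup.zpowers D.z, g⟩ : PairIdx M G) D.z (θ : G → ℂ) (ψ : G → ℂ) =
        ∑ y : D.L, w y * (θ : G → ℂ) (D.z * (y : G)) := by
    intro θ
    have h1 : ∑ y ∈ Finset.univ.filter (fun y : G => y ∈ D.L ∧ ¬ 2 ∣ orderOf y),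
        (θ : G → ℂ) (D.z * y) *
          conj (Phi (⟨Subgroup.zpowers D.z, g⟩ : PairIdx M G) D.z (ψ : G → ℂ) y) =
        secReg 2 (⟨Subgroup.zpowers D.z, g⟩ : PairIdx M G) D.z (θ : G → ℂ) (ψ : G → ℂ) := by
      rw [Finset.sum_congr rfl fun y _ => by
        rw [← sum_phi (M := M) (Subgroup.zpowers D.z) D.z (θ : G → ℂ) y, Finset.sum_mul],
        Finset.sum_comm]
      refine (Finset.sum_eq_single g (fun g' _ hne => ?_)
        fun h => absurd (Finset.mem_univ _) h).trans rfl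
      exact cross_eq_zero D.isPModular hord hne θ ψ
    rw [← h1, sum_regular_centralizer, Finset.sum_filter]
    refine Finset.sum_congr rfl fun y _ => ?_
    simp only [hw]
    split_ifs <;> ring
  set v : D.B.1 → ℂ := fun θ => secReg 2 (⟨Subgroup.zpowers D.z, g⟩ : PairIdx M G) D.z
    ((θ : IrrCharacter G) : G → ℂ) (ψ : G → ℂ) with hv
  have hoff : ∀ θ : IrrCharacter G, θ ∉ D.B.1 →
      secReg 2 (⟨Subgroup.zpowers D.z, g⟩ : PairIdx M G) D.z (θ : G → ℂ) (ψ : G → ℂ) = 0 := by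
    intro θ hθ
    refine Finset.sum_eq_zero fun y hy => ?_
    obtain ⟨-, h1, h2⟩ := Finset.mem_filter.1 hy
    haveI := Fintype.ofFinite (Subgroup.centralizer (Subgroup.zpowers D.z : Set G))
    have h3 := blockPart_eq_zero_of_notMem D.isPModular hord g hB (y := ⟨y, h1⟩)
      (by rwa [← Subgroup.orderOf_coe]) hθ
    rw [phi_eq_blockPart (⟨Subgroup.zpowers D.z, g⟩ : PairIdx M G) (Subgroup.mem_zpowers _)
      (Char.irr_isClassFunction θ.2) ⟨y, h1⟩, h3, zero_mul]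
  have hsumB : ∀ F : IrrCharacter G → ℂ, ∑ θ : D.B.1, F θ * v θ =
      ∑ θ : IrrCharacter G, F θ * ∑ y : D.L, w y * (θ : G → ℂ) (D.z * (y : G)) := by
    intro F
    simp only [← hsec, hv]
    rw [← Finset.sum_subset (Finset.subset_univ (Finset.univ.filter (· ∈ D.B.1))) fun θ _ hθ => by
        rw [hoff θ (by simpa using hθ), mul_zero],
      Finset.sum_subtype (p := fun θ => θ ∈ D.B.1) (Finset.univ.filter (· ∈ D.B.1)) (by simp)
        (fun θ => F θ * secReg 2 (⟨Subgroup.zpowers D.z, g⟩ : PairIdx M G) D.z (θ : G → ℂ)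
          (ψ : G → ℂ))]
  have hwc : ∀ y : D.L, w y ≠ 0 → (y : G) * D.z = D.z * (y : G) ∧ ¬ 2 ∣ orderOf (y : G) := by
    intro y hy
    refine ⟨D.mem_L.1 y.2, fun e => hy ?_⟩
    rw [Subgroup.orderOf_coe] at e
    exact if_pos e
  have hker : v ∈ LinearMap.ker (regMap D.B.1) := by
    rw [LinearMap.mem_ker, regMap, Fintype.linearCombination_apply]
    funext x
    simp only [Finset.sum_apply, Pi.smul_apply, smul_eq_mul, Pi.zero_apply]
    by_cases hx : 2 ∣ orderOf x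
    · simp [pRegularPart, IsPRegular, hx]
    · rw [Finset.sum_congr rfl fun θ _ =>
        show v θ * pRegularPart 2 ((θ : IrrCharacter G) : G → ℂ) x =
          ((θ : IrrCharacter G) : G → ℂ) x * v θ by
        simp [pRegularPart, IsPRegular, hx, mul_comm], hsumB fun θ => (θ : G → ℂ) x]
      simp only [Finset.mul_sum]
      rw [Finset.sum_comm]
      refine Finset.sum_eq_zero fun y _ => ?_
      by_cases hy : w y = 0
      · simp [hy]
      have hne : ¬ IsConj (D.z * (y : G)) x⁻¹ := fun e => by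
        obtain ⟨a, ha⟩ := isConj_iff.1 e
        obtain ⟨hc, hr⟩ := hwc y hy
        have h1 := (Brauer.orderOf_mul_coprime_parts hord hr (show Commute D.z (y : G) from hc.symm)).1
        have h2 := (Element.pPart_conj Nat.prime_two a (D.z * (y : G))).1
        have h3 := (Brauer.orderOf_mul_coprime_parts (p := 2) (k := 0) (u := (1 : G)) (by simp)
          (y := x⁻¹) (by rwa [orderOf_inv]) (Commute.one_left _)).1
        rw [one_mul] at h3
        rw [ha, h1, h3, eq_comm, mul_inv_eq_one, mul_eq_left] at h2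
        exact D.z_ne_one h2
      rw [Finset.sum_congr rfl fun θ _ => mul_left_comm _ _ _, ← Finset.mul_sum]
      refine mul_eq_zero_of_right _ ?_
      refine Eq.trans (Finset.sum_congr rfl fun θ _ => ?_)
        ((Char.sum_irr_mul_conj (D.z * (y : G)) x⁻¹).trans (if_neg hne))
      rw [Char.irr_inv θ.2, Complex.conj_conj, mul_comm]
  have horth : ∀ i : Fin h, ∑ θ : D.B.1, v θ * conj (T.colVec ζ0 i θ) = 0 := by
    intro i
    rw [Finset.sum_congr rfl fun θ _ => mul_comm _ _]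
    simp only [colVec]
    rw [hsumB fun θ => conj (T.R ζ0 (θ : G → ℂ) ((i.1 + 1 : ℕ) : ZMod (2 * h)))]
    simp only [fun χ : IrrCharacter G => T.R_eq_sum ζ0 (Char.irr_isClassFunction χ.2), map_sum,
      map_mul (starRingEnd ℂ), Finset.sum_mul_sum]
    set u := T.rot ((i.1 + 1 : ℕ) : ZMod (2 * h)) with hu
    rw [Finset.sum_comm, Finset.sum_congr rfl fun y' _ => Finset.sum_comm]
    have hL : ∀ y' y : D.L,
        ∑ θ : IrrCharacter G,
          conj (wt T.N u (ζ0 : D.L → ℂ) y') * conj ((θ : G → ℂ) (((u : D.L) : G) * y')) *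
            (w y * (θ : G → ℂ) (D.z * (y : G))) =
        ∑ φ : IrrCharacter D.L,
          conj (wt T.N u (ζ0 : D.L → ℂ) y') * conj ((φ : D.L → ℂ) ((u : D.L) * y')) *
            (w y * (φ : D.L → ℂ) (⟨D.z, D.z_mem_L⟩ * y)) := by
      intro y' y
      have e : ∀ a b c d : ℂ, a * b * (c * d) = a * c * (d * b) := fun a b c d => by ring
      rw [Finset.sum_congr rfl fun _ _ => e _ _ _ _, ← Finset.mul_sum]
      conv_rhs => rw [Finset.sum_congr rfl fun _ _ => e _ _ _ _, ← Finset.mul_sum]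
      by_cases hy' : wt T.N u (ζ0 : D.L → ℂ) y' = 0
      · simp [hy']
      by_cases hy : w y = 0
      · simp [hy]
      congr 1
      have h2 := T.sum_irr_eq (i := (h : ZMod (2 * h))) (j := ((i.1 + 1 : ℕ) : ZMod (2 * h)))
        (half_ne_zero D) (natCast_succ_ne_zero i) (y := y) (y' := y')
        (by rw [T.rot_half]; exact hwc y hy) (T.commute_of_wt ζ0 hy')
      rw [T.rot_half] at h2
      rw [h2, show ((T.rot (h : ZMod (2 * h)) : T.N.P) : D.L) = ⟨D.z, D.z_mem_L⟩ from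
        Subtype.ext T.rot_half]
    simp only [hL]
    rw [Finset.sum_congr rfl fun y' _ => Finset.sum_comm, Finset.sum_comm]
    refine Finset.sum_eq_zero fun φ _ => ?_
    rw [← Finset.sum_mul_sum]
    by_cases hφ : φ ∈ T.N.B.1
    swap
    · refine mul_eq_zero_of_left ?_ _
      have h3 := congrArg conj (T.A_rot_eq_sum ζ0 φ ((i.1 + 1 : ℕ) : ZMod (2 * h)))
      rw [A_eq_zero_of_notMem T.N _ hφ, map_zero, map_sum] at h3
      simp only [map_mul (starRingEnd ℂ), ← hu] at h3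
      exact h3.symm
    refine mul_eq_zero_of_right _ ?_
    obtain ⟨c, -, hc, -⟩ := exists_scalar φ D.z_mem_center_L
    rw [Finset.sum_congr rfl fun y _ => show w y * (φ : D.L → ℂ) (⟨D.z, D.z_mem_L⟩ * y) =
      c * (w y * (φ : D.L → ℂ) y) by rw [hc]; ring, ← Finset.mul_sum]
    refine mul_eq_zero_of_right _ ?_
    haveI : Fact (1 < 2 ^ 1) := ⟨by norm_num⟩
    have hreg : Brauer.regSum 2 (φ : D.L → ℂ) (part D.isSection_z g.1 ψ (1 : ZMod (2 ^ 1))) = 0 := by
      rw [part, regSum_sum_right]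
      refine Finset.sum_eq_zero fun η hη => ?_
      rw [regSum_smul_right, regSum_pRegularPart_right, regSum_irr_eq_zero D.isPModular
        (T.B_eq ▸ T.N.B.2 : IsPBlock M D.f.1) (T.B_eq ▸ hφ) (fun hηf => hg (Subtype.ext
          (Block.pBlock_eq_of_mem g.2 D.f.2 (Finset.mem_filter.1 hη).2 hηf))), mul_zero]
    rw [← hreg, Brauer.regSum, Finset.sum_filter]
    refine Finset.sum_congr rfl fun y _ => ?_
    simp only [hw]
    split_ifs with hy
    · simp [hy]
    · rw [← phi_eq_part D.isSection_z g ψ (1 : ZMod (2 ^ 1)) hy,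
        show ((1 : ZMod (2 ^ 1))).val = 1 from rfl, pow_one, mul_comm]
  have hspan : v ∈ Submodule.span ℂ (Set.range (T.colVec ζ0)) := by
    have h1 := LinearMap.finrank_range_add_finrank_ker (regMap D.B.1)
    rw [finrank_range_regMap, Module.finrank_fintype_fun_eq_card] at h1
    have h2 : 0 < blockRank 2 D.B.1 := Brauer.KleinBlock.blockRank_pos D.B.2
    have hle : Submodule.span ℂ (Set.range (T.colVec ζ0)) ≤ LinearMap.ker (regMap D.B.1) :=
      Submodule.span_le.2 (Set.range_subset_iff.2 fun i => T.colVec_mem_ker ζ0 i)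
    rw [Submodule.eq_of_le_of_finrank_le hle (by
      rw [finrank_span_eq_card (T.linearIndependent_colVec ζ0 hζ h0), Fintype.card_fin]
      omega)]
    exact hker
  obtain ⟨c, hc⟩ := Submodule.mem_span_range_iff_exists_fun ℂ |>.1 hspan
  have hvv : ∑ θ : D.B.1, v θ * conj (v θ) = 0 := by
    conv_lhs => arg 2; ext θ; arg 2; rw [← hc]
    simp only [Finset.sum_apply, Pi.smul_apply, smul_eq_mul, map_sum, map_mul (starRingEnd ℂ),
      Finset.mul_sum]
    rw [Finset.sum_comm]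
    refine Finset.sum_eq_zero fun i _ => ?_
    rw [Finset.sum_congr rfl fun θ _ => mul_left_comm _ _ _, ← Finset.mul_sum, horth i, mul_zero]
  simp only [Complex.mul_conj] at hvv
  rw [← Complex.ofReal_sum, Complex.ofReal_eq_zero,
    Finset.sum_eq_zero_iff_of_nonneg fun θ _ => Complex.normSq_nonneg _] at hvv
  exact Complex.normSq_eq_zero.1 (hvv ⟨χ, hχ⟩ (Finset.mem_univ _))

theorem value_z (hζ : ζ0 ∈ T.N.B.1) (h0 : blockHeight 2 T.N.B.1 (ζ0 : D.L → ℂ) = 0)
    (hk : Fintype.card D.B.1 ≤ h + 1) {χ : IrrCharacter G} (hχ : χ ∈ D.B.1) :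
    (χ : G → ℂ) D.z = T.R ζ0 (χ : G → ℂ) h * (ζ0 : D.L → ℂ) ⟨D.z, D.z_mem_L⟩ := by
  have h1 := sum_phi (M := M) (Subgroup.zpowers D.z) D.z (χ : G → ℂ) 1
  rw [mul_one] at h1
  rw [← h1]
  refine (Finset.sum_eq_single D.f (fun g _ hg => ?_)
    fun h => absurd (Finset.mem_univ _) h).trans ?_
  · have h2 := T.secReg_eq_zero ζ0 hζ h0 hk hg χ hχ
    rw [secReg] at h2
    simp only [Complex.mul_conj] at h2
    rw [← Complex.ofReal_sum, Complex.ofReal_eq_zero,
      Finset.sum_eq_zero_iff_of_nonneg fun y _ => Complex.normSq_nonneg _] at h2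
    exact Complex.normSq_eq_zero.1 (h2 1 (Finset.mem_filter.2 ⟨Finset.mem_univ _, one_mem _, by simp⟩))
  · have h3 := T.phi_f_eq ζ0 hζ h0 χ (y := 1) (by simp)
    rwa [OneMemClass.coe_one, mul_one] at h3

/-- The relation between the two class multiplication sums. -/
theorem hT_rel (hζ : ζ0 ∈ T.N.B.1) (h0 : blockHeight 2 T.N.B.1 (ζ0 : D.L → ℂ) = 0)
    (hk : Fintype.card D.B.1 ≤ h + 1) {j k : ZMod (2 * h)} (hj0 : j + j ≠ 0) (hk0 : k + k ≠ 0) :
    ∑ χ : D.B.1, T.R ζ0 ((χ : IrrCharacter G) : G → ℂ) h ^ 2 /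
        ((χ : IrrCharacter G) : G → ℂ) 1 * T.R ζ0 ((χ : IrrCharacter G) : G → ℂ) (j + j) =
      ∑ χ : D.B.1, T.R ζ0 ((χ : IrrCharacter G) : G → ℂ) h ^ 2 /
        ((χ : IrrCharacter G) : G → ℂ) 1 * T.R ζ0 ((χ : IrrCharacter G) : G → ℂ) (k + k) := by
  have hG : (Nat.card G : ℂ) ≠ 0 := Nat.cast_ne_zero.2 Nat.card_pos.ne'
  obtain ⟨w, -, -, hw⟩ := exists_scalar ζ0 D.z_mem_center_L
  have hc : (ζ0 : D.L → ℂ) ⟨D.z, D.z_mem_L⟩ ^ 2 ≠ 0 := by
    obtain ⟨w, hw1, hw2, -⟩ := exists_scalar ζ0 D.z_mem_center_L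
    refine pow_ne_zero 2 fun e => ?_
    have h2 := hw2 1
    rw [mul_one, e, eq_comm, mul_eq_zero] at h2
    rcases h2 with h2 | h2
    · rw [h2, zero_mul] at hw1; exact zero_ne_one hw1
    · exact Char.irr_one_ne_zero ζ0.2 h2
  have e : ∀ i : ZMod (2 * h), i ≠ 0 →
      (Nat.card G : ℂ) * ((ζ0 : D.L → ℂ) ⟨D.z, D.z_mem_L⟩ ^ 2 *
        ∑ χ : D.B.1, T.R ζ0 ((χ : IrrCharacter G) : G → ℂ) h ^ 2 /
          ((χ : IrrCharacter G) : G → ℂ) 1 * T.R ζ0 ((χ : IrrCharacter G) : G → ℂ) i) =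
      (Nat.card D.L : ℂ) * ∑ φ : IrrCharacter D.L, (∑ x ∈ D.XL, (φ : D.L → ℂ) x) ^ 2 /
        (φ : D.L → ℂ) 1 * T.N.A (T.rot i) (φ : D.L → ℂ) (ζ0 : D.L → ℂ) := by
    intro i hi
    rw [← T.class_sum_eq ζ0 hi, ← T.sum_block_R ζ0 hi fun χ => (χ : G → ℂ) D.z ^ 2 / (χ : G → ℂ) 1]
    congr 1
    rw [Finset.mul_sum]
    refine Finset.sum_congr rfl fun χ _ => ?_
    rw [T.value_z ζ0 hζ h0 hk χ.2]
    ring
  have := (e _ hj0).trans ((congrArg _ (T.local_sum_eq ζ0 hζ h0 hj0 hk0)).trans (e _ hk0).symm)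
  exact mul_left_cancel₀ hc (mul_left_cancel₀ hG this)

end Loc

end Ctx

end Cfsg.Agent.BlockDih
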