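import Mathlib

/-!
# Integral columns on a cyclic group of order `2 h` with the dihedral orthogonality relations

`N χ` is a symmetric integral function on `ZMod (2 h)`; `col N i χ` is the value at `i` of the
virtual character with multiplicities `N χ`.  The columns at non-zero `i` are orthogonal up to
inversion.
-/

namespace Cfsg.Agent.BlockDih

open scoped ComplexConjugate

variable {ι : Type*} [Fintype ι] {m : ℕ} [NeZero m]

/-- The value at `i` of the virtual character with multiplicities `N χ`. -/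
noncomputable def col (N : ι → ZMod m → ℤ) (i : ZMod m) (χ : ι) : ℂ :=
  ∑ r : ZMod m, (N χ r : ℂ) * ZMod.stdAddChar (r * i)

/-- The orthogonality relations between the columns at non-zero places. -/
def DihOrth (N : ι → ZMod m → ℤ) : Prop :=
  ∀ i j : ZMod m, i ≠ 0 → j ≠ 0 → ∑ χ, col N i χ * conj (col N j χ) =
    (m : ℂ) * ((if i = j then 1 else 0) + if i = -j then 1 else 0)

/-- `[x = y] + [x = -y]`. -/
def pmDelta (x y : ZMod m) : ℤ := (if x = y then 1 else 0) + if x = -y then 1 else 0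

theorem conj_stdAddChar (x : ZMod m) : conj (ZMod.stdAddChar x) = ZMod.stdAddChar (-x) := by
  rw [AddChar.map_neg_eq_conj]

theorem sum_stdAddChar_mul (a : ZMod m) :
    ∑ i : ZMod m, ZMod.stdAddChar (a * i) = if a = 0 then (m : ℂ) else 0 := by
  simpa [mul_comm a, ZMod.card] using
    AddChar.sum_mulShift (R := ZMod m) (R' := ℂ) a (ZMod.isPrimitive_stdAddChar m)

theorem card_mul_coeff (N : ι → ZMod m → ℤ) (χ : ι) (r : ZMod m) :
    (m : ℂ) * (N χ r : ℂ) = ∑ i : ZMod m, col N i χ * ZMod.stdAddChar (-(r * i)) := by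
  simp only [col, Finset.sum_mul]
  rw [Finset.sum_comm]
  simp only [mul_assoc, ← AddChar.map_add_eq_mul, ← Finset.mul_sum]
  simp only [show ∀ s i : ZMod m, s * i + -(r * i) = (s - r) * i from fun s i => by ring,
    sum_stdAddChar_mul, mul_ite, mul_zero, sub_eq_zero]
  simp [mul_comm]

theorem card_mul_diff (N : ι → ZMod m → ℤ) (χ : ι) (r s : ZMod m) :
    (m : ℂ) * ((N χ r - N χ s : ℤ) : ℂ) =
      ∑ i : ZMod m, col N i χ * (ZMod.stdAddChar (-(r * i)) - ZMod.stdAddChar (-(s * i))) := by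
  push_cast
  simp only [mul_sub, card_mul_coeff, Finset.sum_sub_distrib]

theorem col_neg {N : ι → ZMod m → ℤ} (hs : ∀ χ r, N χ (-r) = N χ r) (i : ZMod m) (χ : ι) :
    col N (-i) χ = col N i χ :=
  (Fintype.sum_equiv (Equiv.neg (ZMod m)) _ _ fun r => by simp [hs]).symm

theorem conj_col {N : ι → ZMod m → ℤ} (hs : ∀ χ r, N χ (-r) = N χ r) (i : ZMod m) (χ : ι) :
    conj (col N i χ) = col N i χ := by
  conv_rhs => rw [← col_neg hs]
  simp [col, map_sum, map_mul, conj_stdAddChar]

/-- A difference of two multiplicities against a column. -/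
theorem diff_mul_col {N : ι → ZMod m → ℤ} (hs : ∀ χ r, N χ (-r) = N χ r) (ho : DihOrth N)
    (r s : ZMod m) {j : ZMod m} (hj : j ≠ 0) :
    ∑ χ, ((N χ r - N χ s : ℤ) : ℂ) * col N j χ =
      ZMod.stdAddChar (r * j) + ZMod.stdAddChar (-(r * j)) -
        (ZMod.stdAddChar (s * j) + ZMod.stdAddChar (-(s * j))) := by
  classical
  have hm : (m : ℂ) ≠ 0 := Nat.cast_ne_zero.2 (NeZero.ne m)
  apply mul_left_cancel₀ hm
  rw [Finset.mul_sum]
  simp only [← mul_assoc, card_mul_diff, Finset.sum_mul]
  rw [Finset.sum_comm]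
  have : ∀ i : ZMod m, ∑ χ, col N i χ * (ZMod.stdAddChar (-(r * i)) - ZMod.stdAddChar (-(s * i))) *
      col N j χ = (ZMod.stdAddChar (-(r * i)) - ZMod.stdAddChar (-(s * i))) *
        ((m : ℂ) * ((if i = j then 1 else 0) + if i = -j then 1 else 0)) := by
    intro i
    by_cases hi : i = 0
    · simp [hi]
    rw [← ho i j hi hj, Finset.mul_sum]
    refine Finset.sum_congr rfl fun χ _ => ?_
    rw [conj_col hs]
    ring
  simp only [this, mul_add, mul_ite, mul_one, mul_zero, Finset.sum_add_distrib]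
  simp
  ring

/-- The inner products of the differences of multiplicities. -/
theorem diff_mul_diff {N : ι → ZMod m → ℤ} (hs : ∀ χ r, N χ (-r) = N χ r) (ho : DihOrth N)
    (r s r' s' : ZMod m) :
    ∑ χ, (N χ r - N χ s) * (N χ r' - N χ s') =
      pmDelta r r' - pmDelta r s' - pmDelta s r' + pmDelta s s' := by
  classical
  have hm : (m : ℂ) ≠ 0 := Nat.cast_ne_zero.2 (NeZero.ne m)
  apply Int.cast_injective (α := ℂ)
  apply mul_left_cancel₀ hm
  have hd : ∀ χ, (m : ℂ) * (((N χ r - N χ s) * (N χ r' - N χ s') : ℤ) : ℂ) =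
      ((N χ r - N χ s : ℤ) : ℂ) * ∑ i : ZMod m, col N i χ *
        (ZMod.stdAddChar (-(r' * i)) - ZMod.stdAddChar (-(s' * i))) := fun χ => by
    rw [← card_mul_diff]
    push_cast
    ring
  rw [Int.cast_sum, Finset.mul_sum]
  simp only [hd, Finset.mul_sum, ← mul_assoc]
  rw [Finset.sum_comm]
  simp only [← Finset.sum_mul]
  have : ∀ i : ZMod m, (∑ χ, ((N χ r - N χ s : ℤ) : ℂ) * col N i χ) *
      (ZMod.stdAddChar (-(r' * i)) - ZMod.stdAddChar (-(s' * i))) =
      (ZMod.stdAddChar (r * i) + ZMod.stdAddChar (-(r * i)) -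
        (ZMod.stdAddChar (s * i) + ZMod.stdAddChar (-(s * i)))) *
      (ZMod.stdAddChar (-(r' * i)) - ZMod.stdAddChar (-(s' * i))) := by
    intro i
    by_cases hi : i = 0
    · simp [hi]
    rw [diff_mul_col hs ho r s hi]
  simp only [this]
  simp only [← neg_mul, mul_sub, sub_mul, add_mul, ← AddChar.map_add_eq_mul,
    Finset.sum_add_distrib, Finset.sum_sub_distrib]
  simp only [show ∀ a b i : ZMod m, a * i + b * i = (a + b) * i from fun a b i => by ring,
    sum_stdAddChar_mul]
  simp only [add_neg_eq_zero, neg_add_eq_zero, show ∀ a b : ZMod m, -a + -b = 0 ↔ a = -b from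
    fun a b => by constructor <;> intro h <;> linear_combination -h]
  simp only [pmDelta, eq_neg_iff_add_eq_zero, sub_eq_zero]
  push_cast
  split_ifs <;> simp_all <;> ring

end Cfsg.Agent.BlockDih
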