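import Cfsg.Agent.BrauerPairs.Nil.Main
import Cfsg.Agent.BrauerPairs.RelPairs

/-!
# Contributions in a nilpotent block as signed characters, and lifted pairs
-/

set_option autoImplicit false
set_option maxHeartbeats 800000
set_option linter.unusedSectionVars false
set_option linter.style.haveILetI false

noncomputable section

namespace Cfsg.Agent.BlockDih

open MonoidAlgebra Cfsg Cfsg.Agent.BrauerPairs Cfsg.Agent.BrauerPairs.Nil
open scoped ComplexConjugate Classical

universe u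

variable {p : ℕ} [Fact p.Prime] {M : Ideal AlgInt} [M.IsPrime] [CharP (Block.ResF M) p]
  {G : Type u} [Group G] [Fintype G]

theorem phi_sum_smul {κ : Type*} (s : Finset κ) (c : κ → ℂ) (f : κ → G → ℂ) (a : PairIdx M G)
    (w y : G) : Phi a w (∑ i ∈ s, c i • f i) y = ∑ i ∈ s, c i * Phi a w (f i) y := by
  simp only [phi_eq_sum, Finset.sum_apply, Pi.smul_apply, smul_eq_mul, Finset.mul_sum]
  rw [Finset.sum_comm]
  exact Finset.sum_congr rfl fun i _ => Finset.sum_congr rfl fun g _ => by ring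

variable (D : NilData p M G)

theorem A_sum_smul {κ : Type*} (s : Finset κ) (c : κ → ℂ) (f : κ → G → ℂ) (u : D.P) (θ : G → ℂ) :
    D.A u (∑ i ∈ s, c i • f i) θ = ∑ i ∈ s, c i * D.A u (f i) θ := by
  simp only [NilData.A, secReg, phi_sum_smul, Finset.sum_mul, Finset.mul_sum]
  rw [Finset.sum_comm]
  exact Finset.sum_congr rfl fun i _ => Finset.sum_congr rfl fun g _ => by ring

/-- The weight of a point of the section of `u` against `θ`. -/
def wt (u : D.P) (θ : G → ℂ) (y : G) : ℂ :=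
  if y ∈ Subgroup.centralizer (Subgroup.zpowers (u : G) : Set G) ∧ ¬ p ∣ orderOf y then
    (Nat.card ↥(D.P ⊓ Subgroup.centralizer (Subgroup.zpowers (u : G) : Set G)) : ℂ) /
      (Nat.card (Subgroup.centralizer (Subgroup.zpowers (u : G) : Set G)) : ℂ) *
      conj (Phi (D.pair u) (u : G) θ y)
  else 0

theorem wt_ne_zero {u : D.P} {θ : G → ℂ} {y : G} (h : wt D u θ y ≠ 0) :
    y ∈ Subgroup.centralizer (Subgroup.zpowers (u : G) : Set G) ∧ ¬ p ∣ orderOf y := by
  by_contra hn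
  exact h (if_neg hn)

/-- A contribution is a weighted sum of the values on the section. -/
theorem A_eq_sum_wt (u : D.P) {φ : G → ℂ} (hφ : IsClassFunction G φ) (ζ : IrrCharacter G) :
    D.A u φ (ζ : G → ℂ) = ∑ y : G, wt D u (ζ : G → ℂ) y * φ ((u : G) * y) := by
  suffices H : ∀ θ : IrrCharacter G,
      D.A u (θ : G → ℂ) (ζ : G → ℂ) = ∑ y : G, wt D u (ζ : G → ℂ) y * (θ : G → ℂ) ((u : G) * y) by
    conv_lhs => rw [Char.eq_sum_classInner_smul hφ]
    rw [A_sum_smul]
    conv_rhs => rw [Char.eq_sum_classInner_smul hφ]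
    simp only [Finset.sum_apply, Pi.smul_apply, smul_eq_mul, Finset.mul_sum, H]
    rw [Finset.sum_comm]
    exact Finset.sum_congr rfl fun i _ => Finset.sum_congr rfl fun g _ => by ring
  intro θ
  obtain ⟨k, hk⟩ := D.exists_orderOf u
  have h1 : ∑ y ∈ Finset.univ.filter (fun y : G =>
      y ∈ Subgroup.centralizer (Subgroup.zpowers (u : G) : Set G) ∧ ¬ p ∣ orderOf y),
      (θ : G → ℂ) ((u : G) * y) * conj (Phi (D.pair u) (u : G) (ζ : G → ℂ) y) =
      secReg p (D.pair u) u (θ : G → ℂ) (ζ : G → ℂ) := by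
    rw [Finset.sum_congr rfl fun y _ => by rw [← sum_phi (M := M) (Subgroup.zpowers (u : G)) (u : G) (θ : G → ℂ) y,
      Finset.sum_mul], Finset.sum_comm]
    refine (Finset.sum_eq_single (D.pair u).2 ?_ ?_).trans rfl
    · intro g _ hg
      exact cross_eq_zero D.isPModular hk hg θ ζ
    · exact fun h => absurd (Finset.mem_univ _) h
  rw [NilData.A, ← h1, Finset.mul_sum, Finset.sum_filter]
  refine Finset.sum_congr rfl fun y _ => ?_
  rw [wt]
  split_ifs <;> ring

/-- A character outside the block is not seen. -/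
theorem phi_pair_eq_zero (u : D.P) {φ : IrrCharacter G} (hφ : φ ∉ D.B.1) {y : G}
    (hy : y ∈ Subgroup.centralizer (Subgroup.zpowers (u : G) : Set G)) (hreg : ¬ p ∣ orderOf y) :
    Phi (D.pair u) (u : G) (φ : G → ℂ) y = 0 := by
  obtain ⟨k, hk⟩ := D.exists_orderOf u
  haveI := Fintype.ofFinite (Subgroup.centralizer (Subgroup.zpowers (u : G) : Set G))
  rw [← blockPart_eq_zero_of_notMem D.isPModular hk (D.pair u).2 (D.pairOf u) (y := ⟨y, hy⟩)
    (by rwa [← Subgroup.orderOf_coe]) hφ]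
  exact phi_eq_blockPart (⟨Subgroup.zpowers (u : G), (D.pair u).2⟩ : PairIdx M G)
    (Subgroup.mem_zpowers _) (Char.irr_isClassFunction φ.2) ⟨y, hy⟩

theorem A_eq_zero_of_notMem (u : D.P) {φ : IrrCharacter G} (hφ : φ ∉ D.B.1) (θ : G → ℂ) :
    D.A u (φ : G → ℂ) θ = 0 := by
  refine mul_eq_zero_of_right _ (Finset.sum_eq_zero fun y hy => ?_)
  obtain ⟨-, h1, h2⟩ := Finset.mem_filter.1 hy
  rw [phi_pair_eq_zero D u hφ h1 h2, zero_mul]

/-- The signed parametrization of a nilpotent block by the characters of the defect group. -/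
theorem exists_signed_equiv {χ : IrrCharacter G} (hχ : χ ∈ D.B.1)
    (h0 : blockHeight p D.B.1 (χ : G → ℂ) = 0) :
    ∃ (Φ : D.B.1 ≃ IrrCharacter D.P) (s : D.B.1 → ℤ), (∀ ψ, s ψ = 1 ∨ s ψ = -1) ∧
      (∀ (ψ : D.B.1) (u : D.P), D.A u ((ψ : IrrCharacter G) : G → ℂ) (χ : G → ℂ) =
        (s ψ : ℂ) * (Φ ψ : D.P → ℂ) u) ∧
      ∀ (ψ : D.B.1) (u : D.P), D.Prop' u ((ψ : IrrCharacter G) : G → ℂ) (χ : G → ℂ)
        (D.A u ((ψ : IrrCharacter G) : G → ℂ) (χ : G → ℂ)) := by
  choose η s hs hA hP using fun ψ : D.B.1 => D.exists_irr hχ h0 ψ.2 (D.rel_bot hχ h0 ψ.2)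
  have hinj : Function.Injective η := by
    intro ψ ψ' he
    by_contra hne
    have h1 : ∀ u, D.A u ((ψ : IrrCharacter G) : G → ℂ) ((ψ' : IrrCharacter G) : G → ℂ) =
        (s ψ : ℂ) * (s ψ' : ℂ) * ((η ψ : D.P → ℂ) u * conj ((η ψ : D.P → ℂ) u)) := by
      intro u
      rw [D.A_eq_of_prop (hP ψ u), hA ψ u,
        D.A_swap u ((ψ' : IrrCharacter G) : G → ℂ) (χ : G → ℂ), hA ψ' u, ← he,
        map_mul (starRingEnd ℂ), map_intCast]
      ring
    have h2 := D.sum_A ψ.2 ψ'.2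
    rw [if_neg fun h => hne (Subtype.ext h), Finset.sum_congr rfl fun u _ => h1 u, ← Finset.mul_sum,
      Char.sum_mul_conj_eq_card_mul_classInner, Char.classInner_irr_self (η ψ).2, mul_one] at h2
    have hs0 : ∀ ψ, (s ψ : ℂ) ≠ 0 := fun ψ => by rcases hs ψ with h | h <;> simp [h]
    exact mul_ne_zero (mul_ne_zero (hs0 ψ) (hs0 ψ')) (Nat.cast_ne_zero.2 Nat.card_pos.ne') h2
  obtain ⟨Φ, -⟩ := D.exists_equiv hχ h0
  exact ⟨Equiv.ofBijective η ((Nat.bijective_iff_injective_and_card η).2 ⟨hinj, Nat.card_congr Φ⟩),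
    s, hs, hA, hP⟩

theorem sum_A_mul_conj {χ : IrrCharacter G} (hχ : χ ∈ D.B.1)
    (h0 : blockHeight p D.B.1 (χ : G → ℂ) = 0) (u v : D.P) :
    ∑ φ : IrrCharacter G, D.A u (φ : G → ℂ) (χ : G → ℂ) * conj (D.A v (φ : G → ℂ) (χ : G → ℂ)) =
      if IsConj u v then (Nat.card (Subgroup.centralizer ({u} : Set D.P)) : ℂ) else 0 := by
  obtain ⟨Φ, s, hs, hA, -⟩ := exists_signed_equiv D hχ h0
  convert Char.sum_irr_mul_conj u v using 1
  rw [← Finset.sum_subset (Finset.subset_univ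
    (Finset.univ.filter (· ∈ D.B.1))) fun φ _ hφ => by
      rw [A_eq_zero_of_notMem D u (by simpa using hφ), zero_mul],
    Finset.sum_subtype (p := fun φ => φ ∈ D.B.1) (Finset.univ.filter (· ∈ D.B.1)) (by simp)
      (fun φ => D.A u (φ : G → ℂ) (χ : G → ℂ) * conj (D.A v (φ : G → ℂ) (χ : G → ℂ)))]
  refine Fintype.sum_equiv Φ _ _ fun ψ => ?_
  rw [hA, hA, map_mul (starRingEnd ℂ), map_intCast]
  · rcases hs ψ with h | h <;> rw [h] <;> push_cast <;> ring
  · split_ifs <;> rfl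

end Cfsg.Agent.BlockDih

namespace Cfsg.Agent.BlockDih

open MonoidAlgebra Cfsg Cfsg.Agent.BrauerPairs Cfsg.Agent.BrauerPairs.Nil
open scoped ComplexConjugate Classical

universe v

variable {p : ℕ} [Fact p.Prime] {M : Ideal AlgInt} [M.IsPrime] [CharP (Block.ResF M) p]
  {G : Type v} [Group G] [Fintype G] {L : Subgroup G}

/-- Lifted pairs have the same idempotents over the local ring. -/
theorem idemO_lifts {a' : PairIdx M L} {a : PairIdx M G} (ha : Lifts L a' a) :
    idemO (Subgroup.centralizer (a.1 : Set G)) a.2 =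
      Block.incl L (idemO (Subgroup.centralizer (a'.1 : Set L)) a'.2) := by
  obtain ⟨Q', f'⟩ := a'
  obtain ⟨Q, f⟩ := a
  obtain ⟨hQ, hC, hi⟩ := ha
  simp only at hQ hC hi ⊢
  subst hQ
  have hmap := centralizer_map_subtype hC
  refine lift_unique_in (centralIn_idemO _ f) ⟨fun g hg => ?_, fun x hx g => ?_⟩
    (idemO_mul_self _ f) (by rw [← map_mul, idemO_mul_self]) ?_
  · by_cases hgL : g ∈ L
    · refine (Block.coeff_incl_coe L _ ⟨g, hgL⟩).trans
        ((centralIn_idemO _ f').supp _ fun hK => hg ?_)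
      rw [← hmap]
      exact ⟨⟨g, hgL⟩, hK, rfl⟩
    · exact Block.coeff_incl_of_notMem L _ hgL
  · rw [← hmap] at hx
    obtain ⟨c, hc, rfl⟩ := hx
    by_cases hgL : g ∈ L
    · have h1 := (centralIn_idemO _ f').fixed c hc ⟨g, hgL⟩
      rw [← Block.coeff_incl_coe L _ ⟨g, hgL⟩, ← Block.coeff_incl_coe L _] at h1
      exact h1
    · rw [Block.coeff_incl_of_notMem L _ hgL, Block.coeff_incl_of_notMem]
      intro hh
      apply hgL
      simpa [mul_assoc] using L.mul_mem (L.mul_mem (L.inv_mem c.2) hh) c.2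
  · rw [toF_idemO, Block.mapR_incl, toF_idemO]
    exact hi

theorem phi_lifts {a' : PairIdx M L} {a : PairIdx M G} (ha : Lifts L a' a) (w y : L) (φ : G → ℂ) :
    Phi a' w (fun x : L => φ x) y = Phi a (w : G) φ (y : G) := by
  rw [phi_eq_sum, phi_eq_sum]
  have h1 : ∀ g : G, subgroupBlockCoeff (Subgroup.centralizer (a.1 : Set G)) a.2.1 g =
      (((Block.incl L (idemO (Subgroup.centralizer (a'.1 : Set L)) a'.2)).coeff g :
        Block.localRing M) : ℂ) := fun g => by rw [← idemO_lifts ha, coeff_idemO]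
  refine (Finset.sum_bij_ne_zero (fun (c : L) _ _ => (c : G)) (fun _ _ _ => Finset.mem_univ _)
    (fun _ _ _ _ _ _ h => Subtype.ext h) (fun g _ hg => ?_) fun c _ _ => ?_)
  · have hgL : g ∈ L := by
      by_contra hn
      apply hg
      rw [h1, Block.coeff_incl_of_notMem L _ hn, ZeroMemClass.coe_zero, zero_mul]
    refine ⟨⟨g, hgL⟩, Finset.mem_univ _, ?_, rfl⟩
    rw [h1, show g = ((⟨g, hgL⟩ : L) : G) from rfl, Block.coeff_incl_coe, coeff_idemO] at hg
    exact hg
  · rw [h1, Block.coeff_incl_coe, coeff_idemO]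
    rfl

end Cfsg.Agent.BlockDih
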