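import Cfsg.Agent.BlockDih.Setup
import Cfsg.Agent.BlockDih.NilExtra
import Cfsg.Agent.BlockDih.Fourier
import Cfsg.Agent.Lib.Element

/-!
# The columns of a block with dihedral defect group at the rotations
-/

set_option autoImplicit false
set_option maxHeartbeats 800000
set_option linter.unusedSectionVars false
set_option linter.style.haveILetI false

noncomputable section

namespace Cfsg.Agent.BlockDih

open MonoidAlgebra Cfsg Cfsg.Agent.BrauerPairs Cfsg.Agent.BrauerPairs.Nil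
open scoped ComplexConjugate Classical

universe u

theorem exists_pow_sum_stdAddChar {m : ℕ} [NeZero m] {G : Type u} [Group G] [Finite G]
    {θ : G → ℂ} (hθ : IsCharacter G θ) {g : G} (hg : g ^ m = 1) :
    ∃ n : ZMod m → ℤ, ∀ i : ZMod m,
      θ (g ^ i.val) = ∑ r : ZMod m, (n r : ℂ) * ZMod.stdAddChar (r * i) := by
  obtain ⟨d, ρ, rfl⟩ := hθ
  obtain ⟨ε, hε, hpow⟩ := Char.exists_character_eq_sum_roots ρ g
  have hprim : IsPrimitiveRoot (ZMod.stdAddChar (1 : ZMod m)) m := by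
    refine ⟨?_, fun l hl => ?_⟩
    · rw [← AddChar.map_nsmul_eq_pow, nsmul_one, ZMod.natCast_self, AddChar.map_zero_eq_one]
    · rw [← AddChar.map_nsmul_eq_pow, nsmul_one, ← (ZMod.stdAddChar (N := m)).map_zero_eq_one,
        ZMod.injective_stdAddChar.eq_iff, ZMod.natCast_eq_zero_iff] at hl
      exact hl
  have hroot : ∀ j, ∃ r : ZMod m, ε j = ZMod.stdAddChar r := by
    intro j
    have h1 : ε j ^ m = 1 := by
      obtain ⟨c, hc⟩ := orderOf_dvd_of_pow_eq_one hg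
      rw [hc, pow_mul, hε, one_pow]
    obtain ⟨l, -, hl⟩ := hprim.eq_pow_of_pow_eq_one h1
    exact ⟨(l : ZMod m), by rw [← hl, ← AddChar.map_nsmul_eq_pow, nsmul_one]⟩
  choose r hr using hroot
  refine ⟨fun s => ((Finset.univ.filter fun j => r j = s).card : ℤ), fun i => ?_⟩
  rw [hpow, ← Finset.sum_fiberwise Finset.univ r fun j => ε j ^ i.val]
  refine Finset.sum_congr rfl fun s _ => ?_
  rw [Finset.sum_congr rfl fun j hj => show ε j ^ i.val = ZMod.stdAddChar (s * i) by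
      rw [hr, (Finset.mem_filter.1 hj).2, ← AddChar.map_nsmul_eq_pow, nsmul_eq_mul,
        ZMod.natCast_zmod_val, mul_comm], Finset.sum_const, nsmul_eq_mul, Int.cast_natCast]

namespace Ctx

variable {M : Ideal AlgInt} [M.IsPrime] [CharP (Block.ResF M) 2] {G : Type u} [Group G]
  [Fintype G] {h : ℕ} [NeZero (2 * h)] {D : Ctx M G h}

/-- The restriction of a function to the centralizer of the involution. -/
def res (D : Ctx M G h) (χ : G → ℂ) : D.L → ℂ := fun x => χ (x : G)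

theorem res_isClassFunction {χ : G → ℂ} (hχ : IsClassFunction G χ) :
    IsClassFunction D.L (D.res χ) := fun x y => by
  simp only [res, Subgroup.coe_mul, Subgroup.coe_inv]
  exact hχ _ _

namespace Loc

variable (T : D.Loc)

theorem mem_P {x : D.L} : x ∈ T.N.P ↔ (x : G) ∈ D.P := by rw [T.P_eq, Subgroup.mem_subgroupOf]

/-- The rotations, in the defect group of the nilpotent block. -/
def rot (i : ZMod (2 * h)) : T.N.P :=
  ⟨⟨D.a ^ i.val, D.P_le_L (pow_mem D.mem_a _)⟩, T.mem_P.2 (pow_mem D.mem_a _)⟩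

@[simp] theorem rot_coe (i : ZMod (2 * h)) : (((T.rot i : T.N.P) : D.L) : G) = D.a ^ i.val := rfl

theorem pow_val (k : ℕ) : D.a ^ ((k : ZMod (2 * h))).val = D.a ^ k := by
  rw [ZMod.val_natCast, ← D.orderOf_a, pow_mod_orderOf]

theorem rot_natCast (k : ℕ) : T.rot (k : ZMod (2 * h)) = T.rot 1 ^ k := by
  refine Subtype.ext (Subtype.ext ?_)
  simp only [rot_coe, pow_val, SubgroupClass.coe_pow]
  rw [show ((1 : ZMod (2 * h))) = ((1 : ℕ) : ZMod (2 * h)) from Nat.cast_one.symm, pow_val, pow_one]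

theorem rot_eq_pow (i : ZMod (2 * h)) : T.rot i = T.rot 1 ^ i.val := by
  rw [← rot_natCast, ZMod.natCast_zmod_val]

theorem rot_add (i j : ZMod (2 * h)) : T.rot (i + j) = T.rot i * T.rot j := by
  obtain ⟨k, rfl⟩ := ZMod.natCast_zmod_surjective i
  obtain ⟨l, rfl⟩ := ZMod.natCast_zmod_surjective j
  rw [← Nat.cast_add, rot_natCast, rot_natCast, rot_natCast, pow_add]

theorem rot_zero : T.rot 0 = 1 := by
  refine Subtype.ext (Subtype.ext ?_)
  simp [rot]

theorem rot_neg (i : ZMod (2 * h)) : T.rot (-i) = (T.rot i)⁻¹ :=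
  eq_inv_of_mul_eq_one_left (by rw [← rot_add, neg_add_cancel, rot_zero])

theorem rot_injective : Function.Injective T.rot := by
  intro i j hij
  have h1 : D.a ^ i.val = D.a ^ j.val := by simpa using congrArg (fun x : T.N.P => ((x : D.L) : G)) hij
  rw [pow_inj_mod, D.orderOf_a, Nat.mod_eq_of_lt (ZMod.val_lt i),
    Nat.mod_eq_of_lt (ZMod.val_lt j)] at h1
  exact ZMod.val_injective _ h1

theorem rot_half : (((T.rot (h : ZMod (2 * h)) : T.N.P) : D.L) : G) = D.z := by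
  rw [rot_coe, pow_val]
  rfl

theorem half_ne_zero (D : Ctx M G h) : ((h : ℕ) : ZMod (2 * h)) ≠ 0 := fun e => by
  rw [ZMod.natCast_eq_zero_iff] at e
  have := Nat.le_of_dvd (by linarith [D.two_le]) e
  linarith [D.two_le]

theorem rot_ne_one {i : ZMod (2 * h)} (hi : i ≠ 0) : ((T.rot i : D.L) : G) ≠ 1 := fun e =>
  hi (T.rot_injective (by rw [rot_zero]; exact Subtype.ext (Subtype.ext e)))

theorem z_mem_of_pow {u : G} (hu : u ∈ Subgroup.zpowers D.a) (h1 : u ≠ 1) :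
    D.z ∈ Subgroup.zpowers u := by
  obtain ⟨s, hs⟩ := (IsPGroup.iff_orderOf.1 D.isPGroup) ⟨u, D.zpowers_le hu⟩
  rw [Subgroup.orderOf_mk] at hs
  rcases s with - | s
  · exact absurd (orderOf_eq_one_iff.1 (by rw [hs, pow_zero])) h1
  have hne : u ^ 2 ^ s ≠ 1 := fun e => by
    have := Nat.le_of_dvd (by positivity) (orderOf_dvd_of_pow_eq_one e)
    rw [hs, pow_succ] at this
    have : 0 < 2 ^ s := by positivity
    omega
  have hsq : u ^ 2 ^ s * u ^ 2 ^ s = 1 := by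
    rw [← pow_add, ← two_mul, ← pow_succ', ← hs, pow_orderOf_eq_one]
  rcases D.sq_eq_one (Subgroup.pow_mem _ hu _) hsq with e | e
  · exact absurd e hne
  · exact e ▸ Subgroup.pow_mem _ (Subgroup.mem_zpowers u) _

theorem z_mem_rot {i : ZMod (2 * h)} (hi : i ≠ 0) :
    D.z ∈ Subgroup.zpowers ((T.rot i : D.L) : G) :=
  z_mem_of_pow (by simpa using Subgroup.pow_mem _ (Subgroup.mem_zpowers D.a) i.val)
    (T.rot_ne_one hi)

theorem exists_orderOf_rot (i : ZMod (2 * h)) : ∃ k, orderOf ((T.rot i : D.L) : G) = 2 ^ k := by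
  obtain ⟨k, hk⟩ := T.N.exists_orderOf (T.rot i)
  exact ⟨k, by rwa [← Subgroup.orderOf_coe] at hk⟩

/-- Elements conjugating sections of non-trivial rotations fix the involution. -/
theorem conj_mem_L {i j : ZMod (2 * h)} (hi : i ≠ 0) (hj : j ≠ 0) {g : G} {y y' : G}
    (hy : y * ((T.rot i : D.L) : G) = ((T.rot i : D.L) : G) * y) (hyr : ¬ 2 ∣ orderOf y)
    (hy' : y' * ((T.rot j : D.L) : G) = ((T.rot j : D.L) : G) * y') (hyr' : ¬ 2 ∣ orderOf y')
    (hg : g * (((T.rot i : D.L) : G) * y) * g⁻¹ = ((T.rot j : D.L) : G) * y') : g ∈ D.L := by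
  obtain ⟨k, hk⟩ := T.exists_orderOf_rot i
  obtain ⟨k', hk'⟩ := T.exists_orderOf_rot j
  have h1 := (Element.pPart_conj Nat.prime_two g (((T.rot i : D.L) : G) * y)).1
  rw [(Brauer.orderOf_mul_coprime_parts hk hyr hy.symm).1, hg,
    (Brauer.orderOf_mul_coprime_parts hk' hyr' hy'.symm).1] at h1
  obtain ⟨l, hl⟩ := Subgroup.mem_zpowers_iff.1 (T.z_mem_rot hi)
  have h2 : g * D.z * g⁻¹ ∈ Subgroup.zpowers D.a := by
    rw [← hl, ← conj_zpow, ← h1, rot_coe]
    exact Subgroup.zpow_mem _ (Subgroup.pow_mem _ (Subgroup.mem_zpowers _) _) _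
  have h3 : g * D.z * g⁻¹ = D.z := by
    refine (D.sq_eq_one h2 ?_).resolve_left fun e => D.z_ne_one ?_
    · rw [show g * D.z * g⁻¹ * (g * D.z * g⁻¹) = g * (D.z * D.z) * g⁻¹ by group, D.z_sq]
      group
    · rwa [mul_inv_eq_one, mul_eq_left] at e
  exact D.mem_L.2 (mul_inv_eq_iff_eq_mul.1 h3)

variable (ζ0 : IrrCharacter D.L)

/-- The column of a function of the group at a rotation. -/
def R (χ : G → ℂ) (i : ZMod (2 * h)) : ℂ := T.N.A (T.rot i) (D.res χ) (ζ0 : D.L → ℂ)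

theorem R_eq_sum {χ : G → ℂ} (hχ : IsClassFunction G χ) (i : ZMod (2 * h)) :
    T.R ζ0 χ i = ∑ y : D.L, wt T.N (T.rot i) (ζ0 : D.L → ℂ) y *
      χ (((T.rot i : D.L) : G) * (y : G)) :=
  A_eq_sum_wt T.N (T.rot i) (res_isClassFunction hχ) ζ0

theorem A_rot_eq_sum (φ : IrrCharacter D.L) (i : ZMod (2 * h)) :
    T.N.A (T.rot i) (φ : D.L → ℂ) (ζ0 : D.L → ℂ) = ∑ y : D.L,
      wt T.N (T.rot i) (ζ0 : D.L → ℂ) y * (φ : D.L → ℂ) ((T.rot i : D.L) * y) :=
  A_eq_sum_wt T.N (T.rot i) (Char.irr_isClassFunction φ.2) ζ0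

theorem commute_of_wt {i : ZMod (2 * h)} {y : D.L}
    (hy : wt T.N (T.rot i) (ζ0 : D.L → ℂ) y ≠ 0) :
    (y : G) * ((T.rot i : D.L) : G) = ((T.rot i : D.L) : G) * (y : G) ∧ ¬ 2 ∣ orderOf (y : G) := by
  obtain ⟨h1, h2⟩ := wt_ne_zero T.N hy
  refine ⟨?_, by rwa [Subgroup.orderOf_coe]⟩
  have := (Subgroup.mem_centralizer_iff.1 h1 _ (Subgroup.mem_zpowers _)).symm
  exact congrArg Subtype.val this

theorem sum_irr_eq {i j : ZMod (2 * h)} (hi : i ≠ 0) (hj : j ≠ 0) {y y' : D.L}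
    (hy : (y : G) * ((T.rot i : D.L) : G) = ((T.rot i : D.L) : G) * (y : G) ∧ ¬ 2 ∣ orderOf (y : G))
    (hy' : (y' : G) * ((T.rot j : D.L) : G) = ((T.rot j : D.L) : G) * (y' : G) ∧
      ¬ 2 ∣ orderOf (y' : G)) :
    ∑ χ : IrrCharacter G, (χ : G → ℂ) (((T.rot i : D.L) : G) * y) *
        conj ((χ : G → ℂ) (((T.rot j : D.L) : G) * y')) =
      ∑ φ : IrrCharacter D.L, (φ : D.L → ℂ) ((T.rot i : D.L) * y) *
        conj ((φ : D.L → ℂ) ((T.rot j : D.L) * y')) := by
  obtain ⟨hc, hr⟩ := hy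
  obtain ⟨hc', hr'⟩ := hy'
  rw [Char.sum_irr_mul_conj, Char.sum_irr_mul_conj]
  have hconj : IsConj (((T.rot i : D.L) : G) * y) (((T.rot j : D.L) : G) * y') ↔
      IsConj ((T.rot i : D.L) * y) ((T.rot j : D.L) * y') := by
    refine ⟨fun e => ?_, fun e => ?_⟩
    · obtain ⟨g, hg⟩ := isConj_iff.1 e
      exact isConj_iff.2 ⟨⟨g, T.conj_mem_L hi hj hc hr hc' hr' hg⟩, Subtype.ext hg⟩
    · obtain ⟨g, hg⟩ := isConj_iff.1 e
      exact isConj_iff.2 ⟨g, congrArg Subtype.val hg⟩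
  have hcard : Nat.card (Subgroup.centralizer ({((T.rot i : D.L) : G) * y} : Set G)) =
      Nat.card (Subgroup.centralizer ({(T.rot i : D.L) * y} : Set D.L)) := by
    have hsub : ∀ g ∈ Subgroup.centralizer ({((T.rot i : D.L) : G) * y} : Set G), g ∈ D.L :=
      fun g hg => T.conj_mem_L hi hi hc hr hc hr
        (by rw [Subgroup.mem_centralizer_singleton_iff.1 hg, mul_inv_cancel_right])
    exact Nat.card_congr
      { toFun := fun g => ⟨⟨g.1, hsub g.1 g.2⟩, Subgroup.mem_centralizer_singleton_iff.2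
          (Subtype.ext (Subgroup.mem_centralizer_singleton_iff.1 g.2))⟩
        invFun := fun g => ⟨(g.1 : G), Subgroup.mem_centralizer_singleton_iff.2
          (congrArg Subtype.val (Subgroup.mem_centralizer_singleton_iff.1 g.2))⟩
        left_inv := fun g => rfl
        right_inv := fun g => rfl }
  simp only [hconj, hcard]
  split_ifs <;> rfl

theorem sum_R_eq_sum_A {i j : ZMod (2 * h)} (hi : i ≠ 0) (hj : j ≠ 0) :
    ∑ χ : IrrCharacter G, T.R ζ0 (χ : G → ℂ) i * conj (T.R ζ0 (χ : G → ℂ) j) =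
      ∑ φ : IrrCharacter D.L, T.N.A (T.rot i) (φ : D.L → ℂ) (ζ0 : D.L → ℂ) *
        conj (T.N.A (T.rot j) (φ : D.L → ℂ) (ζ0 : D.L → ℂ)) := by
  simp only [fun χ : IrrCharacter G => T.R_eq_sum ζ0 (Char.irr_isClassFunction χ.2),
    A_rot_eq_sum, map_sum, map_mul (starRingEnd ℂ), Finset.sum_mul_sum]
  rw [Finset.sum_comm]
  conv_rhs => rw [Finset.sum_comm]
  refine Finset.sum_congr rfl fun y _ => ?_
  rw [Finset.sum_comm]
  conv_rhs => rw [Finset.sum_comm]
  refine Finset.sum_congr rfl fun y' _ => ?_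
  have e : ∀ a b c d : ℂ, a * b * (c * d) = a * c * (b * d) := fun a b c d => by ring
  rw [Finset.sum_congr rfl fun _ _ => e _ _ _ _, ← Finset.mul_sum]
  conv_rhs => rw [Finset.sum_congr rfl fun _ _ => e _ _ _ _, ← Finset.mul_sum]
  by_cases hy : wt T.N (T.rot i) (ζ0 : D.L → ℂ) y = 0
  · simp [hy]
  by_cases hy' : wt T.N (T.rot j) (ζ0 : D.L → ℂ) y' = 0
  · simp [hy']
  rw [T.sum_irr_eq hi hj (T.commute_of_wt ζ0 hy) (T.commute_of_wt ζ0 hy')]

theorem isConj_rot_iff {i j : ZMod (2 * h)} :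
    IsConj (T.rot i) (T.rot j) ↔ i = j ∨ i = -j := by
  constructor
  · intro e
    obtain ⟨x, hx⟩ := isConj_iff.1 e
    by_cases hxa : ((x : D.L) : G) ∈ Subgroup.zpowers D.a
    · left
      obtain ⟨k, hk⟩ := Subgroup.mem_zpowers_iff.1 hxa
      refine T.rot_injective (Subtype.ext (Subtype.ext ?_))
      have h1 : ((x : D.L) : G) * D.a ^ i.val * ((x : D.L) : G)⁻¹ = D.a ^ j.val :=
        congrArg (fun z : T.N.P => ((z : D.L) : G)) hx
      rw [← hk, (((Commute.refl D.a).zpow_left k).pow_right _).eq, mul_inv_cancel_right] at h1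
      exact h1
    · right
      rw [eq_neg_iff_add_eq_zero]
      have hxP : ((x : D.L) : G) ∈ D.P := T.mem_P.1 x.2
      obtain ⟨k, hk⟩ := Subgroup.mem_zpowers_iff.1 (D.index_two _ hxP hxa)
      have h1 : ((x : D.L) : G) * D.a ^ i.val * ((x : D.L) : G)⁻¹ = D.a ^ j.val :=
        congrArg (fun z : T.N.P => ((z : D.L) : G)) hx
      have h2 : ((x : D.L) : G) * D.a ^ i.val * ((x : D.L) : G)⁻¹ = (D.a ^ i.val)⁻¹ := by
        rw [show ((x : D.L) : G) = D.t * D.a ^ k by rw [hk, mul_inv_cancel_left]]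
        calc D.t * D.a ^ k * D.a ^ i.val * (D.t * D.a ^ k)⁻¹
            = D.t * (D.a ^ k * D.a ^ i.val * (D.a ^ k)⁻¹) * D.t⁻¹ := by group
          _ = D.t * D.a ^ i.val * D.t⁻¹ := by
            rw [(((Commute.refl D.a).zpow_left k).pow_right _).eq, mul_inv_cancel_right]
          _ = _ := D.flip_pow _
      refine T.rot_injective ?_
      rw [rot_add, rot_zero]
      refine Subtype.ext (Subtype.ext ?_)
      simp only [Subgroup.coe_mul, rot_coe, OneMemClass.coe_one]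
      rw [← h1, h2, mul_inv_cancel]
  · rintro (rfl | rfl)
    · exact IsConj.refl _
    · refine isConj_iff.2 ⟨⟨⟨D.t, D.P_le_L D.mem_t⟩, T.mem_P.2 D.mem_t⟩, ?_⟩
      rw [rot_neg]
      refine Subtype.ext (Subtype.ext ?_)
      simp only [Subgroup.coe_mul, Subgroup.coe_inv, rot_coe]
      rw [show D.t * (D.a ^ j.val)⁻¹ * D.t⁻¹ = (D.t * D.a ^ j.val * D.t⁻¹)⁻¹ by group,
        D.flip_pow, inv_inv]

theorem card_N_P : Nat.card T.N.P = 4 * h := by
  rw [T.P_eq, Nat.card_congr (Subgroup.subgroupOfEquivOfLe D.P_le_L).toEquiv, D.card_P]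

theorem card_centralizer_rot (i : ZMod (2 * h)) :
    Nat.card (Subgroup.centralizer ({T.rot i} : Set T.N.P)) =
      if i = -i then 4 * h else 2 * h := by
  have hP := T.card_N_P
  split_ifs with hi
  · rw [show Subgroup.centralizer ({T.rot i} : Set T.N.P) = ⊤ by
      refine eq_top_iff.2 fun x _ => ?_
      rw [Subgroup.mem_centralizer_singleton_iff]
      by_cases hx : ((x : D.L) : G) ∈ Subgroup.zpowers D.a
      · obtain ⟨k, hk⟩ := Subgroup.mem_zpowers_iff.1 hx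
        refine Subtype.ext (Subtype.ext ?_)
        show ((x : D.L) : G) * D.a ^ i.val = D.a ^ i.val * ((x : D.L) : G)
        rw [← hk]
        exact (((Commute.refl D.a).zpow_left k).pow_right _).eq
      · obtain ⟨k, hk⟩ := Subgroup.mem_zpowers_iff.1 (D.index_two _ (T.mem_P.1 x.2) hx)
        refine Subtype.ext (Subtype.ext ?_)
        show ((x : D.L) : G) * D.a ^ i.val = D.a ^ i.val * ((x : D.L) : G)
        rw [show ((x : D.L) : G) = D.t * D.a ^ k by rw [hk, mul_inv_cancel_left]]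
        have h2 : (D.a ^ i.val)⁻¹ = D.a ^ i.val := by
          have h3 := congrArg (fun z : T.N.P => ((z : D.L) : G)) (congrArg T.rot hi)
          simp only [rot_neg, Subgroup.coe_inv, rot_coe] at h3
          exact h3.symm
        have h4 := D.flip_pow i.val
        rw [h2, mul_inv_eq_iff_eq_mul] at h4
        rw [mul_assoc, (((Commute.refl D.a).zpow_left k).pow_right _).eq, ← mul_assoc, h4,
          mul_assoc], Subgroup.card_top, hP]
  · have hz : Nat.card (Subgroup.zpowers (T.rot 1)) = 2 * h := by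
      rw [Nat.card_zpowers]
      refine Eq.trans ?_ D.orderOf_a
      rw [← Subgroup.orderOf_coe, ← Subgroup.orderOf_coe]
      congr 1
      simpa using pow_val (D := D) 1
    rw [← hz]
    refine congrArg (fun S : Subgroup T.N.P => Nat.card S) (le_antisymm (fun x hx => ?_) ?_)
    · by_cases hxa : ((x : D.L) : G) ∈ Subgroup.zpowers D.a
      · obtain ⟨k, hk⟩ := mem_zpowers_iff_mem_range_orderOf.1 hxa |> Finset.mem_image.1 |>
          fun ⟨k, hk, e⟩ => (⟨k, e⟩ : ∃ k : ℕ, D.a ^ k = ((x : D.L) : G))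
        have : x = T.rot (k : ZMod (2 * h)) :=
          Subtype.ext (Subtype.ext (by rw [rot_coe, pow_val, hk]))
        rw [this, rot_natCast]
        exact Subgroup.pow_mem _ (Subgroup.mem_zpowers _) _
      · exfalso
        obtain ⟨k, hk⟩ := Subgroup.mem_zpowers_iff.1 (D.index_two _ (T.mem_P.1 x.2) hxa)
        have h1 : ((x : D.L) : G) * D.a ^ i.val = D.a ^ i.val * ((x : D.L) : G) :=
          congrArg (fun z : T.N.P => ((z : D.L) : G)) (Subgroup.mem_centralizer_singleton_iff.1 hx)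
        rw [show ((x : D.L) : G) = D.t * D.a ^ k by rw [hk, mul_inv_cancel_left], mul_assoc,
          (((Commute.refl D.a).zpow_left k).pow_right _).eq, ← mul_assoc, ← mul_assoc,
          mul_left_inj] at h1
        have h2 := D.flip_pow i.val
        rw [h1, mul_inv_cancel_right] at h2
        apply hi
        refine T.rot_injective ?_
        rw [rot_neg]
        exact Subtype.ext (Subtype.ext (by simpa using h2))
    · rw [Subgroup.zpowers_le, Subgroup.mem_centralizer_singleton_iff, ← rot_add, ← rot_add,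
        add_comm]

theorem sum_R_mul_conj (hζ : ζ0 ∈ T.N.B.1) (h0 : blockHeight 2 T.N.B.1 (ζ0 : D.L → ℂ) = 0)
    {i j : ZMod (2 * h)} (hi : i ≠ 0) (hj : j ≠ 0) :
    ∑ χ : IrrCharacter G, T.R ζ0 (χ : G → ℂ) i * conj (T.R ζ0 (χ : G → ℂ) j) =
      ((2 * h : ℕ) : ℂ) * ((if i = j then 1 else 0) + if i = -j then 1 else 0) := by
  rw [T.sum_R_eq_sum_A ζ0 hi hj, sum_A_mul_conj T.N hζ h0, T.card_centralizer_rot]
  simp only [T.isConj_rot_iff]
  have hiff : i = j → ((i = -i) ↔ (i = -j)) := fun e => by rw [← e]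
  by_cases e1 : i = j <;> by_cases e2 : i = -j
  · rw [if_pos (Or.inl e1), if_pos ((hiff e1).2 e2), if_pos e1, if_pos e2]
    push_cast; ring
  · rw [if_pos (Or.inl e1), if_neg fun e => e2 ((hiff e1).1 e), if_pos e1, if_neg e2]
    push_cast; ring
  · rw [if_pos (Or.inr e2), if_neg fun e => e1 (by rw [e] at e2; simpa using e2), if_neg e1,
      if_pos e2]
    push_cast; ring
  · rw [if_neg (not_or.2 ⟨e1, e2⟩), if_neg e1, if_neg e2]
    ring

theorem reg_orth {i : ZMod (2 * h)} (hi : i ≠ 0) {g : G} (hg : ¬ 2 ∣ orderOf g) :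
    ∑ χ : IrrCharacter G, (χ : G → ℂ) g * T.R ζ0 (χ : G → ℂ) i = 0 := by
  simp only [fun χ : IrrCharacter G => T.R_eq_sum ζ0 (Char.irr_isClassFunction χ.2),
    Finset.mul_sum]
  rw [Finset.sum_comm]
  refine Finset.sum_eq_zero fun y _ => ?_
  by_cases hy : wt T.N (T.rot i) (ζ0 : D.L → ℂ) y = 0
  · simp [hy]
  obtain ⟨hc, hr⟩ := T.commute_of_wt ζ0 hy
  obtain ⟨k, hk⟩ := T.exists_orderOf_rot i
  have hne : ¬ IsConj (((T.rot i : D.L) : G) * (y : G)) g⁻¹ := fun e => by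
    obtain ⟨x, hx⟩ := isConj_iff.1 e
    have h1 := (Brauer.orderOf_mul_coprime_parts hk hr hc.symm).1
    have h2 := (Element.pPart_conj Nat.prime_two x (((T.rot i : D.L) : G) * (y : G))).1
    have h3 := (Brauer.orderOf_mul_coprime_parts (p := 2) (k := 0) (u := (1 : G)) (by simp)
      (y := g⁻¹) (by rwa [orderOf_inv]) (Commute.one_left _)).1
    rw [one_mul] at h3
    rw [hx, h1, h3, eq_comm, mul_inv_eq_one, mul_eq_left] at h2
    exact T.rot_ne_one hi h2
  rw [Finset.sum_congr rfl fun χ _ => mul_left_comm _ _ _, ← Finset.mul_sum]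
  refine mul_eq_zero_of_right _ ?_
  refine Eq.trans (Finset.sum_congr rfl fun χ _ => ?_)
    ((Char.sum_irr_mul_conj (((T.rot i : D.L) : G) * (y : G)) g⁻¹).trans (if_neg hne))
  rw [Char.irr_inv χ.2, Complex.conj_conj, mul_comm]

theorem exists_coeff (hζ : ζ0 ∈ T.N.B.1) (h0 : blockHeight 2 T.N.B.1 (ζ0 : D.L → ℂ) = 0)
    (χ : IrrCharacter G) : ∃ n : ZMod (2 * h) → ℤ, (∀ r, n (-r) = n r) ∧
      ∀ i, T.R ζ0 (χ : G → ℂ) i = ∑ r, (n r : ℂ) * ZMod.stdAddChar (r * i) := by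
  obtain ⟨Φ, s, hs, hA, -⟩ := exists_signed_equiv T.N hζ h0
  have hres : IsCharacter D.L (D.res (χ : G → ℂ)) :=
    Char.isCharacter_comp (Char.isCharacter_of_irr χ.2) D.L.subtype
  choose m hm using fun φ : IrrCharacter D.L => Char.isCharacter_classInner_nat hres φ
  have hord : T.rot 1 ^ (2 * h) = 1 := by
    rw [← rot_natCast, ZMod.natCast_self, rot_zero]
  choose n hn using fun ψ : T.N.B.1 =>
    exists_pow_sum_stdAddChar (m := 2 * h) (Char.isCharacter_of_irr (Φ ψ).2) hord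
  set N : ZMod (2 * h) → ℤ := fun r => ∑ ψ : T.N.B.1, (m ψ : ℤ) * s ψ * n ψ r with hN
  have hR : ∀ i, T.R ζ0 (χ : G → ℂ) i = ∑ r, (N r : ℂ) * ZMod.stdAddChar (r * i) := by
    intro i
    rw [R]
    conv_lhs => rw [Char.eq_sum_classInner_smul (Char.isCharacter_isClassFunction hres)]
    rw [A_sum_smul, ← Finset.sum_subset (Finset.subset_univ (Finset.univ.filter (· ∈ T.N.B.1)))
      fun φ _ hφ => by rw [A_eq_zero_of_notMem T.N _ (by simpa using hφ), mul_zero],
      Finset.sum_subtype (p := fun φ => φ ∈ T.N.B.1) (Finset.univ.filter (· ∈ T.N.B.1)) (by simp)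
        (fun φ => classInner (D.res (χ : G → ℂ)) (φ : D.L → ℂ) *
          T.N.A (T.rot i) (φ : D.L → ℂ) (ζ0 : D.L → ℂ))]
    simp only [hA, hm, rot_eq_pow T i, hn, hN, Int.cast_sum, Int.cast_mul, Int.cast_natCast,
      Finset.sum_mul, Finset.mul_sum]
    rw [Finset.sum_comm]
    exact Finset.sum_congr rfl fun r _ => Finset.sum_congr rfl fun ψ _ => by ring
  refine ⟨N, fun r => ?_, hR⟩
  have hsymm : ∀ i, T.R ζ0 (χ : G → ℂ) (-i) = T.R ζ0 (χ : G → ℂ) i := by
    intro i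
    obtain ⟨x, hx⟩ := isConj_iff.1 (T.isConj_rot_iff.2 (Or.inr (neg_neg i).symm))
    rw [R, R, ← hx]
    exact T.N.A_conj x.2 (T.rot i) (res_isClassFunction (Char.irr_isClassFunction χ.2))
      (Char.irr_isClassFunction ζ0.2)
  have hm0 : ((2 * h : ℕ) : ℂ) ≠ 0 := Nat.cast_ne_zero.2 (NeZero.ne _)
  apply Int.cast_injective (α := ℂ)
  apply mul_left_cancel₀ hm0
  have e1 := card_mul_coeff (fun _ : Unit => N) () (-r)
  have e2 := card_mul_coeff (fun _ : Unit => N) () r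
  rw [e1, e2]
  refine Fintype.sum_equiv (Equiv.neg _) _ _ fun i => ?_
  have h1 : ∀ i, col (fun _ : Unit => N) i () = T.R ζ0 (χ : G → ℂ) i := fun i => (hR i).symm
  simp only [h1, Equiv.neg_apply, hsymm]
  congr 2
  ring

/-- The lifted pair of a rotation lies below the maximal pair. -/
theorem exists_lift {i : ZMod (2 * h)} (hi : i ≠ 0) :
    ∃ b : PairIdx M G, b.1 = Subgroup.zpowers ((T.rot i : D.L) : G) ∧
      Lifts D.L (T.N.pair (T.rot i)) b ∧ SLE (pairSys M G) 2 b ⟨D.P, D.e⟩ := by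
  have hmap : (T.N.pair (T.rot i)).1.map D.L.subtype = Subgroup.zpowers ((T.rot i : D.L) : G) :=
    MonoidHom.map_zpowers _ _
  obtain ⟨b, hb⟩ := exists_lifts_up (L := D.L) (T.N.pair (T.rot i)) (by
    rw [hmap]
    exact centralizer_anti (Subgroup.zpowers_le.2 (T.z_mem_rot hi)))
  refine ⟨b, hb.1.symm.trans hmap, hb, ?_⟩
  obtain ⟨c, hc, hc'⟩ := hb.sle (T.N.pair_sle (T.rot i))
  rwa [hc.unique T.lifts] at hc'

theorem phi_res_eq_zero {i : ZMod (2 * h)} (hi : i ≠ 0) {χ : IrrCharacter G} (hχ : χ ∉ D.B.1)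
    {y : D.L} (hy : y ∈ Subgroup.centralizer ((T.N.pair (T.rot i)).1 : Set D.L))
    (hreg : ¬ 2 ∣ orderOf y) :
    Phi (T.N.pair (T.rot i)) (T.rot i : D.L) (D.res (χ : G → ℂ)) y = 0 := by
  obtain ⟨⟨Q, g⟩, hQ, hb, hs⟩ := T.exists_lift hi
  simp only at hQ
  subst hQ
  show Phi _ _ (fun x : D.L => (χ : G → ℂ) (x : G)) y = 0
  rw [phi_lifts hb]
  obtain ⟨k, hk⟩ := T.exists_orderOf_rot i
  have hyC : (y : G) ∈ Subgroup.centralizer (Subgroup.zpowers ((T.rot i : D.L) : G) : Set G) := by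
    rw [BlockHeight.mem_centralizer_zpowers]
    exact congrArg Subtype.val
      (Subgroup.mem_centralizer_iff.1 hy _ (Subgroup.mem_zpowers _)).symm
  haveI := Fintype.ofFinite (Subgroup.centralizer (Subgroup.zpowers ((T.rot i : D.L) : G) : Set G))
  rw [← blockPart_eq_zero_of_notMem D.isPModular hk g (hs.pairOf_iff.1 D.maxPair.1)
    (y := ⟨y, hyC⟩) (by rw [← Subgroup.orderOf_coe]; simpa [Subgroup.orderOf_coe] using hreg) hχ]
  exact phi_eq_blockPart (⟨_, g⟩ : PairIdx M G) (Subgroup.mem_zpowers _)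
    (Char.irr_isClassFunction χ.2) ⟨y, hyC⟩

theorem R_eq_zero_of_notMem {i : ZMod (2 * h)} (hi : i ≠ 0) {χ : IrrCharacter G}
    (hχ : χ ∉ D.B.1) : T.R ζ0 (χ : G → ℂ) i = 0 := by
  refine mul_eq_zero_of_right _ (Finset.sum_eq_zero fun y hy => ?_)
  obtain ⟨-, h1, h2⟩ := Finset.mem_filter.1 hy
  rw [T.phi_res_eq_zero hi hχ h1 h2, zero_mul]

end Loc

end Ctx

end Cfsg.Agent.BlockDih
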