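import Cfsg.Agent.BlockDih.ClassSum
import Cfsg.Agent.BlockDih.ArithTotal

/-!
# The invariants of a two-block with dihedral defect group
-/

set_option autoImplicit false
set_option maxHeartbeats 800000
set_option linter.unusedSectionVars false
set_option linter.style.haveILetI false

noncomputable section

namespace Cfsg.Agent.BlockDih

open MonoidAlgebra Cfsg Cfsg.Agent.BrauerPairs Cfsg.Agent.BrauerPairs.Nil
open scoped ComplexConjugate Classical

universe u

variable {M : Ideal AlgInt} [M.IsPrime] [CharP (Block.ResF M) 2] {G : Type u} [Group G]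
  [Fintype G] {h : ℕ} [NeZero (2 * h)]

theorem Ctx.invariants (D : Ctx M G h) :
    Fintype.card D.B.1 = h + 3 ∧ 1 ≤ blockRank 2 D.B.1 ∧ blockRank 2 D.B.1 ≤ 3 ∧
      (Finset.univ.filter fun χ : D.B.1 =>
        blockHeight 2 D.B.1 ((χ : IrrCharacter G) : G → ℂ) = 0).card = 4 ∧
      ∀ χ ∈ D.B.1, blockHeight 2 D.B.1 (χ : G → ℂ) ≤ 1 := by
  obtain ⟨T⟩ := D.exists_loc
  obtain ⟨ζ0, hζ, h0⟩ := BlockVal.exists_height_zero (p := 2) (Block.pBlock_nonempty T.N.B.2)
  choose n hsymm hn using fun χ : D.B.1 => T.exists_coeff ζ0 hζ h0 (χ : IrrCharacter G)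
  have hcol : ∀ (i : ZMod (2 * h)) (χ : D.B.1),
      col n i χ = T.R ζ0 ((χ : IrrCharacter G) : G → ℂ) i := fun i χ => (hn χ i).symm
  have hZ : ∀ χ : D.B.1, T.R ζ0 ((χ : IrrCharacter G) : G → ℂ) h = (zInt n χ : ℂ) :=
    fun χ => by rw [← hcol, col_half]
  have hdeg : ∀ χ : IrrCharacter G, (χ : G → ℂ) 1 = ((charDegree (χ : G → ℂ) : ℕ) : ℂ) :=
    fun χ => (BlockVal.irr_one_eq_charDegree χ).1
  have hdata : ColData n (fun χ : D.B.1 => blockHeight 2 D.B.1 ((χ : IrrCharacter G) : G → ℂ))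
      (fun χ : D.B.1 => (charDegree ((χ : IrrCharacter G) : G → ℂ) : ℝ)) :=
    { even_h := D.even_h
      two_le := D.two_le
      symm := hsymm
      orth := fun i j hi hj => by
        simp only [hcol]
        exact T.sum_colVec_mul ζ0 hζ h0 hi hj
      deg_pos := fun χ => Nat.cast_pos.2
        (Nat.pos_of_ne_zero (BlockVal.irr_one_eq_charDegree (χ : IrrCharacter G)).2)
      deg_orth := fun i hi => by
        simp only [hcol, Complex.ofReal_natCast, ← hdeg]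
        rw [T.sum_block_R ζ0 hi fun χ => (χ : G → ℂ) 1]
        exact T.reg_orth ζ0 hi (by simp)
      odd_of_zero := fun χ hχ0 => (T.zInt_props ζ0 hζ h0 χ.2 (hZ χ)).1 hχ0
      low := fun χ => (T.zInt_props ζ0 hζ h0 χ.2 (hZ χ)).2
      zero_dvd := four_dvd_height_zero D.isPModular D.B.2 (by linarith [D.three_le_defect])
      zero_nonempty := by
        obtain ⟨χ, hχ, hχ0⟩ := BlockVal.exists_height_zero (p := 2) (Block.pBlock_nonempty D.B.2)
        exact ⟨⟨χ, hχ⟩, hχ0⟩ }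
  have hres := hdata.counts fun h4 h5 => by
    subst h4
    simp only [hcol, ← hZ, Complex.ofReal_natCast, ← hdeg]
    have := T.hT_rel ζ0 hζ h0 (le_of_eq h5) (j := (1 : ZMod (2 * 4))) (k := (2 : ZMod (2 * 4)))
      (by decide) (by decide)
    rwa [show (1 : ZMod (2 * 4)) + 1 = ((2 : ℕ) : ZMod (2 * 4)) by decide,
      show (2 : ZMod (2 * 4)) + 2 = ((4 : ℕ) : ZMod (2 * 4)) by decide] at this
  refine ⟨hres.1, Brauer.KleinBlock.blockRank_pos D.B.2, ?_, hres.2.1,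
    fun χ hχ => hres.2.2 ⟨χ, hχ⟩⟩
  have h1 := T.rank_add_le ζ0 hζ h0
  have h2 := hres.1
  omega

theorem invariants_of_dihedral {G : Type u} [Group G] [Finite G] {M : Ideal AlgInt}
    (hM : IsPModular 2 M) {B : Set (IrrCharacter G)} (hB : IsPBlock M B) {P : Subgroup G}
    (hP : IsDefectGroup 2 M B P) {h : ℕ} (h2 : 2 ≤ h) (φ : P ≃* DihedralGroup (2 * h)) :
    Nat.card B = h + 3 ∧ 1 ≤ blockRank 2 B ∧ blockRank 2 B ≤ 3 ∧
      Nat.card {χ : IrrCharacter G // χ ∈ B ∧ blockHeight 2 B (χ : G → ℂ) = 0} = 4 ∧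
      ∀ χ ∈ B, blockHeight 2 B (χ : G → ℂ) ≤ 1 := by
  haveI : M.IsPrime := hM.2.1.isPrime
  haveI : Fact (Nat.Prime 2) := ⟨Nat.prime_two⟩
  haveI := Block.charP_resF hM
  letI := Fintype.ofFinite G
  haveI : NeZero (2 * h) := ⟨by omega⟩
  obtain ⟨c, hc⟩ := exists_maxPair_of_isDef (S := pairSys M G)
    (isDef_of_isDefectGroup (B := (⟨B, hB⟩ : Blk M G)) hP)
  obtain ⟨D, hDB⟩ := exists_ctx hM hc h2 φ
  obtain ⟨h1, hr1, hr3, h4, hh⟩ := D.invariants
  obtain rfl : D.B.1 = B := congrArg Subtype.val hDB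
  refine ⟨by rw [Nat.card_eq_fintype_card, h1], hr1, hr3, ?_, hh⟩
  rw [← h4, ← Fintype.card_subtype, ← Nat.card_eq_fintype_card]
  exact (Nat.card_congr (Equiv.subtypeSubtypeEquivSubtypeInter (fun χ => χ ∈ D.B.1)
    (fun χ : IrrCharacter G => blockHeight 2 D.B.1 (χ : G → ℂ) = 0))).symm

end Cfsg.Agent.BlockDih
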