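import Cfsg.Agent.BlockHeight.MajorPairs
import Cfsg.Agent.BrauerPairs.Nilpotent
import Cfsg.Agent.BrauerPairs.Nil.Main

/-!
# A two-block with dihedral defect group: the centralizer of the central involution

The block of the centralizer of the central involution under the maximal pair is nilpotent.
-/

set_option autoImplicit false
set_option maxHeartbeats 800000
set_option linter.unusedSectionVars false
set_option linter.style.haveILetI false

noncomputable section

namespace Cfsg.Agent.BlockDih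

open MonoidAlgebra Cfsg Cfsg.Agent.BrauerPairs Cfsg.Agent.BrauerPairs.Nil
open scoped Classical

universe u

/-- A maximal pair with a dihedral group of order `4 h`. -/
structure Ctx (M : Ideal AlgInt) [M.IsPrime] [CharP (Block.ResF M) 2] (G : Type u) [Group G]
    [Fintype G] (h : ℕ) where
  /-- The block. -/
  B : Blk M G
  /-- The defect group. -/
  P : Subgroup G
  /-- The block of its centralizer. -/
  e : Blk M (Subgroup.centralizer (P : Set G))
  isPModular : IsPModular 2 M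
  maxPair : MaxPair (blockSysTop M) (pairSys M G) 2 B ⟨P, e⟩
  /-- The rotation. -/
  a : G
  /-- A reflection. -/
  t : G
  mem_a : a ∈ P
  mem_t : t ∈ P
  orderOf_a : orderOf a = 2 * h
  two_le : 2 ≤ h
  flip : t * a * t⁻¹ = a⁻¹
  refl_sq : ∀ x ∈ P, x ∉ Subgroup.zpowers a → x * x = 1
  index_two : ∀ x ∈ P, x ∉ Subgroup.zpowers a → t⁻¹ * x ∈ Subgroup.zpowers a
  not_mem_t : t ∉ Subgroup.zpowers a
  card_P : Nat.card P = 4 * h

theorem dihedral_cases {h : ℕ} (x : DihedralGroup (2 * h)) :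
    (∃ i, x = DihedralGroup.r i) ∨ ∃ i, x = DihedralGroup.sr i := by
  rcases x with i | i
  · exact Or.inl ⟨i, rfl⟩
  · exact Or.inr ⟨i, rfl⟩

variable {M : Ideal AlgInt} [M.IsPrime] [CharP (Block.ResF M) 2] {G : Type u} [Group G]
  [Fintype G] {h : ℕ}

/-- The data exist for every maximal pair with a dihedral group. -/
theorem exists_ctx (hM : IsPModular 2 M) {B : Blk M G} {P : Subgroup G}
    {e : Blk M (Subgroup.centralizer (P : Set G))}
    (hm : MaxPair (blockSysTop M) (pairSys M G) 2 B ⟨P, e⟩) (h2 : 2 ≤ h)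
    (φ : P ≃* DihedralGroup (2 * h)) :
    ∃ D : Ctx M G h, D.B = B := by
  haveI : NeZero (2 * h) := ⟨by omega⟩
  set a : P := φ.symm (DihedralGroup.r 1) with ha
  set t : P := φ.symm (DihedralGroup.sr 0) with ht
  have hrot : ∀ i : ZMod (2 * h), φ.symm (DihedralGroup.r i) = a ^ i.val := fun i => by
    rw [ha, ← map_pow, DihedralGroup.r_one_pow, ZMod.natCast_zmod_val]
  have hmem : ∀ x : P, (x : G) ∈ Subgroup.zpowers (a : G) → ∃ i, φ x = DihedralGroup.r i := by
    intro x hx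
    obtain ⟨k, hk⟩ := Subgroup.mem_zpowers_iff.1 hx
    have : a ^ k = x := Subtype.ext (by simpa using hk)
    refine ⟨(k : ZMod (2 * h)), ?_⟩
    rw [← this, map_zpow, ha, MulEquiv.apply_symm_apply, DihedralGroup.r_one_zpow]
  have hnot : ∀ x : G, ∀ hx : x ∈ P, x ∉ Subgroup.zpowers (a : G) →
      ∃ i, φ ⟨x, hx⟩ = DihedralGroup.sr i := by
    intro x hx hxa
    refine (dihedral_cases (φ ⟨x, hx⟩)).resolve_left fun ⟨i, hi⟩ => hxa ?_
    have h1 : (⟨x, hx⟩ : P) = a ^ i.val := by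
      rw [← hrot, ← hi, MulEquiv.symm_apply_apply]
    have h2 : x = (a : G) ^ i.val := by simpa using congrArg Subtype.val h1
    rw [h2]
    exact Subgroup.pow_mem _ (Subgroup.mem_zpowers _) _
  refine ⟨{ B := B, P := P, e := e, isPModular := hM, maxPair := hm, a := a, t := t, mem_a := a.2,
            mem_t := t.2, orderOf_a := ?_, two_le := h2, flip := ?_, refl_sq := ?_,
            index_two := ?_, not_mem_t := ?_, card_P := ?_ }, rfl⟩
  · rw [Subgroup.orderOf_coe, ha, MulEquiv.orderOf_eq, DihedralGroup.orderOf_r_one]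
  · have : t * a * t⁻¹ = a⁻¹ := φ.injective (by
      simp [ha, ht, DihedralGroup.inv_sr, DihedralGroup.inv_r, DihedralGroup.sr_mul_r,
        DihedralGroup.sr_mul_sr])
    exact congrArg Subtype.val this
  · intro x hx hxa
    obtain ⟨i, hi⟩ := hnot x hx hxa
    have : (⟨x, hx⟩ : P) * ⟨x, hx⟩ = 1 := φ.injective (by
      rw [map_mul, map_one, hi, DihedralGroup.sr_mul_self])
    exact congrArg Subtype.val this
  · intro x hx hxa
    obtain ⟨i, hi⟩ := hnot x hx hxa
    have h1 : t⁻¹ * ⟨x, hx⟩ = a ^ i.val := by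
      rw [← hrot]
      apply φ.injective
      simp [ht, hi, DihedralGroup.inv_sr, DihedralGroup.sr_mul_sr]
    have h2 := congrArg Subtype.val h1
    simp only [Subgroup.coe_mul, Subgroup.coe_inv, SubgroupClass.coe_pow] at h2
    rw [h2]
    exact Subgroup.pow_mem _ (Subgroup.mem_zpowers _) _
  · intro hc
    obtain ⟨i, hi⟩ := hmem t hc
    rw [ht, MulEquiv.apply_symm_apply] at hi
    simp at hi
  · rw [Nat.card_congr φ.toEquiv, DihedralGroup.nat_card]
    ring

namespace Ctx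

variable (D : Ctx M G h)

theorem isPGroup : IsPGroup 2 D.P := D.maxPair.1.1

theorem zpowers_le : Subgroup.zpowers D.a ≤ D.P := Subgroup.zpowers_le.2 D.mem_a

theorem pow_eq_one_iff (n : ℕ) : D.a ^ n = 1 ↔ 2 * h ∣ n := by
  rw [← D.orderOf_a, orderOf_dvd_iff_pow_eq_one]

include D in
theorem exists_pow : ∃ m, 2 * h = 2 ^ m := by
  obtain ⟨m, hm⟩ := (IsPGroup.iff_orderOf.1 D.isPGroup) ⟨D.a, D.mem_a⟩
  rw [Subgroup.orderOf_mk] at hm
  exact ⟨m, by rw [← D.orderOf_a, hm]⟩

include D in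
theorem even_h : Even h := by
  obtain ⟨m, hm⟩ := D.exists_pow
  have := D.two_le
  rcases m with - | - | m
  · simp at hm
  · simp at hm; omega
  · exact ⟨2 ^ m, by rw [pow_succ, pow_succ] at hm; omega⟩

/-- The central involution. -/
def z : G := D.a ^ h

theorem z_mem : D.z ∈ D.P := pow_mem D.mem_a _

theorem z_mem_zpowers : D.z ∈ Subgroup.zpowers D.a := Subgroup.pow_mem _ (Subgroup.mem_zpowers _) _

theorem z_ne_one : D.z ≠ 1 := fun hz => by
  have := Nat.le_of_dvd (by linarith [D.two_le]) ((D.pow_eq_one_iff h).1 hz)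
  linarith [D.two_le]

theorem z_sq : D.z * D.z = 1 := by
  rw [z, ← pow_add, D.pow_eq_one_iff]
  exact ⟨1, by ring⟩

theorem sq_eq_one {c : G} (hc : c ∈ Subgroup.zpowers D.a) (h2 : c * c = 1) :
    c = 1 ∨ c = D.z := by
  obtain ⟨k, rfl⟩ := mem_zpowers_iff_mem_range_orderOf.1 hc |> Finset.mem_image.1 |>
    fun ⟨k, hk, e⟩ => (⟨k, e.symm⟩ : ∃ k : ℕ, c = D.a ^ k)
  rw [← pow_add, D.pow_eq_one_iff] at h2
  obtain ⟨j, hj⟩ : h ∣ k := by
    obtain ⟨j, hj⟩ := h2
    exact ⟨j, by linarith⟩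
  rw [hj, pow_mul, show D.a ^ h = D.z from rfl]
  rcases Nat.even_or_odd j with ⟨l, rfl⟩ | ⟨l, rfl⟩
  · left; rw [← two_mul, pow_mul, sq, D.z_sq, one_pow]
  · right; rw [pow_succ, pow_mul, sq, D.z_sq, one_pow, one_mul]

theorem flip_pow (k : ℕ) : D.t * D.a ^ k * D.t⁻¹ = (D.a ^ k)⁻¹ := by
  rw [← conj_pow, D.flip, inv_pow]

theorem z_central {x : G} (hx : x ∈ D.P) : x * D.z = D.z * x := by
  by_cases hxa : x ∈ Subgroup.zpowers D.a
  · obtain ⟨k, rfl⟩ := Subgroup.mem_zpowers_iff.1 hxa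
    exact ((Commute.refl D.a).zpow_left k).pow_right h
  · obtain ⟨k, hk⟩ := Subgroup.mem_zpowers_iff.1 (D.index_two x hx hxa)
    obtain rfl : x = D.t * D.a ^ k := by rw [hk, mul_inv_cancel_left]
    have ht : D.t * D.z = D.z * D.t := by
      have h1 := D.flip_pow h
      rw [show D.a ^ h = D.z from rfl, inv_eq_of_mul_eq_one_right D.z_sq, mul_inv_eq_iff_eq_mul] at h1
      exact h1
    have hk' : Commute (D.a ^ k) D.z := ((Commute.refl D.a).zpow_left k).pow_right h
    rw [mul_assoc, hk'.eq, ← mul_assoc, ht, mul_assoc]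

/-- The centralizer of the central involution. -/
abbrev L : Subgroup G := Subgroup.centralizer (Subgroup.zpowers D.z : Set G)

theorem P_le_L : D.P ≤ D.L := BlockHeight.le_centralizer_zpowers fun _ hx => D.z_central hx

theorem z_mem_L : D.z ∈ D.L := D.P_le_L D.z_mem

theorem mem_L {x : G} : x ∈ D.L ↔ x * D.z = D.z * x := BlockHeight.mem_centralizer_zpowers

theorem z_mem_center_L : (⟨D.z, D.z_mem_L⟩ : D.L) ∈ Subgroup.center D.L :=
  Subgroup.mem_center_iff.2 fun x => Subtype.ext (D.mem_L.1 x.2)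

/-- An element of odd order normalizing a subgroup and fixing the involution centralizes it. -/
theorem mem_centralizer_of_odd {Q : Subgroup G} (hQ : Q ≤ D.P) {x : G}
    (hN : x ∈ Subgroup.normalizer (Q : Set G)) (hxz : x * D.z = D.z * x)
    (hodd : ¬ 2 ∣ orderOf x) : x ∈ Subgroup.centralizer (Q : Set G) := by
  have hconj : ∀ {q : G}, q ∈ Q → x * q * x⁻¹ ∈ Q := fun hq =>
    (Subgroup.mem_normalizer_iff.1 hN _).1 hq
  have hzfix : x * D.z * x⁻¹ = D.z := by rw [hxz, mul_inv_cancel_right]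
  -- rotations in `Q` go to rotations
  have hrot : ∀ q ∈ Q, q ∈ Subgroup.zpowers D.a → x * q * x⁻¹ ∈ Subgroup.zpowers D.a := by
    intro q hq hqa
    by_contra hn
    have h1 := D.refl_sq _ (hQ (hconj hq)) hn
    rw [show x * q * x⁻¹ * (x * q * x⁻¹) = x * (q * q) * x⁻¹ by group, mul_inv_eq_one,
      mul_eq_left] at h1
    rcases D.sq_eq_one hqa h1 with rfl | rfl
    · exact hn (by simp)
    · exact hn (by rw [hzfix]; exact D.z_mem_zpowers)
  -- a fixed discrepancy with trivial square is trivial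
  have hdisc : ∀ q c : G, x * q * x⁻¹ = q * c → x * c * x⁻¹ = c → c * c = 1 → c = 1 := by
    intro q c hc hfix h2
    have key : ∀ n : ℕ, x ^ n * q * (x ^ n)⁻¹ = q * c ^ n := by
      intro n
      induction n with
      | zero => simp
      | succ n ih =>
        have hfix' : x * c ^ n * x⁻¹ = c ^ n := by rw [← conj_pow, hfix]
        calc x ^ (n + 1) * q * (x ^ (n + 1))⁻¹
            = x * (x ^ n * q * (x ^ n)⁻¹) * x⁻¹ := by rw [pow_succ']; group
          _ = x * q * x⁻¹ * (x * c ^ n * x⁻¹) := by rw [ih]; group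
          _ = q * c ^ (n + 1) := by rw [hc, hfix', pow_succ']; group
    have h3 := key (orderOf x)
    rw [pow_orderOf_eq_one, one_mul, inv_one, mul_one, left_eq_mul] at h3
    obtain ⟨l, hl⟩ : Odd (orderOf x) := Nat.not_even_iff_odd.1 fun he => hodd he.two_dvd
    rwa [hl, pow_succ, pow_mul, sq, h2, one_pow, one_mul] at h3
  have hfixz : ∀ c, c ∈ Subgroup.zpowers D.a → c * c = 1 → x * c * x⁻¹ = c := fun c hca h2 => by
    rcases D.sq_eq_one hca h2 with rfl | rfl
    · group
    · exact hzfix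
  -- the rotations of `Q`
  obtain ⟨m, hm⟩ := D.exists_pow
  have hR : ∀ j : ℕ, ∀ q ∈ Q, q ∈ Subgroup.zpowers D.a → q ^ 2 ^ j = 1 → x * q * x⁻¹ = q := by
    intro j
    induction j with
    | zero => intro q _ _ h1; rw [pow_zero, pow_one] at h1; subst h1; group
    | succ j ih =>
      intro q hq hqa h1
      have h2 : x * (q * q) * x⁻¹ = q * q := ih _ (mul_mem hq hq) (mul_mem hqa hqa) (by
        rw [← sq, ← pow_mul, ← pow_succ']; exact h1)
      set c := q⁻¹ * (x * q * x⁻¹) with hc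
      have hqx := hrot q hq hqa
      have hca : c ∈ Subgroup.zpowers D.a := mul_mem (inv_mem hqa) hqx
      have hcomm : Commute (x * q * x⁻¹) q⁻¹ := by
        obtain ⟨k, hk⟩ := Subgroup.mem_zpowers_iff.1 hqx
        obtain ⟨l, hl⟩ := Subgroup.mem_zpowers_iff.1 (inv_mem hqa)
        rw [← hk, ← hl]
        exact Commute.zpow_zpow_self _ _ _
      have hcc : c * c = 1 := by
        rw [hc, show q⁻¹ * (x * q * x⁻¹) * (q⁻¹ * (x * q * x⁻¹)) =
          q⁻¹ * ((x * q * x⁻¹) * q⁻¹) * (x * q * x⁻¹) by group, hcomm.eq,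
          show q⁻¹ * (q⁻¹ * (x * q * x⁻¹)) * (x * q * x⁻¹) = (q * q)⁻¹ * (x * (q * q) * x⁻¹) by
            group, h2, inv_mul_cancel]
      have hc1 := hdisc q c (by rw [hc, mul_inv_cancel_left]) (hfixz c hca hcc) hcc
      rw [hc, inv_mul_eq_one] at hc1
      exact hc1.symm
  have hR' : ∀ q ∈ Q, q ∈ Subgroup.zpowers D.a → x * q * x⁻¹ = q := fun q hq hqa =>
    hR m q hq hqa (by
      rw [← hm, ← D.orderOf_a]
      obtain ⟨k, rfl⟩ := Subgroup.mem_zpowers_iff.1 hqa
      rw [← zpow_natCast, ← zpow_mul, mul_comm, zpow_mul, zpow_natCast, pow_orderOf_eq_one,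
        one_zpow])
  rw [Subgroup.mem_centralizer_iff]
  intro q hq
  suffices hfix : x * q * x⁻¹ = q by
    conv_lhs => rw [← hfix]
    group
  by_cases hqa : q ∈ Subgroup.zpowers D.a
  · exact hR' q hq hqa
  set q' := x * q * x⁻¹ with hq'
  have hq'a : q' ∉ Subgroup.zpowers D.a := by
    intro hc
    have h1 := hR' q' (hconj hq) hc
    have : q = q' := by
      calc q = x⁻¹ * q' * x := by rw [hq']; group
        _ = x⁻¹ * (x * q' * x⁻¹) * x := by rw [h1]
        _ = q' := by group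
    exact hqa (this ▸ hc)
  set c := q⁻¹ * q' with hc
  have hcQ : c ∈ Q := mul_mem (inv_mem hq) (hconj hq)
  have hca : c ∈ Subgroup.zpowers D.a := by
    rw [hc, show q⁻¹ * q' = (D.t⁻¹ * q)⁻¹ * (D.t⁻¹ * q') by group]
    exact mul_mem (inv_mem (D.index_two q (hQ hq) hqa)) (D.index_two q' (hQ (hconj hq)) hq'a)
  have hfc := hR' c hcQ hca
  have key : ∀ n : ℕ, x ^ n * q * (x ^ n)⁻¹ = q * c ^ n := by
    intro n
    induction n with
    | zero => simp
    | succ n ih =>
      calc x ^ (n + 1) * q * (x ^ (n + 1))⁻¹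
          = x * (x ^ n * q * (x ^ n)⁻¹) * x⁻¹ := by rw [pow_succ']; group
        _ = q' * (x * c ^ n * x⁻¹) := by rw [ih, hq']; group
        _ = q * c ^ (n + 1) := by rw [← conj_pow, hfc, pow_succ', ← mul_assoc q c, hc, mul_inv_cancel_left]
  have h3 := key (orderOf x)
  rw [pow_orderOf_eq_one, one_mul, inv_one, mul_one, left_eq_mul] at h3
  have h4 : c ^ (2 * h) = 1 := by
    rw [← D.orderOf_a]
    obtain ⟨k, hk⟩ := Subgroup.mem_zpowers_iff.1 hca
    rw [← hk, ← zpow_natCast, ← zpow_mul, mul_comm, zpow_mul, zpow_natCast, pow_orderOf_eq_one,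
      one_zpow]
  have h5 : (orderOf x).Coprime (2 * h) := by
    rw [hm]
    exact ((Nat.Prime.coprime_iff_not_dvd Nat.prime_two).2 hodd).symm.pow_right m
  have h6 : orderOf c ∣ Nat.gcd (orderOf x) (2 * h) :=
    Nat.dvd_gcd (orderOf_dvd_of_pow_eq_one h3) (orderOf_dvd_of_pow_eq_one h4)
  rw [h5, Nat.dvd_one, orderOf_eq_one_iff, hc, inv_mul_eq_one] at h6
  exact h6.symm

/-- The block of the centralizer of the involution below the maximal pair. -/
def f : Blk M D.L :=
  (existsUnique_sle (S := pairSys M G) (b := ⟨D.P, D.e⟩) D.isPGroup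
    (Subgroup.zpowers_le.2 D.z_mem)).exists.choose

theorem f_sle : SLE (pairSys M G) 2 ⟨Subgroup.zpowers D.z, D.f⟩ ⟨D.P, D.e⟩ :=
  (existsUnique_sle (S := pairSys M G) (b := ⟨D.P, D.e⟩) D.isPGroup
    (Subgroup.zpowers_le.2 D.z_mem)).exists.choose_spec

theorem isDefectGroup_f : IsDefectGroup 2 M D.f.1 (D.P.subgroupOf D.L) := by
  have h1 := (BlockHeight.isDefIn_conj (g := 1) D.maxPair (fun x hx => D.z_central hx) D.f_sle
    (u := D.z) (β := D.f) ⟨by ext x; simp, (cj_one _).symm⟩).1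
  rw [show D.P.map (MulAut.conj (1 : G)).toMonoidHom = D.P by ext x; simp] at h1
  rw [isDefectGroup_subgroupOf_iff, inf_of_le_left D.P_le_L]
  exact h1

/-- The data of the nilpotent block of the centralizer of the involution. -/
structure Loc where
  /-- The nilpotent block with its maximal pair. -/
  N : NilData 2 M D.L
  P_eq : N.P = D.P.subgroupOf D.L
  lifts : Lifts D.L ⟨N.P, N.e⟩ ⟨D.P, D.e⟩
  B_eq : N.B = D.f

theorem exists_loc : Nonempty D.Loc := by
  obtain ⟨⟨Q', i⟩, hd⟩ := exists_lifts_down (L := D.L) ⟨D.P, D.e⟩ D.P_le_L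
    (centralizer_anti (Subgroup.zpowers_le.2 D.z_mem))
  have hQ' : Q' = D.P.subgroupOf D.L := by
    have h1 : Q'.map D.L.subtype = D.P := hd.1
    rw [← h1]
    exact (Subgroup.comap_map_eq_self_of_injective D.L.subtype_injective Q').symm
  subst hQ'
  have hPL : D.P ≤ Subgroup.normalizer (Subgroup.zpowers D.z : Set G) :=
    D.P_le_L.trans (Subgroup.centralizer_le_normalizer _)
  have hdE : PairOf (blockSysTop M) (pairSys M D.L) 2 D.f ⟨D.P.subgroupOf D.L, i⟩ :=
    hd.pairOf (E := D.f) rfl (nsub_of_sle_of_le_normalizer D.isPGroup D.f_sle hPL)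
  have hDef : IsDef (blockSysTop M) 2 D.f (D.P.subgroupOf D.L) :=
    (isDefectGroup_iff D.f (D.P.subgroupOf D.L)).1 D.isDefectGroup_f
  have hmax : MaxPair (blockSysTop M) (pairSys M D.L) 2 D.f ⟨D.P.subgroupOf D.L, i⟩ := by
    refine ⟨hdE, fun c hc hle => ?_⟩
    obtain ⟨g, hg⟩ := hDef.conjLE hc.1 hc.trunc_ne_zero
    have hcard := Subgroup.card_le_of_le hg
    rw [Subgroup.card_map_of_injective (MulAut.conj g).injective] at hcard
    exact (Subgroup.eq_of_le_of_card_ge hle.le hcard).symm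
  have hnil : IsNilpotentBlock 2 M D.f.1 := by
    refine isNilpotentBlock_of_sle hmax fun c hc x hx hreg => ?_
    obtain ⟨Q, g⟩ := c
    have hQP : Q.map D.L.subtype ≤ D.P := by
      rintro _ ⟨q, hq, rfl⟩
      exact hc.le hq
    have hxN : (x : G) ∈ Subgroup.normalizer ((Q.map D.L.subtype : Subgroup G) : Set G) :=
      Subgroup.le_normalizer_map _ ⟨x, hx.1, rfl⟩
    have h1 := D.mem_centralizer_of_odd hQP hxN (D.mem_L.1 x.2) (by
      rw [Subgroup.orderOf_coe]; exact hreg)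
    rw [Subgroup.mem_centralizer_iff]
    intro q hq
    exact Subtype.ext (Subgroup.mem_centralizer_iff.1 h1 q ⟨q, hq, rfl⟩)
  exact ⟨⟨⟨D.f, D.P.subgroupOf D.L, i, D.isPModular, (isMaximalBrauerPair_iff D.f ⟨_, i⟩).2 hmax,
    hnil⟩, rfl, hd, rfl⟩⟩

end Ctx

end Cfsg.Agent.BlockDih
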